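import Mathlib
import Cfsg.Agent.H2.CycSyl
import Cfsg.Agent.H1.CopExtra
import Cfsg.Agent.H1.PGrp2
import Cfsg.Agent.H1.Frat
import Cfsg.Agent.H1.MinNormal
import Cfsg.Agent.H3.FitHall
import Cfsg.Agent.H3.CycStruct
import Cfsg.Agent.H3.Fusion

set_option autoImplicit false

/-!
An elementary abelian `2`-group acting on a nilpotent group of odd order.
-/

namespace CfsgH3

open Subgroup Cfsg

open scoped Pointwise commutatorElement

section

variable {G : Type*} [Group G] [Finite G]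

theorem coprime_centralizes_of_selfcent {A F : Subgroup G} (hAF : A ≤ normalizer (F : Set G)) (hF : Group.IsNilpotent F) 
    (hcop : (Nat.card A).Coprime (Nat.card F)) (n : ℕ) : ∀ C : Subgroup G, Nat.card F - Nat.card C = n → C ≤ F → F ⊓ centralizer (C : Set G) ≤ C → 
      A ≤ centralizer (C : Set G) → A ≤ centralizer (F : Set G) := by
  induction n using Nat.strong_induction_on with
  | _ n ih =>
  intro C hn hCF hself hAC
  by_cases hne : C = F
  · rwa [hne] at hAC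
  have hlt := CfsgH1.lt_inf_normalizer_of_nilpotent hF hCF hne
  set N := F ⊓ normalizer (C : Set G) with hN
  have hNF : N ≤ F := inf_le_left
  have hACn : A ≤ normalizer (C : Set G) := hAC.trans (centralizer_le_normalizer _)
  have hAN : A ≤ normalizer (N : Set G) := CfsgH1.le_normalizer_inf hAF (hACn.trans le_normalizer)
  have h1 : ⁅N, A⁆ ≤ C := by
    rw [Subgroup.commutator_le]
    intro x hx a ha
    apply hself
    refine ⟨?_, ?_⟩
    · rw [commutatorElement_def]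
      have h2 : a * x⁻¹ * a⁻¹ ∈ F := (mem_normalizer_iff.1 (hAF ha) _).1 (F.inv_mem hx.1)
      have e : x * a * x⁻¹ * a⁻¹ = x * (a * x⁻¹ * a⁻¹) := by group
      rw [e]; exact F.mul_mem hx.1 h2
    · show ⁅x, a⁆ ∈ centralizer (C : Set G)
      rw [mem_centralizer_iff]
      intro c hc
      have hac : ∀ c ∈ C, a * c = c * a := fun c hc => ((mem_centralizer_iff.1 (hAC ha)) c hc).symm
      have h3 : x⁻¹ * c * x ∈ C := by
        have := (mem_normalizer_iff.1 (inv_mem hx.2) c).1 hc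
        rwa [inv_inv] at this
      have h4 := hac _ h3
      have h5 := hac _ hc
      rw [commutatorElement_def]
      -- c x a x⁻¹ a⁻¹ = x a x⁻¹ a⁻¹ c
      calc c * (x * a * x⁻¹ * a⁻¹) = x * ((x⁻¹ * c * x) * a) * x⁻¹ * a⁻¹ := by group
        _ = x * (a * (x⁻¹ * c * x)) * x⁻¹ * a⁻¹ := by rw [h4]
        _ = x * a * x⁻¹ * (c * a⁻¹) := by group
        _ = x * a * x⁻¹ * (a⁻¹ * (a * c) * a⁻¹) := by group
        _ = x * a * x⁻¹ * (a⁻¹ * (c * a) * a⁻¹) := by rw [h5]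
        _ = _ := by group
  have h2 : ⁅⁅N, A⁆, A⁆ = ⊥ := by
    rw [eq_bot_iff]
    refine (commutator_mono h1 le_rfl).trans ?_
    rw [← eq_bot_iff, Subgroup.commutator_comm]
    exact CfsgH1.le_centralizer_iff_commutator.1 hAC
  have h3 := CfsgH1.coprime_commutator_eq_bot hAN (Nat.Coprime.coprime_dvd_right (Subgroup.card_dvd_of_le hNF) hcop)
    (Or.inr (CfsgH1.isSolvable_of_le (CfsgH1.isNilpotent_isSolvable hF) hNF)) h2
  have h4 : A ≤ centralizer (N : Set G) := by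
    rw [CfsgH1.le_centralizer_iff_commutator, Subgroup.commutator_comm]; exact h3
  have h5 := card_lt_card_of_lt hlt
  have h6 : Nat.card N ≤ Nat.card F := Subgroup.card_le_of_le hNF
  apply ih _ (by omega) N rfl hNF _ h4
  refine le_trans (inf_le_inf_left _ (centralizer_le hlt.le)) (hself.trans hlt.le)

/-- the subgroup of `W` inverted by `j` modulo `Φ` -/
def invMod (W Φ : Subgroup G) (j : G) (hΦ : ∀ x ∈ W, ∀ y ∈ W, x * y * x⁻¹ * y⁻¹ ∈ Φ) (hj : ∀ x ∈ W, j * x * j⁻¹ ∈ W) : Subgroup G where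
  carrier := {x | x ∈ W ∧ x * (j * x * j⁻¹) ∈ Φ}
  one_mem' := ⟨W.one_mem, by
    have : (1 : G) * (j * 1 * j⁻¹) = 1 := by group
    rw [this]; exact Φ.one_mem⟩
  mul_mem' := by
    rintro x y ⟨hx, hx'⟩ ⟨hy, hy'⟩
    refine ⟨W.mul_mem hx hy, ?_⟩
    have e : x * y * (j * (x * y) * j⁻¹) = (x * (j * x * j⁻¹)) * ((j * x * j⁻¹)⁻¹ * y * (j * x * j⁻¹)⁻¹⁻¹ * y⁻¹) * (y * (j * y * j⁻¹)) := by group
    rw [e]
    exact Φ.mul_mem (Φ.mul_mem hx' (hΦ _ (W.inv_mem (hj x hx)) _ hy)) hy'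
  inv_mem' := by
    rintro x ⟨hx, hx'⟩
    refine ⟨W.inv_mem hx, ?_⟩
    have e : x⁻¹ * (j * x⁻¹ * j⁻¹) = ((x * (j * x * j⁻¹)) * ((j * x * j⁻¹)⁻¹ * x⁻¹ * (j * x * j⁻¹)⁻¹⁻¹ * x⁻¹⁻¹))⁻¹ := by group
    rw [e]
    exact Φ.inv_mem (Φ.mul_mem hx' (hΦ _ (W.inv_mem (hj x hx)) _ (W.inv_mem hx)))

/-- the subgroup of `W` fixed by `j` modulo `Φ` -/
def fixMod (W Φ : Subgroup G) (j : G) (hΦn : ∀ x ∈ W, ∀ y ∈ Φ, x * y * x⁻¹ ∈ Φ) (hj : ∀ x ∈ W, j * x * j⁻¹ ∈ W) : Subgroup G where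
  carrier := {x | x ∈ W ∧ (j * x * j⁻¹) * x⁻¹ ∈ Φ}
  one_mem' := ⟨W.one_mem, by
    have : (j * 1 * j⁻¹) * (1 : G)⁻¹ = 1 := by group
    rw [this]; exact Φ.one_mem⟩
  mul_mem' := by
    rintro x y ⟨hx, hx'⟩ ⟨hy, hy'⟩
    refine ⟨W.mul_mem hx hy, ?_⟩
    have e : (j * (x * y) * j⁻¹) * (x * y)⁻¹ = ((j * x * j⁻¹) * ((j * y * j⁻¹) * y⁻¹) * (j * x * j⁻¹)⁻¹) * ((j * x * j⁻¹) * x⁻¹) := by group
    rw [e]
    exact Φ.mul_mem (hΦn _ (hj x hx) _ hy') hx'
  inv_mem' := by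
    rintro x ⟨hx, hx'⟩
    refine ⟨W.inv_mem hx, ?_⟩
    have e : (j * x⁻¹ * j⁻¹) * x⁻¹⁻¹ = (j * x * j⁻¹)⁻¹ * ((j * x * j⁻¹) * x⁻¹)⁻¹ * (j * x * j⁻¹)⁻¹⁻¹ := by group
    rw [e]
    exact hΦn _ (W.inv_mem (hj x hx)) _ (Φ.inv_mem hx')

theorem mem_of_sq_mem {L Φ : Subgroup G} (hL : Odd (Nat.card L)) {x : G} (hx : x ∈ L) (h : x * x ∈ Φ) : x ∈ Φ := by
  obtain ⟨k, hk⟩ := hL
  have h1 : (⟨x, hx⟩ : L) ^ Nat.card L = 1 := pow_card_eq_one'
  have h2 : x ^ Nat.card L = 1 := congrArg Subtype.val h1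
  rw [hk, pow_succ, pow_mul, pow_two] at h2
  have h3 : x = ((x * x) ^ k)⁻¹ := (eq_inv_of_mul_eq_one_right h2)
  rw [h3]
  exact Φ.inv_mem (Φ.pow_mem h k)

theorem exists_inv_prime {I R J : Subgroup G} (hIc : ∀ x ∈ I, ∀ y ∈ I, x * y = y * x) (hI2 : ∀ x ∈ I, x * x = 1)
    (hIR : I ≤ normalizer (R : Set G)) (hRn : Group.IsNilpotent R) (hRo : Odd (Nat.card R)) (hJI : J ≤ I) (hJ : ¬ J ≤ centralizer (R : Set G)) : 
    ∃ A ≤ R, (Nat.card A).Prime ∧ I ≤ normalizer (A : Set G) ∧ ¬ J ≤ centralizer (A : Set G) := by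
  classical
  obtain ⟨R₀, ⟨hR₀R, hIR₀, hJR₀⟩, hmin⟩ := CfsgH1.exists_minimal_of_set {L : Subgroup G | L ≤ R ∧ I ≤ normalizer (L : Set G) ∧ ¬ J ≤ centralizer (L : Set G)} 
    ⟨R, le_rfl, hIR, hJ⟩
  have hmin' : ∀ L : Subgroup G, L ≤ R₀ → I ≤ normalizer (L : Set G) → ¬ J ≤ centralizer (L : Set G) → L = R₀ := fun L h1 h2 h3 => 
    hmin L ⟨h1.trans hR₀R, h2, h3⟩ h1
  have hR₀n : Group.IsNilpotent R₀ := CfsgH1.isNilpotent_of_le hRn hR₀R
  have hR₀o : Odd (Nat.card R₀) := Odd.of_dvd_nat hRo (Subgroup.card_dvd_of_le hR₀R)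
  obtain ⟨j, hjJ, hjR⟩ : ∃ j ∈ J, j ∉ centralizer (R₀ : Set G) := by
    by_contra h
    push Not at h
    exact hJR₀ h
  have hjI := hJI hjJ
  have hIconj : ∀ i ∈ I, ∀ x ∈ R₀, i * x * i⁻¹ ∈ R₀ := fun i hi x hx => (mem_normalizer_iff.1 (hIR₀ hi) x).1 hx
  -- R₀ is a q-group
  obtain ⟨q, hq, hRq⟩ : ∃ q : ℕ, q.Prime ∧ IsPGroup q R₀ := by
    have h1 : (centralizer ({j} : Set G)).relIndex R₀ ≠ 1 := by
      rw [Ne, Subgroup.relIndex_eq_one]
      intro h
      apply hjR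
      rw [mem_centralizer_iff]
      intro x hx
      exact mem_centralizer_singleton_iff.1 (h hx)
    obtain ⟨q, hq, hqd⟩ := Nat.exists_prime_and_dvd h1
    haveI := Fact.mk hq
    obtain ⟨Q⟩ : Nonempty (Sylow q R₀) := inferInstance
    have hQn : (Q : Subgroup R₀).Normal := by
      haveI := hR₀n
      exact Sylow.normal_of_normalizerCondition Group.normalizerCondition_of_isNilpotent Q
    haveI hQc : (Q : Subgroup R₀).Characteristic := Q.characteristic_of_normal hQn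
    have hnorm := CfsgH1.normalizer_le_map_characteristic (K := R₀) (Q : Subgroup R₀)
    refine ⟨q, hq, ?_⟩
    have h2 := hmin' ((Q : Subgroup R₀).map R₀.subtype) (Subgroup.map_subtype_le _) (hIR₀.trans hnorm) (by
      intro h
      have h3 : (Q : Subgroup R₀) ≤ (centralizer ({j} : Set G)).subgroupOf R₀ := by
        intro x hx
        rw [mem_subgroupOf, mem_centralizer_singleton_iff]
        exact (mem_centralizer_iff.1 (h hjJ)) x ⟨x, hx, rfl⟩
      exact Q.not_dvd_index (hqd.trans (Subgroup.index_dvd_of_le h3)))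
    have h4 : IsPGroup q ((Q : Subgroup R₀).map R₀.subtype) := Q.2.map _
    rwa [h2] at h4
  haveI := Fact.mk hq
  have hq2 : q ≠ 2 := by
    rintro rfl
    obtain ⟨k, hk⟩ := IsPGroup.iff_card.1 hRq
    rcases Nat.eq_zero_or_pos k with rfl | hk0
    · rw [pow_zero, Subgroup.card_eq_one] at hk
      apply hjR
      rw [hk, mem_centralizer_iff]
      intro x hx
      rw [SetLike.mem_coe, mem_bot] at hx
      rw [hx, one_mul, mul_one]
    · rw [hk, Nat.odd_pow_iff hk0.ne'] at hR₀o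
      exact absurd hR₀o (by decide)
  -- the Frattini subgroup
  set Φ := (frattini R₀).map R₀.subtype with hΦdef
  have hΦR : Φ ≤ R₀ := Subgroup.map_subtype_le _
  have hIΦ : I ≤ normalizer (Φ : Set G) := hIR₀.trans (CfsgH1.normalizer_le_map_characteristic (K := R₀) (frattini R₀))
  have hRΦ : R₀ ≤ normalizer (Φ : Set G) := le_normalizer.trans (CfsgH1.normalizer_le_map_characteristic (K := R₀) (frattini R₀))
  have hΦn : ∀ x ∈ R₀, ∀ y ∈ Φ, x * y * x⁻¹ ∈ Φ := fun x hx y hy => (mem_normalizer_iff.1 (hRΦ hx) y).1 hy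
  have hIΦc : ∀ i ∈ I, ∀ y ∈ Φ, i * y * i⁻¹ ∈ Φ := fun x hx y hy => (mem_normalizer_iff.1 (hIΦ hx) y).1 hy
  have hΦc : ∀ x ∈ R₀, ∀ y ∈ R₀, x * y * x⁻¹ * y⁻¹ ∈ Φ := by
    intro x hx y hy
    exact ⟨⁅(⟨x, hx⟩ : R₀), ⟨y, hy⟩⁆, commutator_le_frattini hRq (commutator_mem_commutator (mem_top _) (mem_top _)), rfl⟩
  -- the part inverted by j
  set Wj := invMod R₀ Φ j hΦc (hIconj j hjI) with hWj
  have hWjR : Wj ≤ R₀ := fun x hx => hx.1
  have hjj : j * j = 1 := hI2 j hjI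
  have hinvl : ∀ i ∈ I, i⁻¹ = i := fun i hi => inv_eq_of_mul_eq_one_left (hI2 i hi)
  have hΦWj : Φ < Wj := by
    refine lt_of_le_of_ne ?_ ?_
    · intro x hx
      exact ⟨hΦR hx, Φ.mul_mem hx (hIΦc j hjI x hx)⟩
    · intro h
      -- then j centralizes R₀ modulo Φ
      apply hjR
      have h1 : zpowers j ≤ centralizer (R₀ : Set G) := by
        apply CfsgH1.coprime_trivial_of_frattini (zpowers_le.2 (hIR₀ hjI))
        · rw [Nat.card_zpowers]
          have h2 : orderOf j ∣ 2 := orderOf_dvd_of_pow_eq_one (by rw [pow_two]; exact hjj)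
          apply Nat.Coprime.coprime_dvd_left h2
          obtain ⟨k, hk⟩ := IsPGroup.iff_card.1 (hRq.to_subgroup (frattini R₀))
          rw [hk]
          exact Nat.Coprime.pow_right k ((Nat.coprime_primes Nat.prime_two hq).2 (Ne.symm hq2))
        · intro a ha k hk
          obtain ⟨m, rfl⟩ := ha
          have h2 : ∀ k ∈ R₀, j * k * j⁻¹ * k⁻¹ ∈ Φ := by
            intro k hk
            rw [h]
            refine ⟨R₀.mul_mem (hIconj j hjI k hk) (R₀.inv_mem hk), ?_⟩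
            have e : (j * k * j⁻¹ * k⁻¹) * (j * (j * k * j⁻¹ * k⁻¹) * j⁻¹) = (j * k * j⁻¹) * (k⁻¹ * ((j * j) * k * (j * j)⁻¹)) * (j * k * j⁻¹)⁻¹ := by group
            rw [e, hjj]
            have e2 : (j * k * j⁻¹) * (k⁻¹ * (1 * k * (1 : G)⁻¹)) * (j * k * j⁻¹)⁻¹ = 1 := by group
            rw [e2]; exact Φ.one_mem
          have h3 : j ^ m = 1 ∨ j ^ m = j := by
            rcases Int.even_or_odd' m with ⟨c, hc | hc⟩
            · left
              rw [hc, zpow_mul, show (j : G) ^ (2 : ℤ) = j * j from by rw [zpow_two], hjj, one_zpow]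
            · right
              rw [hc, zpow_add, zpow_mul, show (j : G) ^ (2 : ℤ) = j * j from by rw [zpow_two], hjj, one_zpow, one_mul, zpow_one]
          show j ^ m * k * (j ^ m)⁻¹ * k⁻¹ ∈ Φ
          rcases h3 with h3 | h3
          · rw [h3]
            have : (1 : G) * k * 1⁻¹ * k⁻¹ = 1 := by group
            rw [this]; exact Φ.one_mem
          · rw [h3]; exact h2 k hk
      exact h1 (mem_zpowers j)
  have hIWj : I ≤ normalizer (Wj : Set G) := by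
    have h1 : ∀ i ∈ I, ∀ x ∈ Wj, i * x * i⁻¹ ∈ Wj := by
      rintro i hi x ⟨hx, hx'⟩
      refine ⟨hIconj i hi x hx, ?_⟩
      have e : (i * x * i⁻¹) * (j * (i * x * i⁻¹) * j⁻¹) = (i * x * i⁻¹) * ((j * i) * x * (j * i)⁻¹) := by group
      rw [e, hIc j hjI i hi]
      have e2 : (i * x * i⁻¹) * ((i * j) * x * (i * j)⁻¹) = i * (x * (j * x * j⁻¹)) * i⁻¹ := by group
      rw [e2]; exact hIΦc i hi _ hx'
    exact CfsgH1.le_normalizer_iff_conj.2 h1
  -- minimal I-invariant subgroup above Φ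
  obtain ⟨W, ⟨hΦW, hWWj, hIW⟩, hWmin⟩ := CfsgH1.exists_minimal_of_set {L : Subgroup G | Φ < L ∧ L ≤ Wj ∧ I ≤ normalizer (L : Set G)} ⟨Wj, hΦWj, le_rfl, hIWj⟩
  have hWR : W ≤ R₀ := hWWj.trans hWjR
  have hIWc : ∀ i ∈ I, ∀ x ∈ W, i * x * i⁻¹ ∈ W := fun i hi x hx => (mem_normalizer_iff.1 (hIW hi) x).1 hx
  have hWeig : ∀ i ∈ I, (∀ x ∈ W, (i * x * i⁻¹) * x⁻¹ ∈ Φ) ∨ (∀ x ∈ W, x * (i * x * i⁻¹) ∈ Φ) := by
    intro i hi
    let Wi := fixMod W Φ i (fun x hx => hΦn x (hWR hx)) (hIWc i hi)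
    have hΦWi : Φ ≤ Wi := fun x hx => ⟨hΦW.le hx, Φ.mul_mem (hIΦc i hi x hx) (Φ.inv_mem hx)⟩
    have hWiW : Wi ≤ W := fun x hx => hx.1
    have hIWi : I ≤ normalizer (Wi : Set G) := by
      have h1 : ∀ k ∈ I, ∀ x ∈ Wi, k * x * k⁻¹ ∈ Wi := by
        rintro k hk x ⟨hx, hx'⟩
        refine ⟨hIWc k hk x hx, ?_⟩
        have e : (i * (k * x * k⁻¹) * i⁻¹) * (k * x * k⁻¹)⁻¹ = ((i * k) * x * (i * k)⁻¹) * (k * x * k⁻¹)⁻¹ := by group
        rw [e, hIc i hi k hk]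
        have e2 : ((k * i) * x * (k * i)⁻¹) * (k * x * k⁻¹)⁻¹ = k * ((i * x * i⁻¹) * x⁻¹) * k⁻¹ := by group
        rw [e2]; exact hIΦc k hk _ hx'
      exact CfsgH1.le_normalizer_iff_conj.2 h1
    by_cases h : Φ = Wi
    · right
      intro x hx
      rw [h]
      refine ⟨W.mul_mem hx (hIWc i hi x hx), ?_⟩
      have e : (i * (x * (i * x * i⁻¹)) * i⁻¹) * (x * (i * x * i⁻¹))⁻¹ = (i * x * i⁻¹) * ((i * i) * x * (i * i)⁻¹) * (i * x * i⁻¹)⁻¹ * x⁻¹ := by group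
      rw [e, hI2 i hi]
      have e2 : (i * x * i⁻¹) * (1 * x * (1 : G)⁻¹) * (i * x * i⁻¹)⁻¹ * x⁻¹ = (i * x * i⁻¹) * x * (i * x * i⁻¹)⁻¹ * x⁻¹ := by group
      rw [e2]
      exact hΦc _ (hWR (hIWc i hi x hx)) _ (hWR hx)
    · left
      have h1 := hWmin Wi ⟨lt_of_le_of_ne hΦWi h, hWiW.trans hWWj, hIWi⟩ hWiW
      intro x hx
      rw [← h1] at hx
      exact hx.2
  obtain ⟨x, hxW, hxΦ⟩ := SetLike.exists_of_lt hΦW
  have hxR := hWR hxW
  set L := Φ ⊔ zpowers x with hL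
  have hLR : L ≤ R₀ := sup_le hΦR (zpowers_le.2 hxR)
  have hIL : I ≤ normalizer (L : Set G) := by
    rw [CfsgH1.le_normalizer_iff_conj]
    intro i hi y hy
    have h1 : MulAut.conj i • L ≤ L := by
      rw [hL, Subgroup.smul_sup]
      refine sup_le ?_ ?_
      · rw [CfsgH1.conj_smul_eq_self_iff.2 (hIΦ hi)]; exact le_sup_left
      · have h2 : MulAut.conj i • zpowers x = zpowers (i * x * i⁻¹) := by
          show (zpowers x).map (MulAut.conj i).toMonoidHom = _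
          rw [MonoidHom.map_zpowers]; rfl
        rw [h2, zpowers_le]
        rcases hWeig i hi with h3 | h3
        · have := h3 x hxW
          have e : i * x * i⁻¹ = ((i * x * i⁻¹) * x⁻¹) * x := by group
          rw [e]
          exact mul_mem (mem_sup_left this) (mem_sup_right (mem_zpowers x))
        · have := h3 x hxW
          have e : i * x * i⁻¹ = x⁻¹ * (x * (i * x * i⁻¹)) := by group
          rw [e]
          exact mul_mem (inv_mem (mem_sup_right (mem_zpowers x))) (mem_sup_left this)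
    apply h1
    rw [CfsgH1.mem_conj_smul]
    have e : i⁻¹ * (i * y * i⁻¹) * i = y := by group
    rw [e]; exact hy
  have hLR₀ : L = R₀ := by
    apply hmin' L hLR hIL
    intro h
    have h1 := (mem_centralizer_iff.1 (h hjJ)) x (mem_sup_right (mem_zpowers x))
    have h2 := (hWWj hxW).2
    have e : j * x * j⁻¹ = x := by rw [← h1]; group
    rw [e] at h2
    exact hxΦ (mem_of_sq_mem hR₀o hxR h2)
  have hcyc : IsCyclic R₀ := by
    have h1 : (zpowers (⟨x, hxR⟩ : R₀)) ⊔ frattini R₀ = ⊤ := by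
      have h2 : ((zpowers (⟨x, hxR⟩ : R₀)) ⊔ frattini R₀).map R₀.subtype = (⊤ : Subgroup R₀).map R₀.subtype := by
        rw [Subgroup.map_sup, MonoidHom.map_zpowers, ← hΦdef]
        rw [← MonoidHom.range_eq_map, Subgroup.range_subtype, sup_comm]
        exact hLR₀
      exact Subgroup.map_injective R₀.subtype_injective h2
    have h3 := CfsgH1.eq_top_of_sup_frattini le_rfl h1
    refine ⟨⟨x, hxR⟩, fun y => ?_⟩
    have : y ∈ zpowers (⟨x, hxR⟩ : R₀) := by rw [h3]; trivial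
    exact this
  -- the subgroup of order q
  obtain ⟨k, hk⟩ := IsPGroup.iff_card.1 hRq
  have hk0 : k ≠ 0 := by
    rintro rfl
    rw [pow_zero, Subgroup.card_eq_one] at hk
    rw [hk, mem_bot] at hxR
    exact hxΦ (by rw [hxR]; exact Φ.one_mem)
  obtain ⟨u, hu⟩ := exists_prime_orderOf_dvd_card' (G := R₀) q (by rw [hk]; exact dvd_pow_self q hk0)
  set A := zpowers (u : G) with hA
  have hAR : A ≤ R₀ := by rw [hA, zpowers_le]; exact u.2
  have hAcard : Nat.card A = q := by rw [hA, Nat.card_zpowers, Subgroup.orderOf_coe, hu]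
  refine ⟨A, hAR.trans hR₀R, by rw [hAcard]; exact hq, ?_, ?_⟩
  · intro i hi
    rw [← CfsgH1.conj_smul_eq_self_iff]
    have h1 : MulAut.conj i • A ≤ R₀ := by
      rw [← CfsgH1.conj_smul_eq_self_iff.2 (hIR₀ hi)]; exact CfsgH1.conj_smul_mono i hAR
    have h4 : (MulAut.conj i • A).subgroupOf R₀ = A.subgroupOf R₀ := by
      apply cyclic_subgroup_eq
      rw [Nat.card_congr (subgroupOfEquivOfLe h1).toEquiv, Nat.card_congr (subgroupOfEquivOfLe hAR).toEquiv, CfsgH1.card_conj_smul]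
    have h5 := congrArg (Subgroup.map R₀.subtype) h4
    rwa [Subgroup.map_subgroupOf_eq_of_le h1, Subgroup.map_subgroupOf_eq_of_le hAR] at h5
  · intro h
    apply hjR
    have hu1 : (u : G) ≠ 1 := by
      intro h
      have : u = 1 := Subtype.ext h
      rw [this, orderOf_one] at hu
      exact hq.one_lt.ne hu
    have hjo : (orderOf j).Coprime q := by
      have h2 : orderOf j ∣ 2 := orderOf_dvd_of_pow_eq_one (by rw [pow_two]; exact hjj)
      exact Nat.Coprime.coprime_dvd_left h2 ((Nat.coprime_primes Nat.prime_two hq).2 (Ne.symm hq2))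
    have h2 := CfsgH2.cyc_centralizes (V := R₀) hRq hcyc hjo (hIR₀ hjI) u.2 hu1 (((mem_centralizer_iff.1 (h hjJ)) u (mem_zpowers _)).symm)
    rw [mem_centralizer_iff]
    intro y hy; exact (h2 y hy).symm

end

end CfsgH3
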