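import Mathlib
import Cfsg.Agent.H1.CoprimeSylow
import Cfsg.Agent.H1.CopExtra
import Cfsg.Agent.H3.Nilp
import Cfsg.Agent.H3.Frob
import Cfsg.Agent.H3.NPC2
import Cfsg.Prelude.Def_HallClasses

set_option autoImplicit false

/-!
A generalization of Wielandt's theorem on nilpotent Hall subgroups.
-/

namespace CfsgH3

open Subgroup Cfsg

open scoped Pointwise commutatorElement

section

variable {G : Type*} [Group G] [Finite G]

theorem exists_primary_notMem {C : Subgroup G} {g : G} (hg : g ∉ C) : ∃ r k a : ℕ, r.Prime ∧ r ∣ orderOf g ∧ g ^ k ∉ C ∧ (g ^ k) ^ r ^ a = 1 := by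
  have h1 : C.relIndex (zpowers g) ≠ 1 := by
    rw [Ne, Subgroup.relIndex_eq_one, zpowers_le]; exact hg
  obtain ⟨r, hr, hrd⟩ := Nat.exists_prime_and_dvd h1
  have hrg : r ∣ orderOf g := by
    rw [← Nat.card_zpowers]; exact hrd.trans (Subgroup.relIndex_dvd_card _ _)
  obtain ⟨a, b, hb, hab⟩ := Nat.exists_eq_pow_mul_and_not_dvd (orderOf_pos g).ne' r hr.ne_one
  refine ⟨r, b, a, hr, hrg, ?_, ?_⟩
  · intro h
    have h2 : zpowers (g ^ b) ≤ C ⊓ zpowers g := le_inf (zpowers_le.2 h) (zpowers_le.2 (pow_mem (mem_zpowers g) b))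
    have h3 : C.relIndex (zpowers g) ∣ (zpowers (g ^ b)).relIndex (zpowers g) := by
      rw [← Subgroup.inf_relIndex_right C]
      exact Subgroup.relIndex_dvd_of_le_left _ h2
    have h4 := Subgroup.relIndex_mul_relIndex (⊥ : Subgroup G) (zpowers (g ^ b)) (zpowers g) bot_le (zpowers_le.2 (pow_mem (mem_zpowers g) b))
    rw [Subgroup.relIndex_bot_left, Subgroup.relIndex_bot_left, Nat.card_zpowers, Nat.card_zpowers] at h4
    have h5 : orderOf (g ^ b) = r ^ a := by
      rw [orderOf_pow, hab]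
      have : Nat.gcd (r ^ a * b) b = b := Nat.gcd_eq_right (Dvd.intro_left _ rfl)
      rw [this]
      exact Nat.mul_div_cancel _ (Nat.pos_of_ne_zero (fun h => hb (h ▸ dvd_zero r)))
    rw [h5, hab] at h4
    have h6 := Nat.eq_of_mul_eq_mul_left (pow_pos hr.pos a) h4
    rw [h6] at h3
    exact hb (hrd.trans h3)
  · rw [← pow_mul, mul_comm, ← hab, pow_orderOf_eq_one]

theorem mem_of_coprime_relIndex {C N : Subgroup G} (hCN : C ≤ N) (hn : N ≤ normalizer (C : Set G)) {g : G} (hg : g ∈ N) {m : ℕ} (hm : g ^ m = 1) 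
    (hcop : m.Coprime (C.relIndex N)) : g ∈ C := by
  haveI : (C.subgroupOf N).Normal := (normal_subgroupOf_iff_le_normalizer hCN).2 hn
  have h1 : (⟨g, hg⟩ : N) ^ (C.subgroupOf N).index ∈ C.subgroupOf N := Subgroup.pow_index_mem _ _
  have h2 : g ^ C.relIndex N ∈ C := h1
  have h3 : g = (g ^ m) ^ (Nat.gcdA m (C.relIndex N)) * (g ^ C.relIndex N) ^ (Nat.gcdB m (C.relIndex N)) := by
    rw [← zpow_natCast, ← zpow_natCast, ← zpow_mul, ← zpow_mul, ← zpow_add, ← Nat.gcd_eq_gcd_ab, hcop.gcd_eq_one, Nat.cast_one, zpow_one]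
  rw [h3, hm, one_zpow, one_mul]
  exact C.zpow_mem h2 _

variable {σ τ π : Set ℕ} {H Hs Ht : Subgroup G}

theorem dpi_key (hπ : π = σ ∪ τ) (hd : Disjoint σ τ) (hH : IsPiHall π H)
    (hs : IsPiSubgroup σ Hs) (ht : IsPiSubgroup τ Ht) (hsn : Group.IsNilpotent Hs)
    (hjoin : Hs ⊔ Ht = H) (hcomm : ∀ a ∈ Hs, ∀ b ∈ Ht, a * b = b * a) (hD : IsDPiGroup τ G) (n : ℕ) : 
    ∀ K : Subgroup G, Nat.card K = n → IsPiSubgroup π K → ∃ x : G, K ≤ MulAut.conj x • H := by
  classical
  haveI := hsn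
  have hHs : Hs ≤ H := hjoin ▸ le_sup_left
  have hHt : Ht ≤ H := hjoin ▸ le_sup_right
  have hcop : (Nat.card Hs).Coprime (Nat.card Ht) := by
    by_contra h
    rw [Nat.Prime.not_coprime_iff_dvd] at h
    obtain ⟨r, hr, h1, h2⟩ := h
    exact Set.disjoint_left.1 hd (hs r hr h1) (ht r hr h2)
  have hinf : Hs ⊓ Ht = ⊥ := CfsgH1.inf_eq_bot_of_coprime hcop
  have hcent : Hs ≤ centralizer (Ht : Set G) := by
    intro a ha
    rw [mem_centralizer_iff]
    intro b hb
    exact (hcomm a ha b hb).symm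
  have hcard : Nat.card H = Nat.card Hs * Nat.card Ht := by
    rw [← hjoin]
    exact CfsgH1.card_sup_of_disjoint (hcent.trans (centralizer_le_normalizer _)) hinf
  have hdec : ∀ h ∈ H, ∃ a ∈ Hs, ∃ b ∈ Ht, h = a * b := by
    intro h hh
    rw [← hjoin] at hh
    have := mem_sup_of_le_normalizer (hcent.trans (centralizer_le_normalizer _)) hh
    obtain ⟨a, ha, b, hb, e⟩ := this
    exact ⟨a, ha, b, hb, e⟩
  have hrelS : Ht.relIndex H = Nat.card Hs := by
    have h4 := Subgroup.relIndex_mul_relIndex (⊥ : Subgroup G) Ht H bot_le hHt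
    rw [Subgroup.relIndex_bot_left, Subgroup.relIndex_bot_left, hcard, mul_comm] at h4
    exact Nat.eq_of_mul_eq_mul_right Nat.card_pos h4
  have hrelT : Hs.relIndex H = Nat.card Ht := by
    have h4 := Subgroup.relIndex_mul_relIndex (⊥ : Subgroup G) Hs H bot_le hHs
    rw [Subgroup.relIndex_bot_left, Subgroup.relIndex_bot_left, hcard] at h4
    exact Nat.eq_of_mul_eq_mul_left Nat.card_pos h4
  have hTi : ∀ r : ℕ, r.Prime → r ∈ τ → ¬ r ∣ Ht.index := by
    intro r hr hrt h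
    rw [← Subgroup.relIndex_mul_index hHt, hrelS] at h
    rcases (Nat.Prime.dvd_mul hr).1 h with h | h
    · exact Set.disjoint_left.1 hd (hs r hr h) hrt
    · exact hH.2 r hr (by rw [hπ]; exact Or.inr hrt) h
  have hSi : ∀ r : ℕ, r.Prime → r ∈ σ → ¬ r ∣ Hs.index := by
    intro r hr hrt h
    rw [← Subgroup.relIndex_mul_index hHs, hrelT] at h
    rcases (Nat.Prime.dvd_mul hr).1 h with h | h
    · exact Set.disjoint_left.1 hd hrt (ht r hr h)
    · exact hH.2 r hr (by rw [hπ]; exact Or.inl hrt) h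
  -- F5
  have hF5 : ∀ s : ℕ, s.Prime → s ∈ σ → ∀ h ∈ H, ∀ a : ℕ, h ^ s ^ a = 1 → h ∈ Hs := by
    intro s hsp hsσ h hh a ha
    obtain ⟨u, hu, v, hv, rfl⟩ := hdec h hh
    have hc : Commute u v := hcomm u hu v hv
    rw [hc.mul_pow] at ha
    have h1 : v ^ s ^ a ∈ Hs ⊓ Ht := by
      refine ⟨?_, Ht.pow_mem hv _⟩
      have : v ^ s ^ a = (u ^ s ^ a)⁻¹ := (inv_eq_of_mul_eq_one_right ha).symm
      show v ^ s ^ a ∈ Hs
      rw [this]; exact Hs.inv_mem (Hs.pow_mem hu _)
    rw [hinf, mem_bot] at h1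
    have h2 : v ^ Nat.card Ht = 1 := by
      have : (⟨v, hv⟩ : Ht) ^ Nat.card Ht = 1 := pow_card_eq_one'
      exact congrArg Subtype.val this
    have h3 : orderOf v ∣ 1 := by
      have h4 : (s ^ a).Coprime (Nat.card Ht) := by
        apply Nat.Coprime.pow_left
        rw [Nat.Prime.coprime_iff_not_dvd hsp]
        intro h; exact Set.disjoint_left.1 hd hsσ (ht s hsp h)
      rw [← h4]
      exact Nat.dvd_gcd (orderOf_dvd_of_pow_eq_one h1) (orderOf_dvd_of_pow_eq_one h2)
    rw [orderOf_eq_one_iff.1 (Nat.dvd_one.1 h3), mul_one]; exact hu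
  -- F3
  have hF3 : ∀ q : ℕ, q.Prime → ∀ h ∈ H, ∀ m : ℕ, h ^ m = 1 → m.Coprime q → ∀ u ∈ Hs, ∀ a : ℕ, u ^ q ^ a = 1 → h * u = u * h := by
    intro q hq h hh m hm hmq u hu a hua
    obtain ⟨x, hx, y, hy, rfl⟩ := hdec h hh
    have hc : Commute x y := hcomm x hx y hy
    rw [hc.mul_pow] at hm
    have h1 : x ^ m ∈ Hs ⊓ Ht := by
      refine ⟨Hs.pow_mem hx _, ?_⟩
      have : x ^ m = (y ^ m)⁻¹ := (inv_eq_of_mul_eq_one_left hm).symm
      show x ^ m ∈ Ht
      rw [this]; exact Ht.inv_mem (Ht.pow_mem hy _)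
    rw [hinf, mem_bot] at h1
    have h2 := commute_of_nilpotent_mem hx hu h1 hua (Nat.Coprime.pow_right a hmq)
    have h3 := hcomm u hu y hy
    rw [mul_assoc, ← h3, ← mul_assoc, h2, mul_assoc]
  -- F4
  have hF4 : ∀ q r : ℕ, q.Prime → q ∈ σ → r.Prime → r ∈ τ → ∀ X : Subgroup G, IsPGroup q X → ∀ g ∈ normalizer (X : Set G), ∀ a : ℕ, g ^ r ^ a = 1 → 
      g ∈ centralizer (X : Set G) := by
    intro q r hq hqσ hr hrτ X hX g hg a hga
    haveI := Fact.mk hq
    obtain ⟨H1, hH1⟩ := CfsgH1.exists_isSylowOf q Hs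
    have hH1' := CfsgH1.isSylowOf_iff.1 hH1
    have hH1i : ¬ q ∣ H1.index := by
      rw [← Subgroup.relIndex_mul_index hH1'.1]
      intro h
      rcases (Nat.Prime.dvd_mul hq).1 h with h | h
      · exact hH1'.2.2 h
      · exact hSi q hq hqσ h
    let S1 : Sylow q G := hH1'.2.1.toSylow hH1i
    obtain ⟨S2, hS2⟩ := hX.exists_le_sylow
    obtain ⟨x, hx⟩ := MulAction.exists_smul_eq G S1 S2
    have hXH : X ≤ MulAut.conj x • H1 := by
      refine hS2.trans ?_
      rw [← hx, Sylow.coe_subgroup_smul]; exact le_rfl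
    apply mem_of_coprime_relIndex (centralizer_le_normalizer (X : Set G)) ?_ hg hga ?_
    · have : ((centralizer (X : Set G)).subgroupOf (normalizer (X : Set G))).Normal := by
        rw [← Subgroup.normalizerMonoidHom_ker]; infer_instance
      exact (normal_subgroupOf_iff_le_normalizer (centralizer_le_normalizer _)).1 this
    · apply Nat.Coprime.pow_left
      rw [Nat.Prime.coprime_iff_not_dvd hr]
      intro h
      have h1 : MulAut.conj x • Ht ≤ centralizer (X : Set G) := by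
        intro y hy
        rw [mem_centralizer_iff]
        intro z hz
        have hz' := hXH hz
        rw [CfsgH1.mem_conj_smul] at hy hz'
        have h2 := hcomm _ (hH1'.1 hz') _ hy
        calc z * y = x * ((x⁻¹ * z * x) * (x⁻¹ * y * x)) * x⁻¹ := by group
          _ = x * ((x⁻¹ * y * x) * (x⁻¹ * z * x)) * x⁻¹ := by rw [h2]
          _ = _ := by group
      have h2 : (MulAut.conj x • Ht).index = Ht.index := by
        exact Subgroup.index_map_equiv Ht (MulAut.conj x)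
      apply hTi r hr hrτ
      rw [← h2]
      refine (h.trans ?_).trans (Subgroup.index_dvd_of_le h1)
      rw [← Subgroup.relIndex_mul_index (centralizer_le_normalizer (X : Set G))]
      exact Dvd.intro _ rfl
  induction n using Nat.strong_induction_on with
  | _ n ih =>
  intro K hKn hK
  have ih' : ∀ L : Subgroup G, L ≤ K → L ≠ K → ∃ x : G, L ≤ MulAut.conj x • H := by
    intro L hLK hne
    refine ih (Nat.card L) ?_ L rfl (fun p hp hpd => hK p hp (hpd.trans (Subgroup.card_dvd_of_le hLK)))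
    rw [← hKn]
    exact lt_of_le_of_ne (Subgroup.card_le_of_le hLK) (fun h => hne (Subgroup.eq_of_le_of_card_ge hLK h.ge))
  by_cases hKτ : IsPiSubgroup τ K
  · -- use D_τ
    have hmaxt : Maximal (IsPiSubgroup τ) Ht := by
      refine ⟨ht, fun L hL hle => ?_⟩
      rw [← Subgroup.relIndex_eq_one]
      by_contra h
      obtain ⟨r, hr, hrd⟩ := Nat.exists_prime_and_dvd h
      have h1 := hL r hr (hrd.trans (Subgroup.relIndex_dvd_card _ _))
      apply hTi r hr h1
      rw [← Subgroup.relIndex_mul_index hle]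
      exact Dvd.dvd.mul_right hrd _
    obtain ⟨T, hKT, hT⟩ := (Set.toFinite {L : Subgroup G | IsPiSubgroup τ L}).exists_le_maximal (a := K) hKτ
    obtain ⟨g, hg⟩ := hD Ht T hmaxt hT
    refine ⟨g, ?_⟩
    rw [hg] at hKT
    exact hKT.trans (CfsgH1.conj_smul_mono g hHt)
  obtain ⟨q₀, hq₀, hq₀σ, hq₀K⟩ : ∃ q : ℕ, q.Prime ∧ q ∈ σ ∧ q ∣ Nat.card K := by
    simp only [IsPiSubgroup, not_forall] at hKτ
    obtain ⟨q, hq, hqK, hqτ⟩ := hKτ
    have := hK q hq hqK
    rw [hπ] at this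
    exact ⟨q, hq, this.resolve_right hqτ, hqK⟩
  -- claim
  have hclaim : ∃ q : ℕ, ∃ _ : Fact q.Prime, q ∈ σ ∧ q ∣ Nat.card K ∧ HasNPC q K := by
    haveI := Fact.mk hq₀
    by_cases hN : HasNPC q₀ K
    · exact ⟨q₀, inferInstance, hq₀σ, hq₀K, hN⟩
    have h0 : ∃ X : Subgroup K, IsPGroup q₀ X ∧ ∃ g ∈ normalizer (X : Set K), (orderOf g).Coprime q₀ ∧ g ∉ centralizer (X : Set K) := by
      by_contra h
      push Not at h
      exact hN (hasNPC_frobenius (fun X hX g hg hgp => h X hX g hg hgp))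
    obtain ⟨X, hX, g, hgN, hgq, hgC⟩ := h0
    obtain ⟨r, k, a, hr, hrg, hkC, hka⟩ := exists_primary_notMem hgC
    haveI := Fact.mk hr
    have hrq : r ≠ q₀ := by
      rintro rfl
      exact (Nat.Prime.coprime_iff_not_dvd hr).1 hgq.symm hrg
    have hrK : r ∣ Nat.card K := hrg.trans (orderOf_dvd_natCard g)
    have hkN : g ^ k ∈ normalizer (X : Set K) := pow_mem hgN k
    set y := g ^ k with hy
    -- in G
    set X' := X.map K.subtype with hX'
    have hX'K : X' ≤ K := Subgroup.map_subtype_le _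
    have hyN : (y : G) ∈ normalizer (X' : Set G) := by
      rw [← CfsgH1.conj_smul_eq_self_iff]
      apply Subgroup.eq_of_le_of_card_ge
      · rintro _ ⟨_, ⟨x, hx, rfl⟩, rfl⟩
        exact ⟨y * x * y⁻¹, (mem_normalizer_iff.1 hkN x).1 hx, rfl⟩
      · rw [CfsgH1.card_conj_smul]
    have hyC : (y : G) ∉ centralizer (X' : Set G) := by
      intro h
      apply hkC
      rw [mem_centralizer_iff] at h ⊢
      intro x hx
      exact Subtype.ext (h x ⟨x, hx, rfl⟩)
    have hya : (y : G) ^ r ^ a = 1 := by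
      have := congrArg Subtype.val hka
      exact this
    have hX'p : IsPGroup q₀ X' := hX.map _
    have hrσ : r ∈ σ := by
      have h1 := hK r hr hrK
      rw [hπ] at h1
      rcases h1 with h1 | h1
      · exact h1
      · exact absurd (hF4 q₀ r hq₀ hq₀σ hr h1 X' hX'p y hyN a hya) hyC
    have hyK : (y : G) ∈ K := y.2
    by_cases hL : X' ⊔ zpowers (y : G) = K
    · refine ⟨r, inferInstance, hrσ, hrK, ?_⟩
      have hord : ∃ b, orderOf (y : G) = r ^ b := by
        obtain ⟨b, -, hb⟩ := (Nat.dvd_prime_pow hr).1 (orderOf_dvd_of_pow_eq_one hya)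
        exact ⟨b, hb⟩
      obtain ⟨b, hb⟩ := hord
      obtain ⟨c, hc⟩ := IsPGroup.iff_card.1 hX'p
      have hcp : (Nat.card (zpowers (y : G))).Coprime (Nat.card X') := by
        rw [Nat.card_zpowers, hb, hc]
        exact Nat.Coprime.pow _ _ ((Nat.coprime_primes hr hq₀).2 hrq)
      have hcard2 := CfsgH1.card_sup_of_disjoint (zpowers_le.2 hyN) (CfsgH1.inf_eq_bot_of_coprime hcp)
      rw [sup_comm, hL, Nat.card_zpowers, hb] at hcard2
      have hKX : K ≤ normalizer (X' : Set G) := by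
        rw [← hL]; exact sup_le le_normalizer (zpowers_le.2 hyN)
      haveI : (X'.subgroupOf K).Normal := (normal_subgroupOf_iff_le_normalizer hX'K).2 hKX
      have hc2 : Nat.card (X'.subgroupOf K) = Nat.card X' := Nat.card_congr (subgroupOfEquivOfLe hX'K).toEquiv
      refine ⟨X'.subgroupOf K, inferInstance, ?_, b, ?_⟩
      · rw [hc2, hc]
        exact Nat.Coprime.pow_left c ((Nat.coprime_primes hq₀ hr).2 hrq.symm)
      · have h3 := Subgroup.card_mul_index (X'.subgroupOf K)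
        rw [hc2, hcard2, mul_comm] at h3
        exact Nat.eq_of_mul_eq_mul_right Nat.card_pos h3
    · exfalso
      obtain ⟨x, hx⟩ := ih' _ (sup_le hX'K (zpowers_le.2 hyK)) hL
      apply hyC
      rw [mem_centralizer_iff]
      intro u hu
      have hu1 := hx (mem_sup_left hu)
      have hy1 := hx (mem_sup_right (mem_zpowers (y : G)))
      rw [CfsgH1.mem_conj_smul] at hu1 hy1
      obtain ⟨c, hc⟩ := hX'p ⟨u, hu⟩
      have hc' : u ^ q₀ ^ c = 1 := congrArg Subtype.val hc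
      have e1 : (x⁻¹ * u * x) ^ q₀ ^ c = 1 := by
        have : (x⁻¹ * u * x) ^ q₀ ^ c = x⁻¹ * u ^ q₀ ^ c * x := by
          have := conj_pow (i := q₀ ^ c) (a := x⁻¹) (b := u)
          rwa [inv_inv] at this
        rw [this, hc']; group
      have e2 : (x⁻¹ * (y : G) * x) ^ r ^ a = 1 := by
        have : (x⁻¹ * (y : G) * x) ^ r ^ a = x⁻¹ * (y : G) ^ r ^ a * x := by
          have := conj_pow (i := r ^ a) (a := x⁻¹) (b := (y : G))
          rwa [inv_inv] at this
        rw [this, hya]; group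
      have m1 := hF5 q₀ hq₀ hq₀σ _ hu1 c e1
      have m2 := hF5 r hr hrσ _ hy1 a e2
      have h4 := commute_of_nilpotent_mem m1 m2 e1 e2 (Nat.Coprime.pow _ _ ((Nat.coprime_primes hq₀ hr).2 hrq.symm))
      calc u * y = x * ((x⁻¹ * u * x) * (x⁻¹ * (y : G) * x)) * x⁻¹ := by group
        _ = x * ((x⁻¹ * (y : G) * x) * (x⁻¹ * u * x)) * x⁻¹ := by rw [h4]
        _ = _ := by group
  obtain ⟨q, hqF, hqσ, hqK, L, hLn, hLc, b, hLi⟩ := hclaim
  have hq : q.Prime := hqF.out
  set L' := L.map K.subtype with hL'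
  have hL'K : L' ≤ K := Subgroup.map_subtype_le _
  have hL'c : Nat.card L' = Nat.card L := Subgroup.card_map_of_injective K.subtype_injective
  obtain ⟨x, hx⟩ := ih' L' hL'K (by
    intro h
    rw [h] at hL'c
    rw [← hL'c] at hLc
    exact (Nat.Prime.coprime_iff_not_dvd hq).1 hLc.symm hqK)
  obtain ⟨H1, hH1⟩ := CfsgH1.exists_isSylowOf q Hs
  have hH1' := CfsgH1.isSylowOf_iff.1 hH1
  have hH1i : ¬ q ∣ H1.index := by
    rw [← Subgroup.relIndex_mul_index hH1'.1]
    intro h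
    rcases (Nat.Prime.dvd_mul hq).1 h with h | h
    · exact hH1'.2.2 h
    · exact hSi q hq hqσ h
  set N := normalizer (L' : Set G) with hN
  have hKN : K ≤ N := by
    have : (L'.subgroupOf K).Normal := by
      have : L'.subgroupOf K = L := by
        rw [hL', Subgroup.subgroupOf, Subgroup.comap_map_eq_self_of_injective K.subtype_injective]
      rw [this]; exact hLn
    exact (normal_subgroupOf_iff_le_normalizer hL'K).1 this
  have hHN : MulAut.conj x • H1 ≤ N := by
    refine le_trans ?_ (centralizer_le_normalizer _)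
    intro u hu
    rw [mem_centralizer_iff]
    intro l hl
    have hl1 := hx hl
    rw [CfsgH1.mem_conj_smul] at hu hl1
    obtain ⟨c, hc⟩ := hH1'.2.1 ⟨_, hu⟩
    have hc' : (x⁻¹ * u * x) ^ q ^ c = 1 := congrArg Subtype.val hc
    have hlm : l ^ Nat.card L' = 1 := by
      have : (⟨l, hl⟩ : L') ^ Nat.card L' = 1 := pow_card_eq_one'
      exact congrArg Subtype.val this
    have e2 : (x⁻¹ * l * x) ^ Nat.card L' = 1 := by
      have : (x⁻¹ * l * x) ^ Nat.card L' = x⁻¹ * l ^ Nat.card L' * x := by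
        have := conj_pow (i := Nat.card L') (a := x⁻¹) (b := l)
        rwa [inv_inv] at this
      rw [this, hlm]; group
    have h4 := hF3 q hq _ hl1 _ e2 (by rw [hL'c]; exact hLc) _ (hH1'.1 hu) c hc'
    calc l * u = x * ((x⁻¹ * l * x) * (x⁻¹ * u * x)) * x⁻¹ := by group
      _ = x * ((x⁻¹ * u * x) * (x⁻¹ * l * x)) * x⁻¹ := by rw [h4]
      _ = _ := by group
  obtain ⟨Q, hQ⟩ := CfsgH1.exists_isSylowOf q K
  have hQ' := CfsgH1.isSylowOf_iff.1 hQ
  have hQN : Q ≤ N := hQ'.1.trans hKN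
  obtain ⟨S2, hS2⟩ := (hQ'.2.1.comap_subtype : IsPGroup q (Q.subgroupOf N)).exists_le_sylow
  have hS2' : CfsgH1.IsSylowOf q ((S2 : Subgroup N).map N.subtype) N := ⟨S2, rfl⟩
  have hH1N : CfsgH1.IsSylowOf q (MulAut.conj x • H1) N := by
    rw [CfsgH1.isSylowOf_iff]
    refine ⟨hHN, hH1'.2.1.map _, ?_⟩
    intro h
    apply hH1i
    have h2 : (MulAut.conj x • H1).index = H1.index := Subgroup.index_map_equiv H1 (MulAut.conj x)
    rw [← h2, ← Subgroup.relIndex_mul_index hHN]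
    exact Dvd.dvd.mul_right h _
  obtain ⟨y, hyN, hy⟩ := CfsgH1.isSylowOf_conj_trans hH1N hS2'
  have hQS : Q ≤ MulAut.conj y • MulAut.conj x • H1 := by
    rw [hy]
    intro u hu
    exact ⟨⟨u, hQN hu⟩, hS2 hu, rfl⟩
  refine ⟨y * x, ?_⟩
  have hKQ : K ≤ L' ⊔ Q := by
    have h1 : L' ⊔ Q ≤ K := sup_le hL'K hQ'.1
    apply (Subgroup.eq_of_le_of_card_ge h1 _).ge
    apply Nat.le_of_dvd Nat.card_pos
    rw [← Subgroup.card_mul_index L, hLi]
    apply Nat.Coprime.mul_dvd_of_dvd_of_dvd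
    · exact Nat.Coprime.pow_right b hLc
    · rw [← hL'c]; exact Subgroup.card_dvd_of_le le_sup_left
    · have h2 := Subgroup.relIndex_mul_relIndex (⊥ : Subgroup G) Q K bot_le hQ'.1
      rw [Subgroup.relIndex_bot_left, Subgroup.relIndex_bot_left] at h2
      have h3 : q ^ b ∣ Nat.card Q * Q.relIndex K := by
        rw [h2, ← Subgroup.card_mul_index L, hLi]; exact Dvd.intro_left _ rfl
      have h4 : (q ^ b).Coprime (Q.relIndex K) := Nat.Coprime.pow_left b ((Nat.Prime.coprime_iff_not_dvd hq).2 hQ'.2.2)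
      exact (h4.dvd_of_dvd_mul_right h3).trans (Subgroup.card_dvd_of_le le_sup_right)
  refine hKQ.trans (sup_le ?_ ?_)
  · rw [map_mul, mul_smul]
    have h1 : MulAut.conj y • L' = L' := CfsgH1.conj_smul_eq_self_iff.2 hyN
    rw [← h1]
    exact CfsgH1.conj_smul_mono y hx
  · rw [map_mul, mul_smul]
    exact hQS.trans (CfsgH1.conj_smul_mono y (CfsgH1.conj_smul_mono x (hH1'.1.trans hHs)))

end

end CfsgH3
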