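import Mathlib
import Cfsg.Prelude.Def_TwoFusion
import Cfsg.Agent.H5.ZStar2

/-! # Isolated involutions -/

namespace CfsgH3
open Cfsg

universe u
variable {G : Type u} [Group G]

theorem inv_pow_conj {x ρ : G} (h : x * ρ * x⁻¹ = ρ⁻¹) (k : ℕ) : x * ρ ^ k * x⁻¹ = (ρ ^ k)⁻¹ := by
  rw [← conj_pow, h, inv_pow]

/-- rotation conjugates the reflection -/
theorem rot_conj {x ρ : G} (hx : x * x = 1) (h : x * ρ * x⁻¹ = ρ⁻¹) (k : ℕ) :
    ρ ^ k * x * (ρ ^ k)⁻¹ = ρ ^ (2 * k) * x := by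
  have h1 := inv_pow_conj h k
  have hxi : x⁻¹ = x := inv_eq_of_mul_eq_one_right hx
  have h2 : x * (ρ ^ k)⁻¹ = ρ ^ k * x := by
    have : x * (ρ^k)⁻¹ * x⁻¹ = ρ ^ k := by
      have := congrArg (·⁻¹) h1
      simp only [mul_inv_rev, inv_inv] at this
      rw [mul_assoc]; exact this
    calc x * (ρ ^ k)⁻¹ = (x * (ρ ^ k)⁻¹ * x⁻¹) * x := by group
      _ = ρ ^ k * x := by rw [this]
  rw [mul_assoc, h2, two_mul, pow_add]; group

theorem xy_conj {x y : G} (hx : x * x = 1) (hy : y * y = 1) : x * (x * y) * x⁻¹ = (x * y)⁻¹ := by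
  have hxi : x⁻¹ = x := inv_eq_of_mul_eq_one_right hx
  have hyi : y⁻¹ = y := inv_eq_of_mul_eq_one_right hy
  rw [mul_inv_rev, hxi, hyi, ← mul_assoc, hx, one_mul]

theorem xy_conj' {x y : G} (hx : x * x = 1) (hy : y * y = 1) : y * (x * y) * y⁻¹ = (x * y)⁻¹ := by
  have hxi : x⁻¹ = x := inv_eq_of_mul_eq_one_right hx
  have hyi : y⁻¹ = y := inv_eq_of_mul_eq_one_right hy
  rw [mul_inv_rev, hxi, hyi]
  rw [mul_assoc, mul_assoc, hy, mul_one]

/-- two involutions with product of even order `2m`: the central element times `x` is conjugate to `x` or `y`. -/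
theorem dih_even {x y : G} (hx : x * x = 1) (hy : y * y = 1) {m : ℕ} (hm : orderOf (x * y) = 2 * m) :
    (∃ g ∈ Subgroup.zpowers (x * y), g * x * g⁻¹ = (x * y) ^ m * x) ∨
    (∃ g ∈ Subgroup.zpowers (x * y), g * y * g⁻¹ = (x * y) ^ m * x) := by
  have hyi : y⁻¹ = y := inv_eq_of_mul_eq_one_right hy
  rcases Nat.even_or_odd m with ⟨i, hi⟩ | ⟨i, hi⟩
  · left
    refine ⟨(x * y) ^ i, pow_mem (Subgroup.mem_zpowers _) _, ?_⟩
    rw [rot_conj hx (xy_conj hx hy) i]
    rw [show 2 * i = m by omega]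
  · right
    refine ⟨(x * y) ^ (i + 1), pow_mem (Subgroup.mem_zpowers _) _, ?_⟩
    rw [rot_conj hy (xy_conj' hx hy) (i + 1)]
    rw [show 2 * (i + 1) = m + 1 by omega, pow_succ]
    rw [mul_assoc, mul_assoc, hy, mul_one]

/-- two involutions with product of odd order are conjugate -/
theorem dih_odd {x y : G} (hx : x * x = 1) (hy : y * y = 1) (ho : Odd (orderOf (x * y))) :
    ∃ g ∈ Subgroup.zpowers (x * y), g * y * g⁻¹ = x := by
  obtain ⟨k, hk⟩ := ho
  refine ⟨(x * y) ^ (k + 1), pow_mem (Subgroup.mem_zpowers _) _, ?_⟩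
  rw [rot_conj hy (xy_conj' hx hy) (k + 1)]
  rw [show 2 * (k + 1) = orderOf (x * y) + 1 by omega, pow_succ, pow_orderOf_eq_one, one_mul, mul_assoc, hy, mul_one]

theorem sq_of_iso {z : G} (hz : orderOf z = 2) : z * z = 1 := by
  rw [← pow_two, ← hz, pow_orderOf_eq_one]

theorem iso_inv {z : G} (hz : orderOf z = 2) : z⁻¹ = z := inv_eq_of_mul_eq_one_right (sq_of_iso hz)

theorem conj_sq {z : G} (hz : z * z = 1) (g : G) : (g * z * g⁻¹) * (g * z * g⁻¹) = 1 := by
  calc (g * z * g⁻¹) * (g * z * g⁻¹) = g * (z * z) * g⁻¹ := by group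
    _ = 1 := by rw [hz]; group

/-- general: for involutions `x`, `y` where `y` is a conjugate of the isolated involution `x`, the product is of odd order -/
theorem iso_odd [Finite G] {z : G} (hz : IsIsolatedInvolution z) (g : G) : Odd (orderOf (z * (g * z * g⁻¹))) := by
  have hz2 : z * z = 1 := sq_of_iso hz.1
  have hzi : z⁻¹ = z := iso_inv hz.1
  by_contra hne
  rw [Nat.not_odd_iff_even] at hne
  obtain ⟨m, hm⟩ := hne
  rw [← two_mul] at hm
  have hy2 := conj_sq hz2 g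
  have hm0 : 0 < m := by
    have := orderOf_pos (z * (g * z * g⁻¹))
    omega
  have ht : (z * (g * z * g⁻¹)) ^ m * (z * (g * z * g⁻¹)) ^ m = 1 := by
    rw [← pow_add, ← two_mul, ← hm, pow_orderOf_eq_one]
  have htne : (z * (g * z * g⁻¹)) ^ m ≠ 1 := by
    intro h
    have := orderOf_dvd_of_pow_eq_one h
    rw [hm] at this
    have := Nat.le_of_dvd hm0 this
    omega
  have htc : Commute z ((z * (g * z * g⁻¹)) ^ m * z) := by
    have h1 := inv_pow_conj (xy_conj hz2 hy2) m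
    have h2 : ((z * (g * z * g⁻¹)) ^ m)⁻¹ = (z * (g * z * g⁻¹)) ^ m := inv_eq_of_mul_eq_one_right ht
    rw [h2] at h1
    have h3 : Commute z ((z * (g * z * g⁻¹)) ^ m) := by
      have : z * (z * (g * z * g⁻¹)) ^ m = (z * (g * z * g⁻¹)) ^ m * z := by
        calc z * (z * (g * z * g⁻¹)) ^ m = (z * (z * (g * z * g⁻¹)) ^ m * z⁻¹) * z := by group
          _ = _ := by rw [h1]
      exact this
    exact h3.mul_right (Commute.refl z)
  rcases dih_even hz2 hy2 hm with ⟨a, -, ha⟩ | ⟨a, -, ha⟩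
  · have h1 := hz.2 a (by rw [ha]; exact htc)
    rw [ha] at h1
    exact htne (mul_eq_right.mp h1)
  · have hh : (a * g) * z * (a * g)⁻¹ = (z * (g * z * g⁻¹)) ^ m * z := by
      rw [← ha]; group
    have h1 := hz.2 (a * g) (by rw [hh]; exact htc)
    rw [hh] at h1
    exact htne (mul_eq_right.mp h1)

theorem iso_oddC [Finite G] {z : G} (hz : IsIsolatedInvolution z) : CfsgH5.OddC z where
  ne := by
    rintro rfl
    have := hz.1
    simp at this
  sq := sq_of_iso hz.1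
  odd g := iso_odd hz g

/-- Z*-theorem for isolated involutions -/
theorem iso_zstar [Finite G] {z : G} (hz : IsIsolatedInvolution z) (g : G) : z * g * z⁻¹ * g⁻¹ ∈ pPrimeCore 2 G := by
  have h1 := CfsgH5.zstar_odd (iso_oddC hz) g
  have h2 : z * g * z⁻¹ * g⁻¹ = z * (g * z * g⁻¹) := by rw [iso_inv hz.1]; group
  rw [h2]; exact h1

theorem iso_conj_mem [Finite G] {z : G} (hz : IsIsolatedInvolution z) (g : G) :
    ∃ u ∈ Subgroup.zpowers (z * (g * z * g⁻¹)), u * z * u⁻¹ = g * z * g⁻¹ := by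
  have hz2 : z * z = 1 := sq_of_iso hz.1
  obtain ⟨a, ha, hh⟩ := dih_odd hz2 (conj_sq hz2 g) (iso_odd hz g)
  refine ⟨a⁻¹, inv_mem ha, ?_⟩
  have : a⁻¹ * (a * (g * z * g⁻¹) * a⁻¹) * a⁻¹⁻¹ = g * z * g⁻¹ := by group
  rwa [hh] at this

end CfsgH3
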