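import Mathlib
import Cfsg.Agent.H1.PSolv
import Cfsg.Agent.H1.MinNormal
import Cfsg.Agent.H1.Frat
import Cfsg.Agent.H1.SZ3
import Cfsg.Agent.H1.CopExtra
import Cfsg.Agent.H2.Cores
import Cfsg.Agent.H2.Fitting
import Cfsg.Agent.H3.NPC2

set_option autoImplicit false

/-!
Groups whose maximal subgroups have a normal `p`-complement or prime index.
-/

namespace CfsgH3

open Subgroup Cfsg

open scoped Pointwise commutatorElement

universe u

/-- the series `p'`, `p`, `p'`, `p` -/
def Ser (p : ℕ) (G : Type u) [Group G] : Prop := 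
  ∃ A B C : Subgroup G, A.Normal ∧ B.Normal ∧ C.Normal ∧ A ≤ B ∧ B ≤ C ∧ (Nat.card A).Coprime p ∧ (∃ k : ℕ, A.relIndex B = p ^ k) ∧ 
    (B.relIndex C).Coprime p ∧ ∃ k : ℕ, C.index = p ^ k

section

variable {G : Type u} [Group G] [Finite G]

theorem relIndex_dvd_of_normal {H K L : Subgroup G} [H.Normal] (h : K ≤ L) : H.relIndex K ∣ H.relIndex L := by
  rw [← Subgroup.relIndex_subgroupOf (H := H) h]
  exact Subgroup.relIndex_dvd_index_of_normal _ _

theorem relIndex_inf_inf_dvd {A₁ B₁ A₂ B₂ : Subgroup G} [A₁.Normal] [A₂.Normal] (h1 : A₁ ≤ B₁) (h2 : A₂ ≤ B₂) : 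
    (A₁ ⊓ A₂).relIndex (B₁ ⊓ B₂) ∣ A₁.relIndex B₁ * A₂.relIndex B₂ := by
  rw [← Subgroup.relIndex_mul_relIndex (A₁ ⊓ A₂) (A₁ ⊓ B₂) (B₁ ⊓ B₂) (inf_le_inf_left _ h2) (inf_le_inf_right _ h1), mul_comm]
  apply mul_dvd_mul
  · have : (A₁ ⊓ B₂).relIndex (B₁ ⊓ B₂) = A₁.relIndex (B₁ ⊓ B₂) := by
      rw [← Subgroup.inf_relIndex_right (A₁ ⊓ B₂), ← Subgroup.inf_relIndex_right A₁]
      congr 1
      rw [inf_assoc, inf_left_comm B₂, inf_idem]
    rw [this]; exact relIndex_dvd_of_normal inf_le_left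
  · have : (A₁ ⊓ A₂).relIndex (A₁ ⊓ B₂) = A₂.relIndex (A₁ ⊓ B₂) := by
      rw [← Subgroup.inf_relIndex_right (A₁ ⊓ A₂), ← Subgroup.inf_relIndex_right A₂]
      congr 1
      rw [inf_assoc, inf_left_comm A₂, ← inf_assoc A₁ A₁, inf_idem]
    rw [this]; exact relIndex_dvd_of_normal inf_le_right

variable {p : ℕ} [hp : Fact p.Prime]

theorem pow_of_dvd {n k : ℕ} (h : n ∣ p ^ k) : ∃ j, n = p ^ j := by
  obtain ⟨j, -, hj⟩ := (Nat.dvd_prime_pow hp.out).1 h
  exact ⟨j, hj⟩

theorem Ser.pull {N : Subgroup G} [hN : N.Normal] (h : Ser p (G ⧸ N)) : ∃ A B C : Subgroup G, A.Normal ∧ B.Normal ∧ C.Normal ∧ N ≤ A ∧ A ≤ B ∧ B ≤ C ∧ 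
    (N.relIndex A).Coprime p ∧ (∃ k : ℕ, A.relIndex B = p ^ k) ∧ (B.relIndex C).Coprime p ∧ ∃ k : ℕ, C.index = p ^ k := by
  obtain ⟨A, B, C, hA, hB, hC, hAB, hBC, h1, ⟨k, h2⟩, h3, ⟨l, h4⟩⟩ := h
  set f := QuotientGroup.mk' N with hf
  have hfs : Function.Surjective f := QuotientGroup.mk'_surjective N
  have key : ∀ X Y : Subgroup (G ⧸ N), (X.comap f).relIndex (Y.comap f) = X.relIndex Y := by
    intro X Y
    rw [Subgroup.relIndex_comap, Subgroup.map_comap_eq_self_of_surjective hfs]
  refine ⟨A.comap f, B.comap f, C.comap f, hA.comap f, hB.comap f, hC.comap f, ?_, Subgroup.comap_mono hAB, Subgroup.comap_mono hBC, ?_, ⟨k, by rw [key, h2]⟩, 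
    by rw [key]; exact h3, ⟨l, by rw [Subgroup.index_comap_of_surjective _ hfs, h4]⟩⟩
  · intro x hx
    have h9 : f x = 1 := (QuotientGroup.eq_one_iff x).2 hx
    rw [mem_comap, h9]; exact A.one_mem
  · have : N = (⊥ : Subgroup (G ⧸ N)).comap f := by
      ext x
      rw [mem_comap, mem_bot]; exact (QuotientGroup.eq_one_iff x).symm
    have h5 : N.relIndex (A.comap f) = Nat.card A := by
      calc N.relIndex (A.comap f) = ((⊥ : Subgroup (G ⧸ N)).comap f).relIndex (A.comap f) := by rw [← this]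
        _ = _ := by rw [key, Subgroup.relIndex_bot_left]
    rw [h5]; exact h1

theorem Ser.of_prime {N : Subgroup G} [hN : N.Normal] (hNp : (Nat.card N).Coprime p) (h : Ser p (G ⧸ N)) : Ser p G := by
  obtain ⟨A, B, C, hA, hB, hC, hNA, hAB, hBC, h1, h2, h3, h4⟩ := h.pull
  refine ⟨A, B, C, hA, hB, hC, hAB, hBC, ?_, h2, h3, h4⟩
  have h5 := Subgroup.relIndex_mul_relIndex (⊥ : Subgroup G) N A bot_le hNA
  rw [Subgroup.relIndex_bot_left, Subgroup.relIndex_bot_left] at h5
  rw [← h5]; exact Nat.Coprime.mul_left hNp h1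

theorem Ser.of_two {N₁ N₂ : Subgroup G} [hN₁ : N₁.Normal] [hN₂ : N₂.Normal] (hi : N₁ ⊓ N₂ = ⊥) (h₁ : Ser p (G ⧸ N₁)) (h₂ : Ser p (G ⧸ N₂)) : Ser p G := by
  obtain ⟨A, B, C, hA, hB, hC, hNA, hAB, hBC, h1, ⟨k, h2⟩, h3, ⟨l, h4⟩⟩ := h₁.pull
  obtain ⟨A', B', C', hA', hB', hC', hNA', hAB', hBC', h1', ⟨k', h2'⟩, h3', ⟨l', h4'⟩⟩ := h₂.pull
  refine ⟨A ⊓ A', B ⊓ B', C ⊓ C', inferInstance, inferInstance, inferInstance, inf_le_inf hAB hAB', inf_le_inf hBC hBC', ?_, ?_, ?_, ?_⟩
  · have h5 := relIndex_inf_inf_dvd hNA hNA'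
    rw [hi, Subgroup.relIndex_bot_left] at h5
    exact Nat.Coprime.coprime_dvd_left h5 (Nat.Coprime.mul_left h1 h1')
  · have h5 := relIndex_inf_inf_dvd hAB hAB'
    rw [h2, h2', ← pow_add] at h5
    exact pow_of_dvd h5
  · exact Nat.Coprime.coprime_dvd_left (relIndex_inf_inf_dvd hBC hBC') (Nat.Coprime.mul_left h3 h3')
  · have h5 := relIndex_inf_inf_dvd (le_top : C ≤ ⊤) (le_top : C' ≤ ⊤)
    rw [inf_top_eq, Subgroup.relIndex_top_right, Subgroup.relIndex_top_right, Subgroup.relIndex_top_right, h4, h4', ← pow_add] at h5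
    exact pow_of_dvd h5

theorem Ser.of_frattini {N : Subgroup G} [hN : N.Normal] (hNp : IsPGroup p N) (hNf : N ≤ frattini G) (h : Ser p (G ⧸ N)) : Ser p G := by
  obtain ⟨A, B, C, hA, hB, hC, hNA, hAB, hBC, h1, ⟨k, h2⟩, h3, h4⟩ := h.pull
  obtain ⟨n, hn⟩ := IsPGroup.iff_card.1 hNp
  have hcop : (Nat.card N).Coprime (N.relIndex A) := by
    rw [hn]; exact (Nat.Coprime.pow_right n h1).symm
  -- complement
  obtain ⟨A₀, hA₀A, hA₀i, hA₀s⟩ : ∃ A₀ ≤ A, N ⊓ A₀ = ⊥ ∧ N ⊔ A₀ = A := by
    haveI : (N.subgroupOf A).Normal := inferInstance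
    have hc2 : Nat.card (N.subgroupOf A) = Nat.card N := Nat.card_congr (subgroupOfEquivOfLe hNA).toEquiv
    obtain ⟨H, hH⟩ := Subgroup.exists_right_complement'_of_coprime (N := N.subgroupOf A) (by rw [hc2]; exact hcop)
    refine ⟨H.map A.subtype, Subgroup.map_subtype_le _, ?_, ?_⟩
    · rw [Subgroup.eq_bot_iff_forall]
      rintro _ ⟨hx1, ⟨x, hx, rfl⟩⟩
      have : x ∈ N.subgroupOf A ⊓ H := ⟨hx1, hx⟩
      rw [hH.disjoint.eq_bot, mem_bot] at this
      rw [this]; rfl
    · have h5 := hH.sup_eq_top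
      have h6 := congrArg (Subgroup.map A.subtype) h5
      rw [Subgroup.map_sup, Subgroup.map_subgroupOf_eq_of_le hNA, ← MonoidHom.range_eq_map, Subgroup.range_subtype] at h6
      exact h6
  have hcardA : Nat.card A = Nat.card N * Nat.card A₀ := by
    rw [← hA₀s, sup_comm, CfsgH1.card_sup_of_disjoint (CfsgH1.le_normalizer_of_normal A₀ N) (by rw [inf_comm]; exact hA₀i), mul_comm]
  have hrA : N.relIndex A = Nat.card A₀ := by
    have h5 := Subgroup.relIndex_mul_relIndex (⊥ : Subgroup G) N A bot_le hNA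
    rw [Subgroup.relIndex_bot_left, Subgroup.relIndex_bot_left, hcardA] at h5
    exact Nat.eq_of_mul_eq_mul_left Nat.card_pos h5
  have hA₀n : A₀.Normal := by
    rw [← normalizer_eq_top_iff]
    apply CfsgH1.eq_top_of_sup_frattini hNf
    rw [eq_top_iff]
    intro g _
    have hgA : MulAut.conj g • A = A := by
      rw [CfsgH1.conj_smul_of_normal]
    have hgN : MulAut.conj g • N = N := by
      rw [CfsgH1.conj_smul_of_normal]
    obtain ⟨x, hx, hxe⟩ := CfsgH1.sz_conj_internal (N := N) (H := MulAut.conj g • A₀) (K := A₀) (CfsgH1.le_normalizer_of_normal _ _) (CfsgH1.le_normalizer_of_normal _ _) 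
      (by rw [CfsgH1.card_conj_smul, ← hrA]; exact hcop) (Or.inl (CfsgH1.isNilpotent_isSolvable hNp.isNilpotent)) (by
        rw [hA₀s]
        nth_rewrite 1 [← hgN]
        rw [← Subgroup.smul_sup, hA₀s, hgA]) hA₀i
    rw [smul_smul, ← map_mul, CfsgH1.conj_smul_eq_self_iff] at hxe
    have e : g = (x⁻¹) * (x * g) := by group
    rw [e]
    exact mul_mem (mem_sup_right (N.inv_mem hx)) (mem_sup_left hxe)
  refine ⟨A₀, B, C, hA₀n, hB, hC, hA₀A.trans hAB, hBC, ?_, ⟨n + k, ?_⟩, h3, h4⟩
  · rw [← hrA]; exact h1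
  · rw [← Subgroup.relIndex_mul_relIndex A₀ A B hA₀A hAB, h2]
    have h5 := Subgroup.relIndex_mul_relIndex (⊥ : Subgroup G) A₀ A bot_le hA₀A
    rw [Subgroup.relIndex_bot_left, Subgroup.relIndex_bot_left, hcardA, mul_comm] at h5
    rw [Nat.eq_of_mul_eq_mul_right Nat.card_pos h5, hn, pow_add]

end

theorem ser_main (p : ℕ) [hp : Fact p.Prime] (n : ℕ) : ∀ (G : Type u) [Group G] [Finite G], Nat.card G = n → IsPSolvable p G → 
    (∀ M : Subgroup G, IsCoatom M → HasNPC p M ∨ M.index.Prime) → Ser p G := by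
  induction n using Nat.strong_induction_on with
  | _ n ih =>
  intro G _ _ hn hsol hmax
  classical
  rcases subsingleton_or_nontrivial G with hG | hG
  · refine ⟨⊤, ⊤, ⊤, inferInstance, inferInstance, inferInstance, le_rfl, le_rfl, ?_, ⟨0, by simp⟩, by simp, ⟨0, by simp⟩⟩
    rw [Subgroup.card_top]
    have : Nat.card G = 1 := Nat.card_eq_one_iff_unique.2 ⟨hG, ⟨1⟩⟩
    rw [this]; exact Nat.coprime_one_left _
  have hquot : ∀ N : Subgroup G, ∀ _ : N.Normal, N ≠ ⊥ → Ser p (G ⧸ N) := by
    intro N hN hN1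
    have hlt : Nat.card (G ⧸ N) < n := by
      rw [← hn, ← Subgroup.card_mul_index N]
      have h1 : 1 < Nat.card N := by
        exact (Subgroup.one_lt_card_iff_ne_bot N).2 hN1
      have h2 : 0 < Nat.card (G ⧸ N) := Nat.card_pos
      show Nat.card (G ⧸ N) < Nat.card N * Nat.card (G ⧸ N)
      nlinarith
    refine ih _ hlt (G ⧸ N) rfl (CfsgH1.IsPSolvable.map hsol (QuotientGroup.mk' N) (QuotientGroup.mk'_surjective N)) ?_
    intro M hM
    set f := QuotientGroup.mk' N with hf
    have hfs : Function.Surjective f := QuotientGroup.mk'_surjective N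
    have hMc : IsCoatom (M.comap f) := by
      refine ⟨?_, ?_⟩
      · intro h
        apply hM.1
        rw [← Subgroup.map_comap_eq_self_of_surjective hfs M, h, Subgroup.map_top_of_surjective f hfs]
      · intro L hL
        have h1 : M < L.map f := by
          refine lt_of_le_of_ne ?_ ?_
          · rw [← Subgroup.map_comap_eq_self_of_surjective hfs M]; exact Subgroup.map_mono hL.le
          · intro he
            apply hL.ne
            rw [he, Subgroup.comap_map_eq, QuotientGroup.ker_mk', sup_eq_left]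
            refine le_trans ?_ hL.le
            intro x hx
            have h9 : f x = 1 := (QuotientGroup.eq_one_iff x).2 hx
            rw [mem_comap, h9]; exact M.one_mem
        have h2 := hM.2 _ h1
        have h3 : N ≤ L := by
          refine le_trans ?_ hL.le
          intro x hx
          have h9 : f x = 1 := (QuotientGroup.eq_one_iff x).2 hx
          rw [mem_comap, h9]; exact M.one_mem
        have h4 := congrArg (Subgroup.comap f) h2
        rw [Subgroup.comap_map_eq, QuotientGroup.ker_mk', sup_eq_left.2 h3, Subgroup.comap_top] at h4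
        exact h4
    rcases hmax _ hMc with h | h
    · left
      have h1 : (M.comap f).map f = M := Subgroup.map_comap_eq_self_of_surjective hfs M
      have h2 := h.of_surjective (f.subgroupMap (M.comap f)) (f.subgroupMap_surjective _)
      rwa [h1] at h2
    · right
      rwa [Subgroup.index_comap_of_surjective _ hfs] at h
  by_cases hO : pPrimeCore p G = ⊥
  swap
  · exact Ser.of_prime (CfsgH2.coprime_card_pPrimeCore p) (hquot _ inferInstance hO)
  have hpc := (CfsgH1.IsPSolvable.core_ne_bot hsol).resolve_right (fun h => h hO)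
  obtain ⟨N, hN, hNle, hN1, hNmin⟩ := CfsgH1.exists_minNormal_le hpc
  have hNp : IsPGroup p N := (CfsgH2.isPGroup_pCore (G := G) p).to_le hNle
  by_cases h2 : ∃ N₂ : Subgroup G, N₂.Normal ∧ N₂ ≠ ⊥ ∧ N ⊓ N₂ = ⊥
  · obtain ⟨N₂, hN₂, hN₂1, hi⟩ := h2
    exact Ser.of_two hi (hquot N hN hN1) (hquot N₂ hN₂ hN₂1)
  push Not at h2
  by_cases hfr : N ≤ frattini G
  · exact Ser.of_frattini hNp hfr (hquot N hN hN1)
  obtain ⟨M, hM, hNM⟩ : ∃ M : Subgroup G, IsCoatom M ∧ ¬ N ≤ M := by
    by_contra h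
    push Not at h
    apply hfr
    exact le_iInf₂ (fun M hM => h M hM)
  have hMN : M ⊔ N = ⊤ := by
    apply hM.2
    exact lt_of_le_of_ne le_sup_left (fun he => hNM (by rw [he]; exact le_sup_right))
  obtain ⟨a, ha⟩ := IsPGroup.iff_card.1 hNp
  rcases hmax M hM with h | h
  · obtain ⟨K, hK, hKc, k, hKi⟩ := h
    set K' := K.map M.subtype with hK'
    have hK'M : K' ≤ M := Subgroup.map_subtype_le _
    have hK'c : Nat.card K' = Nat.card K := Subgroup.card_map_of_injective M.subtype_injective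
    have hMK : M ≤ normalizer (K' : Set G) := by
      have : (K'.subgroupOf M).Normal := by
        have : K'.subgroupOf M = K := by
          rw [hK', Subgroup.subgroupOf, Subgroup.comap_map_eq_self_of_injective M.subtype_injective]
        rw [this]; exact hK
      exact (normal_subgroupOf_iff_le_normalizer hK'M).1 this
    have hCn : (N ⊔ K').Normal := by
      rw [← normalizer_eq_top_iff, eq_top_iff, ← hMN]
      refine sup_le ?_ (le_sup_left.trans le_normalizer)
      intro m hm
      rw [← CfsgH1.conj_smul_eq_self_iff, Subgroup.smul_sup, CfsgH1.conj_smul_of_normal, CfsgH1.conj_smul_eq_self_iff.2 (hMK hm)]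
    refine ⟨⊥, N, N ⊔ K', inferInstance, hN, hCn, bot_le, le_sup_left, ?_, ⟨a, by rw [Subgroup.relIndex_bot_left, ha]⟩, ?_, ?_⟩
    · rw [Subgroup.card_bot]; exact Nat.coprime_one_left _
    · have h3 : N.relIndex (N ⊔ K') = N.relIndex K' := by
        rw [sup_comm, Subgroup.relIndex_sup_right]
      rw [h3]
      exact Nat.Coprime.coprime_dvd_left (Subgroup.relIndex_dvd_card _ _) (by rw [hK'c]; exact hKc)
    · have h3 : (N ⊔ K').index = (N ⊔ K').relIndex M := by
        have h4 := Subgroup.relIndex_sup_right M (N ⊔ K')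
        have h5 : M ⊔ (N ⊔ K') = ⊤ := by rw [← sup_assoc, hMN, top_sup_eq]
        rw [h5, Subgroup.relIndex_top_right] at h4
        exact h4
      have h4 : (N ⊔ K').relIndex M ∣ K'.relIndex M := Subgroup.relIndex_dvd_of_le_left M le_sup_right
      have h5 : K'.relIndex M = p ^ k := by
        rw [← hKi]
        show (K'.subgroupOf M).index = K.index
        have : K'.subgroupOf M = K := by
          rw [hK', Subgroup.subgroupOf, Subgroup.comap_map_eq_self_of_injective M.subtype_injective]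
        rw [this]
      rw [h3]
      rw [h5] at h4
      exact pow_of_dvd h4
  · -- prime index
    obtain ⟨hNab, -⟩ := CfsgH1.elemAb_of_min_invariant (B := ⊤) (M := N) (CfsgH1.le_normalizer_of_normal _ _) hN1 (CfsgH1.isNilpotent_isSolvable hNp.isNilpotent) (by
      intro L hL hle
      exact hNmin L (Subgroup.normalizer_eq_top_iff.1 (top_le_iff.1 hL)) hle)
    have hinf : M ⊓ N = ⊥ := by
      have hn1 : (M ⊓ N).Normal := by
        rw [← normalizer_eq_top_iff, eq_top_iff, ← hMN]
        refine sup_le (CfsgH1.le_normalizer_inf le_normalizer (CfsgH1.le_normalizer_of_normal _ _)) ?_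
        refine le_trans ?_ (centralizer_le_normalizer _)
        intro x hx
        rw [mem_centralizer_iff]
        rintro y ⟨-, hy⟩
        exact hNab y hy x hx
      rcases hNmin _ hn1 inf_le_right with h3 | h3
      · exact h3
      · exfalso; apply hNM; rw [← h3]; exact inf_le_left
    have hcard : Nat.card N = M.index := by
      have h3 := CfsgH1.card_sup_of_disjoint (CfsgH1.le_normalizer_of_normal M N) hinf
      rw [hMN, Subgroup.card_top, ← Subgroup.card_mul_index M] at h3
      exact (Nat.eq_of_mul_eq_mul_left Nat.card_pos h3).symm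
    have hNc : Nat.card N = p := by
      rw [ha] at hcard ⊢
      rw [← hcard] at h
      have : a = 1 := by
        rcases Nat.lt_or_ge a 2 with h4 | h4
        · interval_cases a
          · rw [pow_zero] at h; exact absurd h Nat.not_prime_one
          · rfl
        · exact absurd h (Nat.Prime.not_prime_pow h4)
      rw [this, pow_one]
    have hMC : M ⊓ centralizer (N : Set G) = ⊥ := by
      by_contra hne
      have hn1 : (M ⊓ centralizer (N : Set G)).Normal := by
        rw [← normalizer_eq_top_iff, eq_top_iff, ← hMN]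
        refine sup_le (CfsgH1.le_normalizer_inf le_normalizer (CfsgH1.le_normalizer_of_normal _ _)) ?_
        refine le_trans ?_ (centralizer_le_normalizer _)
        intro x hx
        rw [mem_centralizer_iff]
        rintro y ⟨-, hy⟩
        exact ((mem_centralizer_iff.1 hy) x hx).symm
      apply h2 _ hn1 hne
      rw [eq_bot_iff, ← hinf]
      exact le_inf (inf_le_right.trans inf_le_left) inf_le_left
    have hMcard : (Nat.card M).Coprime p := by
      have h3 : Nat.card M ∣ Nat.card (MulAut N) := by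
        let φ : M →* MulAut N := N.normalizerMonoidHom.comp (Subgroup.inclusion (CfsgH1.le_normalizer_of_normal M N))
        apply Subgroup.card_dvd_of_injective φ
        rw [injective_iff_map_eq_one]
        intro m hm
        have h4 : Subgroup.inclusion (CfsgH1.le_normalizer_of_normal M N) m ∈ N.normalizerMonoidHom.ker := hm
        rw [Subgroup.normalizerMonoidHom_ker, mem_subgroupOf] at h4
        have h5 : (m : G) ∈ M ⊓ centralizer (N : Set G) := ⟨m.2, h4⟩
        rw [hMC, mem_bot] at h5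
        exact Subtype.ext h5
      have h4 : Nat.card (MulAut N) = p - 1 := by
        haveI : IsCyclic N := isCyclic_of_prime_card hNc
        rw [IsCyclic.card_mulAut, hNc, Nat.totient_prime hp.out]
      rw [h4] at h3
      apply Nat.Coprime.coprime_dvd_left h3
      have h5 := hp.out.two_le
      rw [Nat.coprime_comm, Nat.Prime.coprime_iff_not_dvd hp.out]
      intro h6
      have := Nat.le_of_dvd (by omega) h6
      omega
    refine ⟨⊥, N, ⊤, inferInstance, hN, inferInstance, bot_le, le_top, ?_, ⟨a, by rw [Subgroup.relIndex_bot_left, ha]⟩, ?_, ⟨0, by simp⟩⟩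
    · rw [Subgroup.card_bot]; exact Nat.coprime_one_left _
    · rw [Subgroup.relIndex_top_right]
      have h3 := Subgroup.relIndex_sup_right M N
      rw [hMN, Subgroup.relIndex_top_right] at h3
      rw [h3]
      exact Nat.Coprime.coprime_dvd_left (Subgroup.relIndex_dvd_card _ _) hMcard

end CfsgH3
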