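import Mathlib
import Cfsg.Agent.H3.PCentral
import Cfsg.Agent.H2.SqFree2
import Cfsg.Agent.H3.PGroup
import Cfsg.Agent.H3.Rank2

set_option autoImplicit false

/-!
Groups all of whose conjugacy classes have size one or a prime.
-/

namespace CfsgH3

open Subgroup

open scoped Pointwise commutatorElement

variable {G : Type*} [Group G] [Finite G]

local notation "Ce" x => Subgroup.centralizer ({x} : Set G)

theorem mem_cent {x y : G} : y ∈ (Ce x) ↔ y * x = x * y := by
  rw [Subgroup.mem_centralizer_singleton_iff]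

theorem cent_conj (x g : G) : (Ce (g * x * g⁻¹)) = MulAut.conj g • (Ce x) := by
  ext y
  rw [mem_conj_smul_iff, mem_cent, mem_cent]
  constructor
  · intro h
    calc g⁻¹ * y * g * x = g⁻¹ * (y * (g * x * g⁻¹)) * g := by group
      _ = _ := by rw [h]; group
  · intro h
    calc y * (g * x * g⁻¹) = g * (g⁻¹ * y * g * x) * g⁻¹ := by group
      _ = _ := by rw [h]; group

theorem index_conj (x g : G) : (Ce (g * x * g⁻¹)).index = (Ce x).index := by
  rw [cent_conj]
  have h1 := Subgroup.card_mul_index (MulAut.conj g • (Ce x))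
  have h2 := Subgroup.card_mul_index (Ce x)
  have h3 : Nat.card (MulAut.conj g • (Ce x) : Subgroup G) = Nat.card (Ce x) := 
    Nat.card_congr (Subgroup.equivSMul (MulAut.conj g) (Ce x)).symm.toEquiv
  rw [h3] at h1
  exact Nat.eq_of_mul_eq_mul_left Nat.card_pos (h1.trans h2.symm)

theorem cent_eq_top_iff {x : G} : (Ce x) = ⊤ ↔ x ∈ center G := by
  rw [mem_center_iff, eq_top_iff]
  constructor
  · intro h g; exact mem_cent.1 (h (mem_top g))
  · intro h g _; exact mem_cent.2 (h g)

theorem eq_of_prime_index {A B : Subgroup G} (hAB : A ≤ B) (hA : A.index.Prime) (hB : B.index.Prime) : A = B := by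
  apply le_antisymm hAB
  rw [← Subgroup.relIndex_eq_one]
  have h1 := Subgroup.relIndex_mul_index hAB
  rcases hA.eq_one_or_self_of_dvd (A.relIndex B) (Dvd.intro _ h1) with h | h
  · exact h
  · exfalso
    rw [h] at h1
    have := hB.one_lt
    have h2 := hA.pos
    nlinarith

/-- a power of `x` of prime power order that is not central -/
theorem exists_primary_noncentral {x : G} (hx : x ∉ center G) : ∃ (r : ℕ) (k : ℕ), r.Prime ∧ x ^ k ∉ center G ∧ ∃ a : ℕ, (x ^ k) ^ r ^ a = 1 := by
  have h1 : orderOf (QuotientGroup.mk x : G ⧸ center G) ≠ 1 := by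
    rw [Ne, orderOf_eq_one_iff, QuotientGroup.eq_one_iff]; exact hx
  obtain ⟨r, hr, hrd⟩ := Nat.exists_prime_and_dvd h1
  obtain ⟨a, b, hb, hab⟩ := Nat.exists_eq_pow_mul_and_not_dvd (orderOf_pos x).ne' r hr.ne_one
  refine ⟨r, b, hr, ?_, a, ?_⟩
  · intro h
    have h2 : (QuotientGroup.mk x : G ⧸ center G) ^ b = 1 := by
      rw [← QuotientGroup.mk_pow, QuotientGroup.eq_one_iff]; exact h
    exact hb (hrd.trans (orderOf_dvd_of_pow_eq_one h2))
  · rw [← pow_mul, mul_comm, ← hab, pow_orderOf_eq_one]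

theorem cent_le_pow (x : G) (k : ℕ) : (Ce x) ≤ (Ce (x ^ k)) := by
  intro y hy
  rw [mem_cent] at hy ⊢
  exact ((show Commute y x from hy).pow_right k).eq

/-- the class sizes are one or a prime -/
def PrimeClasses (G : Type*) [Group G] : Prop := 
  ∀ x : G, (Subgroup.centralizer ({x} : Set G)).index = 1 ∨ ((Subgroup.centralizer ({x} : Set G)).index).Prime

theorem PrimeClasses.prime (h : PrimeClasses G) {x : G} (hx : x ∉ center G) : (Ce x).index.Prime := by
  rcases h x with h1 | h1
  · exfalso; apply hx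
    rw [Subgroup.index_eq_one] at h1
    exact cent_eq_top_iff.1 h1
  · exact h1

theorem PrimeClasses.cent_eq (h : PrimeClasses G) {x y : G} (hx : x ∉ center G) (hy : y ∉ center G) (hxy : (Ce x) ≤ (Ce y)) : 
    (Ce x) = (Ce y) := eq_of_prime_index hxy (h.prime hx) (h.prime hy)

/-- commuting noncentral elements of coprime orders have the same centralizer -/
theorem PrimeClasses.cent_eq_of_coprime (h : PrimeClasses G) {x y : G} (hx : x ∉ center G) (hy : y ∉ center G)
    (hc : x * y = y * x) (hco : (orderOf x).Coprime (orderOf y)) : (Ce x) = (Ce y) := by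
  have hcomm : Commute x y := hc
  -- both x and y are powers of x * y
  have key : ∀ z : G, z * (x * y) = (x * y) * z → z * x = x * z ∧ z * y = y * z := by
    intro z hz
    have hz' : Commute z (x * y) := hz
    obtain ⟨k, hk1, hk2⟩ := Nat.chineseRemainder hco 1 0
    have e1 : (x * y) ^ k = x := by
      rw [hcomm.mul_pow]
      have h1 : x ^ k = x := by
        have := (pow_eq_pow_iff_modEq (x := x)).2 hk1
        simpa using this
      have h2 : y ^ k = 1 := by
        have := (pow_eq_pow_iff_modEq (x := y)).2 hk2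
        simpa using this
      rw [h1, h2, mul_one]
    obtain ⟨l, hl1, hl2⟩ := Nat.chineseRemainder hco 0 1
    have e2 : (x * y) ^ l = y := by
      rw [hcomm.mul_pow]
      have h1 : x ^ l = 1 := by
        have := (pow_eq_pow_iff_modEq (x := x)).2 hl1
        simpa using this
      have h2 : y ^ l = y := by
        have := (pow_eq_pow_iff_modEq (x := y)).2 hl2
        simpa using this
      rw [h1, h2, one_mul]
    refine ⟨?_, ?_⟩
    · have := (hz'.pow_right k).eq
      rw [e1] at this; exact this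
    · have := (hz'.pow_right l).eq
      rw [e2] at this; exact this
  have hxy : x * y ∉ center G := by
    intro h1
    apply hx
    rw [mem_center_iff] at h1 ⊢
    intro g
    exact (key g (h1 g)).1
  have h1 : (Ce (x * y)) ≤ (Ce x) := fun z hz => mem_cent.2 (key z (mem_cent.1 hz)).1
  have h2 : (Ce (x * y)) ≤ (Ce y) := fun z hz => mem_cent.2 (key z (mem_cent.1 hz)).2
  rw [← h.cent_eq hxy hx h1, ← h.cent_eq hxy hy h2]

theorem coprime_of_pow_eq {x y : G} {r s a b : ℕ} (hr : r.Prime) (hs : s.Prime) (hrs : r ≠ s) (hx : x ^ r ^ a = 1) (hy : y ^ s ^ b = 1) : 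
    (orderOf x).Coprime (orderOf y) := by
  apply Nat.Coprime.coprime_dvd_left (orderOf_dvd_of_pow_eq_one hx)
  apply Nat.Coprime.coprime_dvd_right (orderOf_dvd_of_pow_eq_one hy)
  exact Nat.Coprime.pow _ _ ((Nat.coprime_primes hr hs).2 hrs)

/-- a primary element is conjugate into any subgroup of coprime index -/
theorem exists_conj_mem {r a : ℕ} (hr : r.Prime) {x : G} (hx : x ^ r ^ a = 1) {C : Subgroup G} (hC : ¬ r ∣ C.index) : 
    ∃ g : G, g * x * g⁻¹ ∈ C := by
  haveI := Fact.mk hr
  obtain ⟨P, hP⟩ := exists_sylow_le_of_not_dvd C hC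
  have hx' : IsPGroup r (zpowers x) := by
    intro ⟨y, hy⟩
    obtain ⟨k, rfl⟩ := hy
    refine ⟨a, Subtype.ext ?_⟩
    show (x ^ k) ^ r ^ a = 1
    rw [← zpow_natCast, ← zpow_mul, mul_comm, zpow_mul, zpow_natCast, hx, one_zpow]
  obtain ⟨Q, hQ⟩ := hx'.exists_le_sylow
  obtain ⟨g, hg⟩ := MulAction.exists_smul_eq G Q P
  refine ⟨g, hP ?_⟩
  rw [← hg]
  have : x ∈ Q := hQ (mem_zpowers x)
  show g * x * g⁻¹ ∈ g • Q
  rw [mem_smul_sylow_iff]
  have e : g⁻¹ * (g * x * g⁻¹) * g = x := by group
  rw [e]; exact this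

theorem conj_not_mem_center {x g : G} (hx : x ∉ center G) : g * x * g⁻¹ ∉ center G := by
  intro h
  apply hx
  have := (inferInstance : (center G).Normal).conj_mem _ h g⁻¹
  have e : g⁻¹ * (g * x * g⁻¹) * g⁻¹⁻¹ = x := by group
  rwa [e] at this

theorem conj_pow_eq_one {x g : G} {n : ℕ} (hx : x ^ n = 1) : (g * x * g⁻¹) ^ n = 1 := by
  rw [conj_pow, hx]; group

/-- noncentral `r`-elements of different index -/
theorem PrimeClasses.lemmaA (h : PrimeClasses G) {r a b : ℕ} (hr : r.Prime) {u v : G} (hu : u ∉ center G) (hv : v ∉ center G)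
    (hur : u ^ r ^ a = 1) (hvr : v ^ r ^ b = 1) (h1 : (Ce u).index ≠ r) : (Ce v).index = (Ce u).index := by
  by_contra hne
  haveI := Fact.mk hr
  have hup := h.prime hu
  haveI := Fact.mk hup
  obtain ⟨R, hR⟩ := exists_sylow_le_of_not_dvd (p := r) (Ce u) (by
    intro h2
    exact h1 ((Nat.prime_dvd_prime_iff_eq hr hup).1 h2).symm)
  obtain ⟨g, hg⟩ := exists_conj_mem hr hvr R.not_dvd_index
  have hidx : (Ce (g * v * g⁻¹)).index = (Ce v).index := index_conj v g
  have hvp := h.prime hv
  obtain ⟨L, hL⟩ := exists_sylow_le_of_not_dvd (p := (Ce u).index) (Ce (g * v * g⁻¹)) (by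
    rw [hidx]
    intro h2
    exact hne ((Nat.prime_dvd_prime_iff_eq hup hvp).1 h2).symm)
  -- all of L commutes with u
  have hLu : (L : Subgroup G) ≤ (Ce u) := by
    intro z hz
    by_cases hzc : z ∈ center G
    · rw [mem_cent]; exact ((mem_center_iff.1 hzc) u).symm
    obtain ⟨c, hc⟩ := L.isPGroup' ⟨z, hz⟩
    have hz' : z ^ (Ce u).index ^ c = 1 := congrArg Subtype.val hc
    have h3 : (Ce (g * v * g⁻¹)) = (Ce z) := by
      apply h.cent_eq_of_coprime (conj_not_mem_center hv) hzc ((mem_cent.1 (hL hz)).symm)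
      exact coprime_of_pow_eq hr hup (fun h4 => h1 h4.symm) (conj_pow_eq_one hvr) hz'
    have h4 : u ∈ (Ce (g * v * g⁻¹)) := by
      rw [mem_cent]; exact (mem_cent.1 (hR hg)).symm
    rw [h3, mem_cent] at h4
    rw [mem_cent]; exact h4.symm
  exact L.not_dvd_index (dvd_refl _ |>.trans (Subgroup.index_dvd_of_le hLu))

theorem PrimeClasses.lemmaA' (h : PrimeClasses G) {r a b : ℕ} (hr : r.Prime) {u v : G} (hu : u ∉ center G) (hv : v ∉ center G)
    (hur : u ^ r ^ a = 1) (hvr : v ^ r ^ b = 1) : (Ce v).index = (Ce u).index := by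
  by_cases h1 : (Ce u).index = r
  · by_cases h2 : (Ce v).index = r
    · rw [h1, h2]
    · exact (h.lemmaA hr hv hu hvr hur h2).symm
  · exact h.lemmaA hr hu hv hur hvr h1

theorem PrimeClasses.lemmaB (h : PrimeClasses G) {r s a b : ℕ} (hr : r.Prime) (hs : s.Prime) (hrs : r ≠ s) {x y : G} 
    (hx : x ∉ center G) (hy : y ∉ center G)
    (hxr : x ^ r ^ a = 1) (hys : y ^ s ^ b = 1) (hne : (Ce x).index ≠ (Ce y).index) : r = (Ce y).index := by
  by_contra h1
  obtain ⟨g, hg⟩ := exists_conj_mem hr hxr (C := Ce y) (by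
    intro h2
    exact h1 ((Nat.prime_dvd_prime_iff_eq hr (h.prime hy)).1 h2))
  have h3 : (Ce (g * x * g⁻¹)) = (Ce y) := h.cent_eq_of_coprime (conj_not_mem_center hx) hy (mem_cent.1 hg) 
    (coprime_of_pow_eq hr hs hrs (conj_pow_eq_one hxr) hys)
  apply hne
  rw [← index_conj x g, h3]

theorem PrimeClasses.primary (h : PrimeClasses G) {x : G} (hx : x ∉ center G) : ∃ (r k a : ℕ), r.Prime ∧ x ^ k ∉ center G ∧ 
    (x ^ k) ^ r ^ a = 1 ∧ (Ce (x ^ k)) = (Ce x) := by
  obtain ⟨r, k, hr, h1, a, h2⟩ := exists_primary_noncentral hx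
  exact ⟨r, k, a, hr, h1, h2, (h.cent_eq hx h1 (cent_le_pow x k)).symm⟩

/-- two different indices -/
theorem PrimeClasses.caseB (h : PrimeClasses G) {x₀ y₀ : G} (hx₀ : x₀ ∉ center G) (hy₀ : y₀ ∉ center G)
    (hne₀ : (Ce x₀).index ≠ (Ce y₀).index) : 
    ∃ p q : ℕ, p.Prime ∧ q.Prime ∧ p ≠ q ∧ Nat.card (G ⧸ Subgroup.center G) = p * q ∧ ¬ IsMulCommutative (G ⧸ Subgroup.center G) := by
  obtain ⟨r, k, a, hr, hx, hxr, hxc⟩ := h.primary hx₀
  obtain ⟨s, l, b, hs, hy, hys, hyc⟩ := h.primary hy₀
  rw [← hxc, ← hyc] at hne₀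
  set x := x₀ ^ k with hxdef
  set y := y₀ ^ l with hydef
  have hrs : r ≠ s := by
    rintro rfl
    exact hne₀ (h.lemmaA' hr hy hx hys hxr)
  have e1 := h.lemmaB hr hs hrs hx hy hxr hys hne₀
  have e2 := h.lemmaB hs hr hrs.symm hy hx hys hxr hne₀.symm
  -- the center is the intersection
  have hinf : center G = (Ce x) ⊓ (Ce y) := by
    apply le_antisymm
    · intro z hz
      rw [mem_center_iff] at hz
      exact ⟨mem_cent.2 (hz x).symm, mem_cent.2 (hz y).symm⟩
    · intro z hz
      by_contra hzc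
      obtain ⟨t, m, c, ht, hz1, hz2, hz3⟩ := h.primary hzc
      have hzx : (z ^ m) * x = x * z ^ m := mem_cent.1 (pow_mem hz.1 m)
      have hzy : (z ^ m) * y = y * z ^ m := mem_cent.1 (pow_mem hz.2 m)
      -- t = r or t = s
      by_cases htr : t = r
      · subst htr
        -- z ^ m commutes with y, orders coprime
        have h4 := h.cent_eq_of_coprime hz1 hy hzy (coprime_of_pow_eq hr hs hrs hz2 hys)
        have h5 := h.lemmaA' hr hx hz1 hxr hz2
        exact hne₀ (by rw [← h5, h4])
      · have h4 := h.cent_eq_of_coprime hz1 hx hzx (coprime_of_pow_eq ht hr htr hz2 hxr)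
        by_cases hts : t = s
        · subst hts
          have h5 := h.lemmaA' hs hy hz1 hys hz2
          exact hne₀ (by rw [← h5, h4])
        · have h5 := h.cent_eq_of_coprime hz1 hy hzy (coprime_of_pow_eq ht hs hts hz2 hys)
          exact hne₀ (by rw [← h4, h5])
  refine ⟨r, s, hr, hs, hrs, ?_, ?_⟩
  · change (center G).index = r * s
    have h1 : (center G).index ≤ r * s := by
      rw [hinf, mul_comm]
      have := Subgroup.index_inf_le (H := Ce x) (K := Ce y)
      rw [← e1, ← e2] at this; exact this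
    have h2 : r ∣ (center G).index := by
      rw [e1]; exact Subgroup.index_dvd_of_le (hinf ▸ inf_le_right)
    have h3 : s ∣ (center G).index := by
      rw [e2]; exact Subgroup.index_dvd_of_le (hinf ▸ inf_le_left)
    have h4 : r * s ∣ (center G).index := ((Nat.coprime_primes hr hs).2 hrs).mul_dvd_of_dvd_of_dvd h2 h3
    exact le_antisymm h1 (Nat.le_of_dvd (Nat.pos_of_ne_zero Subgroup.index_ne_zero_of_finite) h4)
  · intro hcomm
    have hcard : Nat.card (G ⧸ center G) = r * s := by
      change (center G).index = r * s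
      have h1 : (center G).index ≤ r * s := by
        rw [hinf, mul_comm]
        have := Subgroup.index_inf_le (H := Ce x) (K := Ce y)
        rw [← e1, ← e2] at this; exact this
      have h2 : r ∣ (center G).index := by
        rw [e1]; exact Subgroup.index_dvd_of_le (hinf ▸ inf_le_right)
      have h3 : s ∣ (center G).index := by
        rw [e2]; exact Subgroup.index_dvd_of_le (hinf ▸ inf_le_left)
      have h4 : r * s ∣ (center G).index := ((Nat.coprime_primes hr hs).2 hrs).mul_dvd_of_dvd_of_dvd h2 h3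
      exact le_antisymm h1 (Nat.le_of_dvd (Nat.pos_of_ne_zero Subgroup.index_ne_zero_of_finite) h4)
    have ord : ∀ {r s a : ℕ} {x : G} (hr : r.Prime) (hs : s.Prime) (hrs : r ≠ s) (hx : x ∉ center G) (hxr : x ^ r ^ a = 1) 
        (hc : Nat.card (G ⧸ center G) = r * s), orderOf (QuotientGroup.mk x : G ⧸ center G) = r := by
      intro r s a x hr hs hrs hx hxr hc
      have h1 : (QuotientGroup.mk x : G ⧸ center G) ^ r ^ a = 1 := by
        rw [← QuotientGroup.mk_pow, hxr]; rfl
      obtain ⟨i, -, hi⟩ := (Nat.dvd_prime_pow hr).1 (orderOf_dvd_of_pow_eq_one h1)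
      have h2 : orderOf (QuotientGroup.mk x : G ⧸ center G) ∣ r * s := by rw [← hc]; exact orderOf_dvd_natCard _
      have h3 : orderOf (QuotientGroup.mk x : G ⧸ center G) ≠ 1 := by
        rw [Ne, orderOf_eq_one_iff, QuotientGroup.eq_one_iff]; exact hx
      rw [hi] at h2 h3 ⊢
      rcases i with _ | _ | i
      · exact absurd rfl h3
      · simp
      · exfalso
        have h4 : r * r ∣ r * s := by
          refine Dvd.dvd.trans ⟨r ^ i, by ring⟩ h2
        have h5 := Nat.dvd_of_mul_dvd_mul_left hr.pos h4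
        exact hrs ((Nat.prime_dvd_prime_iff_eq hr hs).1 h5)
    have ox := ord hr hs hrs hx hxr hcard
    have oy := ord hs hr hrs.symm hy hys (hcard.trans (mul_comm _ _))
    have hc : Commute (QuotientGroup.mk x : G ⧸ center G) (QuotientGroup.mk y) := hcomm.is_comm.comm _ _
    have oxy := hc.orderOf_mul_eq_mul_orderOf_of_coprime (by rw [ox, oy]; exact (Nat.coprime_primes hr hs).2 hrs)
    haveI : IsCyclic (G ⧸ center G) := isCyclic_of_orderOf_eq_card _ (by rw [oxy, ox, oy, hcard])
    have h6 : IsMulCommutative G := isMulCommutative_of_isCyclic_quotient_center_self G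
    apply hx
    rw [mem_center_iff]
    intro g; exact h6.is_comm.comm g x

theorem PrimeClasses.caseA {p : ℕ} (hp : p.Prime) (h : ∀ x ∉ center G, (Ce x).index = p) : 
    Subgroup.upperCentralSeries G 2 = ⊤ := by
  haveI := Fact.mk hp
  have hidx : ∀ x : G, (Ce x).index = 1 ∨ (Ce x).index = p := by
    intro x
    by_cases hx : x ∈ center G
    · left; rw [Subgroup.index_eq_one]; exact cent_eq_top_iff.2 hx
    · right; exact h x hx
  -- primary elements for other primes are central
  have hcen : ∀ {r a : ℕ} (hr : r.Prime) (hrp : r ≠ p) {z : G} (hz : z ^ r ^ a = 1), z ∈ center G := by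
    intro r a hr hrp z hz
    rw [← cent_eq_top_iff]
    apply CfsgH2.eq_top_of_conj_cover
    intro y
    obtain ⟨g, hg⟩ := exists_conj_mem hr hz (C := Ce y) (by
      intro h2
      rcases hidx y with h3 | h3
      · rw [h3] at h2; exact hr.one_lt.ne' (Nat.dvd_one.1 h2)
      · rw [h3] at h2; exact hrp ((Nat.prime_dvd_prime_iff_eq hr hp).1 h2))
    refine ⟨g, ?_⟩
    rw [mem_cent] at hg ⊢
    calc g⁻¹ * y * g * z = g⁻¹ * (y * (g * z * g⁻¹)) * g := by group
      _ = g⁻¹ * ((g * z * g⁻¹) * y) * g := by rw [hg]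
      _ = _ := by group
  have hPG : IsPGroup p (G ⧸ center G) := by
    apply isPGroup_quotient_of_forall_mem
    intro g hg
    by_contra hgc
    obtain ⟨r, k, hr, h1, a, h2⟩ := exists_primary_noncentral hgc
    by_cases hrp : r = p
    · subst hrp
      apply h1
      have h3 : (orderOf (g ^ k)).Coprime r := Nat.Coprime.coprime_dvd_left (orderOf_pow_dvd k) hg
      rw [eq_one_of_coprime_of_pow h3 h2]
      exact one_mem _
    · exact h1 (hcen hr hrp h2)
  have hcomm : ∀ a b x : G, ⁅a, b⁆ ∈ (Ce x) := by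
    intro a b x
    by_cases hx : x ∈ center G
    · rw [cent_eq_top_iff.2 hx]; trivial
    let K := (Ce x).map (QuotientGroup.mk' (center G))
    have hK : K.comap (QuotientGroup.mk' (center G)) = Ce x := by
      rw [Subgroup.comap_map_eq, QuotientGroup.ker_mk', sup_eq_left]
      intro z hz
      rw [mem_center_iff] at hz
      exact mem_cent.2 (hz x).symm
    have hKi : K.index = p := by
      rw [← Subgroup.index_comap_of_surjective K (QuotientGroup.mk'_surjective (center G)), hK, h x hx]
    haveI : K.Normal := coatom_normal hPG (isCoatom_of_index hKi)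
    haveI : (Ce x).Normal := by rw [← hK]; infer_instance
    haveI : IsCyclic (G ⧸ (Ce x)) := isCyclic_of_prime_card (p := p) (h x hx)
    have h1 : IsMulCommutative (G ⧸ (Ce x)) := inferInstance
    exact (Subgroup.Normal.quotient_commutative_iff_commutator_le.1 h1) (Subgroup.commutator_mem_commutator (mem_top a) (mem_top b))
  rw [eq_top_iff]
  intro a _
  rw [show (2 : ℕ) = 1 + 1 from rfl, Subgroup.mem_upperCentralSeries_succ_iff]
  intro b
  rw [Subgroup.upperCentralSeries_one, mem_center_iff]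
  intro x
  exact (mem_cent.1 (hcomm a b x)).symm

theorem PrimeClasses.main (h : PrimeClasses G) : Subgroup.upperCentralSeries G 2 = ⊤ ∨
      ∃ p q : ℕ, p.Prime ∧ q.Prime ∧ p ≠ q ∧ Nat.card (G ⧸ Subgroup.center G) = p * q ∧ ¬ IsMulCommutative (G ⧸ Subgroup.center G) := by
  by_cases h1 : ∃ x y : G, x ∉ center G ∧ y ∉ center G ∧ (Ce x).index ≠ (Ce y).index
  · obtain ⟨x, y, hx, hy, hxy⟩ := h1
    right
    exact h.caseB hx hy hxy
  · left
    push Not at h1
    by_cases h2 : ∃ x : G, x ∉ center G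
    · obtain ⟨x, hx⟩ := h2
      exact PrimeClasses.caseA (h.prime hx) (fun y hy => h1 y x hy hx)
    · push Not at h2
      exact PrimeClasses.caseA Nat.prime_two (fun y hy => absurd (h2 y) hy)

end CfsgH3
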