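import Mathlib
import Cfsg.Agent.H3.Dih
import Cfsg.Agent.H3.PrimeClass
import Cfsg.Agent.H3.PGroup

set_option autoImplicit false

/-!
`p`-groups with two class sizes.
-/

namespace CfsgH3

open Subgroup

open scoped Pointwise commutatorElement

/-- the norm of an element under an automorphism of order dividing `n` -/
noncomputable def autNorm {A : Type*} [CommGroup A] (n : ℕ) [NeZero n] (α : MulAut A) (h : α ^ n = 1) (x : A) : A := 
  ∏ k : ZMod n, (zmodPow n α h k) x

theorem zmodPow_one' {A : Type*} [CommGroup A] (n : ℕ) (α : MulAut A) (h : α ^ n = 1) : zmodPow n α h 1 = α := by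
  have := zmodPow_natCast n α h 1
  rwa [Nat.cast_one, pow_one] at this

theorem autNorm_fixed {A : Type*} [CommGroup A] (n : ℕ) [NeZero n] (α : MulAut A) (h : α ^ n = 1) (x : A) : 
    α (autNorm n α h x) = autNorm n α h x := by
  unfold autNorm
  rw [map_prod]
  have h1 : ∀ k : ZMod n, α ((zmodPow n α h k) x) = (zmodPow n α h (1 + k)) x := by
    intro k
    rw [zmodPow_add, zmodPow_one', MulAut.mul_apply]
  simp_rw [h1]
  exact Equiv.prod_comp (Equiv.addLeft (1 : ZMod n)) (fun k => (zmodPow n α h k) x)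

theorem zmodPow_mul_comm {A : Type*} [CommGroup A] (n : ℕ) [NeZero n] (σ τ : MulAut A) (hσ : σ ^ n = 1) (hτ : τ ^ n = 1) (hc : Commute σ τ)
    (i : ℕ) (h : (σ * τ ^ i) ^ n = 1) (k : ZMod n) : 
    zmodPow n (σ * τ ^ i) h k = zmodPow n σ hσ k * zmodPow n τ hτ ((i : ZMod n) * k) := by
  obtain ⟨k, rfl⟩ := ZMod.natCast_zmod_surjective k
  rw [zmodPow_natCast, zmodPow_natCast, ← Nat.cast_mul, zmodPow_natCast, (hc.pow_right i).mul_pow, pow_mul]

theorem norm_identity {A : Type*} [CommGroup A] (p : ℕ) [hp : Fact p.Prime] (σ τ : MulAut A) (hσ : σ ^ p = 1) (hτ : τ ^ p = 1) (hc : Commute σ τ)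
    (h : ∀ i : ℕ, (σ * τ ^ i) ^ p = 1) (x : A) : 
    haveI : NeZero p := ⟨hp.out.ne_zero⟩
    ∏ i : ZMod p, autNorm p (σ * τ ^ i.val) (h i.val) x = 
      x ^ p * ∏ k ∈ (Finset.univ.erase (0 : ZMod p)), (zmodPow p σ hσ k) (autNorm p τ hτ x) := by
  haveI : NeZero p := ⟨hp.out.ne_zero⟩
  unfold autNorm
  simp_rw [fun i : ZMod p => fun k : ZMod p => zmodPow_mul_comm p σ τ hσ hτ hc i.val (h i.val) k]
  rw [Finset.prod_comm]
  rw [← Finset.mul_prod_erase Finset.univ _ (Finset.mem_univ (0 : ZMod p))]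
  congr 1
  · simp only [mul_zero, zmodPow_zero, mul_one, MulAut.one_apply]
    rw [Finset.prod_const, Finset.card_univ, ZMod.card]
  · apply Finset.prod_congr rfl
    intro k hk
    have hk0 : k ≠ 0 := (Finset.mem_erase.1 hk).1
    rw [map_prod]
    simp only [MulAut.mul_apply]
    have h1 : ∀ i : ZMod p, ((i.val : ℕ) : ZMod p) = i := fun i => ZMod.natCast_zmod_val i
    simp_rw [h1]
    exact Equiv.prod_comp (Equiv.mulRight₀ k hk0) (fun j => (zmodPow p σ hσ k) ((zmodPow p τ hτ j) x))

section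

variable {P : Type*} [Group P] [Finite P] {p : ℕ} [hp : Fact p.Prime]

local notation "Ce" x => Subgroup.centralizer ({x} : Set P)

/-- all noncentral centralizers have the same index -/
def OneSize (P : Type*) [Group P] (m : ℕ) : Prop := ∀ x : P, x ∉ center P → (Subgroup.centralizer ({x} : Set P)).index = m

theorem OneSize.eq {m : ℕ} (h : OneSize P m) {x y : P} (hx : x ∉ center P) (hy : y ∉ center P) (hxy : (Ce x) ≤ (Ce y)) : (Ce x) = (Ce y) := by
  apply le_antisymm hxy
  rw [← Subgroup.relIndex_eq_one]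
  have h1 := Subgroup.relIndex_mul_index hxy
  rw [h x hx, h y hy] at h1
  have h2 : 0 < m := by rw [← h x hx]; exact Nat.pos_of_ne_zero Subgroup.index_ne_zero_of_finite
  exact Nat.eq_of_mul_eq_mul_right h2 (by rw [h1, one_mul])

theorem cent_mul_center (x c : P) (hc : c ∈ center P) : (Ce (x * c)) = (Ce x) := by
  rw [mem_center_iff] at hc
  ext y
  rw [mem_cent, mem_cent]
  constructor
  · intro h
    have : y * x * c = x * y * c := by
      calc y * x * c = y * (x * c) := by group
        _ = x * c * y := h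
        _ = x * (c * y) := by group
        _ = x * (y * c) := by rw [hc y]
        _ = _ := by group
    exact mul_right_cancel this
  · intro h
    calc y * (x * c) = (y * x) * c := by group
      _ = x * (y * c) := by rw [h]; group
      _ = x * (c * y) := by rw [hc y]
      _ = _ := by group

theorem OneSize.pow_eq {m : ℕ} (h : OneSize P m) {x : P} (k : ℕ) (hx : x ^ k ∉ center P) : (Ce (x ^ k)) = (Ce x) := 
  (h.eq (fun h1 => hx (pow_mem h1 k)) hx (cent_le_pow x k)).symm

theorem OneSize.step1 {m : ℕ} (h : OneSize P m) (hP : IsPGroup p P) {x y : P} (hx : x ^ p ∉ center P) (hy : y ∉ center P) (hxy : y * x = x * y) : 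
    (Ce y) = (Ce x) := by
  classical
  -- minimal k
  have hex : ∃ k : ℕ, y ^ p ^ k ∈ center P := by
    obtain ⟨k, hk⟩ := hP y
    exact ⟨k, by rw [hk]; exact one_mem _⟩
  have hk := Nat.find_spec hex
  have hk0 : Nat.find hex ≠ 0 := by
    intro h0
    rw [h0, pow_zero, pow_one] at hk
    exact hy hk
  obtain ⟨j, hj⟩ := Nat.exists_eq_succ_of_ne_zero hk0
  have hj2 : y ^ p ^ j ∉ center P := Nat.find_min hex (by omega)
  rw [hj] at hk
  have h1 := h.pow_eq (p ^ j) hj2
  set y' := y ^ p ^ j with hy'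
  have hy'p : y' ^ p ∈ center P := by rw [hy', ← pow_mul, ← pow_succ]; exact hk
  have hcomm : Commute x y' := ((show Commute y x from hxy).symm).pow_right _
  have h2 : (x * y') ^ p = x ^ p * y' ^ p := hcomm.mul_pow p
  have h3 : (Ce ((x * y') ^ p)) = (Ce (x ^ p)) := by rw [h2, cent_mul_center _ _ hy'p]
  have h4 : (x * y') ^ p ∉ center P := by
    intro h5
    rw [h2] at h5
    apply hx
    have := mul_mem h5 (inv_mem hy'p)
    rwa [mul_inv_cancel_right] at this
  have h5 := h.pow_eq p h4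
  have h6 := h.pow_eq p hx
  have h7 : (Ce (x * y')) = (Ce x) := by rw [← h5, h3, h6]
  rw [← h1]
  symm
  apply h.eq (fun h8 => hx (pow_mem h8 p)) hj2
  intro w hw
  have hw1 := mem_cent.1 hw
  have hw2 : w ∈ (Ce (x * y')) := by rw [h7]; exact hw
  have hw2 := mem_cent.1 hw2
  rw [mem_cent]
  have : x * (w * y') = x * (y' * w) := by
    calc x * (w * y') = (x * w) * y' := by group
      _ = (w * x) * y' := by rw [hw1]
      _ = w * (x * y') := by group
      _ = (x * y') * w := hw2
      _ = _ := by group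
  exact mul_left_cancel this

theorem OneSize.main {m : ℕ} (h : OneSize P m) (hP : IsPGroup p P) (x : P) : x ^ p ∈ center P := by
  by_contra hx
  have hx0 : x ∉ center P := fun h1 => hx (pow_mem h1 p)
  -- an element of the second center
  obtain ⟨z, hz, hzp, hz2⟩ : ∃ z : P, z ∉ center P ∧ z ^ p ∈ center P ∧ ∀ g : P, z * g * z⁻¹ * g⁻¹ ∈ center P := by
    haveI : Nontrivial (P ⧸ center P) := by
      refine ⟨⟨QuotientGroup.mk x, 1, ?_⟩⟩
      rw [Ne, QuotientGroup.eq_one_iff]; exact hx0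
    have hQ : IsPGroup p (P ⧸ center P) := hP.to_quotient _
    haveI := hQ.center_nontrivial
    have hQc : IsPGroup p (center (P ⧸ center P)) := hQ.to_subgroup _
    obtain ⟨k, hk⟩ := IsPGroup.iff_card.1 hQc
    have hk0 : k ≠ 0 := by
      rintro rfl
      rw [pow_zero] at hk
      have := Finite.one_lt_card (α := center (P ⧸ center P))
      omega
    obtain ⟨z, hz⟩ := exists_prime_orderOf_dvd_card' (G := center (P ⧸ center P)) p (by rw [hk]; exact dvd_pow_self p hk0)
    obtain ⟨z₁, hz₁⟩ := QuotientGroup.mk_surjective (z : P ⧸ center P)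
    refine ⟨z₁, ?_, ?_, ?_⟩
    · intro h1
      rw [← QuotientGroup.eq_one_iff, hz₁] at h1
      have h2 : z = 1 := Subtype.ext h1
      rw [h2, orderOf_one] at hz
      exact hp.out.one_lt.ne hz
    · rw [← QuotientGroup.eq_one_iff, QuotientGroup.mk_pow, hz₁]
      have := pow_orderOf_eq_one z
      rw [hz] at this
      exact congrArg Subtype.val this
    · intro g
      rw [← QuotientGroup.eq_one_iff]
      have h1 := mem_center_iff.1 z.2 (QuotientGroup.mk g)
      rw [← hz₁] at h1
      show (QuotientGroup.mk z₁ : P ⧸ center P) * QuotientGroup.mk g * (QuotientGroup.mk z₁)⁻¹ * (QuotientGroup.mk g)⁻¹ = 1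
      rw [← h1]; group
  -- A = C(z) = C(x)
  have hzx : z * x = x * z := by
    have h1 : ∃ c ∈ center P, (x * z) ^ p = x ^ p * c := by
      have h2 : (QuotientGroup.mk (x * z) : P ⧸ center P) ^ p = (QuotientGroup.mk x) ^ p := by
        have h3 : Commute (QuotientGroup.mk x : P ⧸ center P) (QuotientGroup.mk z) := by
          have h4 : (QuotientGroup.mk z : P ⧸ center P) * QuotientGroup.mk x * (QuotientGroup.mk z)⁻¹ * (QuotientGroup.mk x)⁻¹ = 1 := 
            (QuotientGroup.eq_one_iff _).2 (hz2 x)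
          have h5 : (QuotientGroup.mk z : P ⧸ center P) * QuotientGroup.mk x = QuotientGroup.mk x * QuotientGroup.mk z := by
            calc (QuotientGroup.mk z : P ⧸ center P) * QuotientGroup.mk x = 
                ((QuotientGroup.mk z : P ⧸ center P) * QuotientGroup.mk x * (QuotientGroup.mk z)⁻¹ * (QuotientGroup.mk x)⁻¹) * (QuotientGroup.mk x * QuotientGroup.mk z) := by group
              _ = _ := by rw [h4, one_mul]
          exact h5.symm
        have hz1 : (QuotientGroup.mk z : P ⧸ center P) ^ p = 1 := by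
          rw [← QuotientGroup.mk_pow, QuotientGroup.eq_one_iff]; exact hzp
        rw [QuotientGroup.mk_mul, h3.mul_pow, hz1, mul_one]
      rw [← QuotientGroup.mk_pow, ← QuotientGroup.mk_pow, eq_comm, QuotientGroup.eq] at h2
      exact ⟨_, h2, by group⟩
    obtain ⟨c, hc, hc2⟩ := h1
    have h2 : (x * z) ^ p ∉ center P := by
      intro h3
      rw [hc2] at h3
      apply hx
      have := mul_mem h3 (inv_mem hc)
      rwa [mul_inv_cancel_right] at this
    have h3 : (Ce (x * z)) = (Ce x) := by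
      rw [← h.pow_eq p h2, hc2, cent_mul_center _ _ hc, h.pow_eq p hx]
    have h4 : x * z ∈ (Ce x) := by rw [← h3, mem_cent]
    rw [mem_cent] at h4
    have : x * (z * x) = x * (x * z) := by rw [← mul_assoc]; exact h4
    exact mul_left_cancel this
  set A := (Ce z) with hA
  have hAx : A = (Ce x) := h.step1 hP hx hz hzx
  have hAy : ∀ y ∈ A, y ∉ center P → (Ce y) = A := by
    intro y hy hyc
    rw [hAx]
    exact h.step1 hP hx hyc (mem_cent.1 (hAx ▸ hy))
  have hAc : ∀ a ∈ A, ∀ b ∈ A, a * b = b * a := by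
    intro a ha b hb
    by_cases hbc : b ∈ center P
    · exact (mem_center_iff.1 hbc a)
    · rw [← hAy b hb hbc] at ha
      exact mem_cent.1 ha
  have hxA : x ∈ A := by rw [hAx, mem_cent]
  haveI hAn : A.Normal := by
    refine ⟨fun a ha g => ?_⟩
    have h1 : MulAut.conj g • A = A := by
      rw [hA, ← cent_conj]
      have h2 : g * z * g⁻¹ = z * (z⁻¹ * (g * (z * g⁻¹ * z⁻¹ * g⁻¹⁻¹) * g⁻¹) * z⁻¹⁻¹) := by group
      rw [h2]
      apply cent_mul_center
      exact (inferInstance : (center P).Normal).conj_mem _ ((inferInstance : (center P).Normal).conj_mem _ (hz2 g⁻¹) g) z⁻¹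
    have h3 : g * a * g⁻¹ ∈ MulAut.conj g • A := by
      rw [mem_conj_smul_iff]
      have e : g⁻¹ * (g * a * g⁻¹) * g = a := by group
      rw [e]; exact ha
    rwa [h1] at h3
  -- the commutator homomorphism
  have hcz : ∀ g : P, ∀ w : P, (z * g * z⁻¹ * g⁻¹) * w = w * (z * g * z⁻¹ * g⁻¹) := fun g w => (mem_center_iff.1 (hz2 g) w).symm
  let δ : P →* P := 
    { toFun := fun g => z * g * z⁻¹ * g⁻¹
      map_one' := by group
      map_mul' := by
        intro a b
        calc z * (a * b) * z⁻¹ * (a * b)⁻¹ = (z * a * z⁻¹ * a⁻¹) * (a * (z * b * z⁻¹ * b⁻¹) * a⁻¹) := by group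
          _ = (z * a * z⁻¹ * a⁻¹) * ((z * b * z⁻¹ * b⁻¹) * a * a⁻¹) := by rw [hcz b a]
          _ = _ := by group }
  have hδ : ∀ g, δ g = z * g * z⁻¹ * g⁻¹ := fun g => rfl
  have hδA : ∀ g, g ∈ A ↔ δ g = 1 := by
    intro g
    rw [hA, mem_cent, hδ]
    constructor
    · intro h1; rw [← h1]; group
    · intro h1
      calc g * z = (z * g * z⁻¹ * g⁻¹) * (g * z) := by rw [h1, one_mul]
        _ = z * g := by group
  have hpowA : ∀ g : P, g ^ p ∈ A := by
    intro g
    rw [hδA, map_pow]
    have h1 : ∀ k : ℕ, (δ g) ^ k = z ^ k * g * (z ^ k)⁻¹ * g⁻¹ := by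
      intro k
      induction k with
      | zero => group
      | succ k ih =>
        rw [pow_succ, ih, hδ]
        have e := hcz g (z ^ k * g * (z ^ k)⁻¹ * g⁻¹)
        calc z ^ k * g * (z ^ k)⁻¹ * g⁻¹ * (z * g * z⁻¹ * g⁻¹) = (z * g * z⁻¹ * g⁻¹) * (z ^ k * g * (z ^ k)⁻¹ * g⁻¹) := e.symm
          _ = z * (g * z⁻¹ * g⁻¹ * z) * (z⁻¹ * (z ^ k * g * (z ^ k)⁻¹ * g⁻¹)) := by group
          _ = z * ((z * g * z⁻¹ * g⁻¹)⁻¹⁻¹) * (z⁻¹ * (z ^ k * g * (z ^ k)⁻¹ * g⁻¹)) := by
            rw [inv_inv]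
            congr 2
            have e2 := hcz g z
            calc g * z⁻¹ * g⁻¹ * z = z⁻¹ * ((z * g * z⁻¹ * g⁻¹) * z) := by group
              _ = z⁻¹ * (z * (z * g * z⁻¹ * g⁻¹)) := by rw [e2]
              _ = _ := by group
          _ = (z * (z * g * z⁻¹ * g⁻¹)) * (z⁻¹ * (z ^ k * g * (z ^ k)⁻¹ * g⁻¹)) := by rw [inv_inv]
          _ = ((z * g * z⁻¹ * g⁻¹) * z) * (z⁻¹ * (z ^ k * g * (z ^ k)⁻¹ * g⁻¹)) := by rw [hcz g z]
          _ = (z * g * z⁻¹ * g⁻¹) * (z ^ k * g * (z ^ k)⁻¹ * g⁻¹) := by group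
          _ = (z ^ k * g * (z ^ k)⁻¹ * g⁻¹) * (z * g * z⁻¹ * g⁻¹) := e
          _ = z ^ k * ((g * (z ^ k)⁻¹ * g⁻¹) * (z * g * z⁻¹ * g⁻¹)) := by group
          _ = z ^ k * ((z * g * z⁻¹ * g⁻¹) * (g * (z ^ k)⁻¹ * g⁻¹)) := by rw [hcz g (g * (z ^ k)⁻¹ * g⁻¹)]
          _ = z ^ (k + 1) * g * (z ^ (k + 1))⁻¹ * g⁻¹ := by rw [pow_succ]; group
    rw [h1]
    rw [mem_center_iff] at hzp
    rw [← hzp g]; group
  have hcommA : ∀ g k : P, g * k * g⁻¹ * k⁻¹ ∈ A := by
    intro g k
    rw [hδA, map_mul, map_mul, map_mul, map_inv, map_inv]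
    have : δ g * δ k = δ k * δ g := hcz g _
    rw [this]; group
  letI : CommGroup A := { (inferInstance : Group A) with mul_comm := fun a b => Subtype.ext (hAc a a.2 b b.2) }
  let φ : P →* MulAut A := MulAut.conjNormal
  have hφ : ∀ (g : P) (a : A), ((φ g a : A) : P) = g * a * g⁻¹ := fun g a => MulAut.conjNormal_apply g a
  have hφA : ∀ g ∈ A, φ g = 1 := by
    intro g hg
    apply MulEquiv.ext
    intro a
    apply Subtype.ext
    rw [hφ, hAc g hg a a.2, MulAut.one_apply]; group
  have hφp : ∀ g : P, φ g ^ p = 1 := fun g => by rw [← map_pow]; exact hφA _ (hpowA g)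
  have hφc : ∀ g k : P, Commute (φ g) (φ k) := by
    intro g k
    show φ g * φ k = φ k * φ g
    have h1 := hφA _ (hcommA g k)
    rw [map_mul, map_mul, map_mul, map_inv, map_inv] at h1
    calc φ g * φ k = (φ g * φ k * (φ g)⁻¹ * (φ k)⁻¹) * (φ k * φ g) := by group
      _ = _ := by rw [h1, one_mul]
  haveI : NeZero p := ⟨hp.out.ne_zero⟩
  have hnorm : ∀ g : P, g ∉ A → ∀ a : A, ((autNorm p (φ g) (hφp g) a : A) : P) ∈ center P := by
    intro g hg a
    by_contra hc
    apply hg
    rw [← hAy _ (autNorm p (φ g) (hφp g) a).2 hc, mem_cent]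
    have h1 := autNorm_fixed p (φ g) (hφp g) a
    have h2 := congrArg (Subtype.val : A → P) h1
    rw [hφ] at h2
    calc g * ((autNorm p (φ g) (hφp g) a : A) : P) = (g * ((autNorm p (φ g) (hφp g) a : A) : P) * g⁻¹) * g := by group
      _ = _ := by rw [h2]
  -- an element outside A
  obtain ⟨t, ht⟩ : ∃ t : P, t ∉ A := by
    by_contra hcon
    push Not at hcon
    apply hz
    rw [mem_center_iff]
    intro g
    have := hcon g
    rw [hA, mem_cent] at this
    exact this
  by_cases hs : ∃ s : P, s ∉ A ⊔ zpowers t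
  · obtain ⟨s, hs⟩ := hs
    have hsi : ∀ i : ℕ, s * t ^ i ∉ A := by
      intro i hi
      apply hs
      have : s = (s * t ^ i) * (t ^ i)⁻¹ := by group
      rw [this]
      exact mul_mem (mem_sup_left hi) (inv_mem (pow_mem (mem_sup_right (mem_zpowers t)) i))
    have e1 : ∀ i : ℕ, φ (s * t ^ i) = φ s * φ t ^ i := fun i => by rw [map_mul, map_pow]
    have hi : ∀ i : ℕ, (φ s * φ t ^ i) ^ p = 1 := fun i => by rw [← e1]; exact hφp _
    have h1 := norm_identity p (φ s) (φ t) (hφp s) (hφp t) (hφc s t) hi (⟨x, hxA⟩ : A)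
    have hZA : ∀ i : ZMod p, ((autNorm p (φ s * φ t ^ i.val) (hi i.val) (⟨x, hxA⟩ : A) : A) : P) ∈ center P := by
      intro i
      have h2 := hnorm (s * t ^ i.val) (hsi i.val) ⟨x, hxA⟩
      have h3 : autNorm p (φ s * φ t ^ i.val) (hi i.val) (⟨x, hxA⟩ : A) = autNorm p (φ (s * t ^ i.val)) (hφp _) (⟨x, hxA⟩ : A) := by
        congr 1
        exact (e1 _).symm
      rw [h3]; exact h2
    let Z' : Subgroup A := (center P).subgroupOf A
    have h2 : (∏ i : ZMod p, autNorm p (φ s * φ t ^ i.val) (hi i.val) (⟨x, hxA⟩ : A)) ∈ Z' := 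
      Subgroup.prod_mem _ (fun i _ => mem_subgroupOf.2 (hZA i))
    have h3 : (∏ k ∈ (Finset.univ.erase (0 : ZMod p)), (zmodPow p (φ s) (hφp s) k) (autNorm p (φ t) (hφp t) (⟨x, hxA⟩ : A))) ∈ Z' := by
      apply Subgroup.prod_mem
      intro k _
      rw [mem_subgroupOf]
      have h4 := hnorm t ht ⟨x, hxA⟩
      obtain ⟨k, rfl⟩ := ZMod.natCast_zmod_surjective k
      rw [zmodPow_natCast, ← map_pow, hφ]
      exact (inferInstance : (center P).Normal).conj_mem _ h4 _
    rw [h1] at h2
    have h4 := mul_mem h2 (inv_mem h3)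
    rw [mul_inv_cancel_right] at h4
    exact hx (mem_subgroupOf.1 h4)
  · push Not at hs
    -- A ⊔ ⟨t⟩ = ⊤, so the index of A is p
    have htop : A ⊔ zpowers t = ⊤ := eq_top_iff.2 (fun g _ => hs g)
    have hidx : A.index ≤ p := by
      have h1 : Function.Surjective (fun k : ZMod p => (QuotientGroup.mk (t ^ k.val) : P ⧸ A)) := by
        intro q
        obtain ⟨g, rfl⟩ := QuotientGroup.mk_surjective q
        have hg : g ∈ A ⊔ zpowers t := by rw [htop]; trivial
        obtain ⟨a, ha, b, hb, rfl⟩ := Subgroup.mem_sup_of_normal_left.1 hg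
        obtain ⟨k, rfl⟩ := hb
        have ho : orderOf (QuotientGroup.mk t : P ⧸ A) ∣ p := by
          apply orderOf_dvd_of_pow_eq_one
          rw [← QuotientGroup.mk_pow, QuotientGroup.eq_one_iff]; exact hpowA t
        refine ⟨(k : ZMod p), ?_⟩
        show (QuotientGroup.mk (t ^ (k : ZMod p).val) : P ⧸ A) = QuotientGroup.mk (a * t ^ k)
        rw [QuotientGroup.mk_mul, (QuotientGroup.eq_one_iff a).2 ha, one_mul, QuotientGroup.mk_pow, QuotientGroup.mk_zpow, ← zpow_natCast]
        rw [zpow_eq_zpow_iff_modEq]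
        refine Int.ModEq.of_dvd (Int.natCast_dvd_natCast.2 ho) ?_
        rw [← ZMod.intCast_eq_intCast_iff]
        simp
      have h2 := Nat.card_le_card_of_surjective _ h1
      rw [Nat.card_zmod] at h2
      exact h2
    have hinf : (Ce t) ⊓ A = center P := by
      apply le_antisymm
      · intro w hw
        by_contra hwc
        apply ht
        rw [← hAy w hw.2 hwc, mem_cent]
        exact (mem_cent.1 hw.1).symm
      · intro w hw
        rw [mem_center_iff] at hw
        refine ⟨mem_cent.2 (hw t).symm, ?_⟩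
        rw [hA]; exact mem_cent.2 (hw z).symm
    have htc : t ∉ center P := by
      intro h1
      apply ht
      rw [hA, mem_cent]; exact (mem_center_iff.1 h1 z).symm
    have hcard : Nat.card (Ce t) = Nat.card A := by
      have h1 := Subgroup.card_mul_index (Ce t)
      have h2 := Subgroup.card_mul_index A
      rw [h t htc] at h1
      rw [hA, h z hz] at h2
      have hm : 0 < m := by rw [← h z hz]; exact Nat.pos_of_ne_zero Subgroup.index_ne_zero_of_finite
      exact Nat.eq_of_mul_eq_mul_right hm (h1.trans h2.symm)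
    have h3 := CfsgH1.card_sup_mul_card_inf (H := (Ce t)) (K := A) (by rw [normalizer_eq_top]; exact le_top)
    rw [hinf, hcard] at h3
    have h4 : Nat.card ((Ce t) ⊔ A : Subgroup P) ≤ Nat.card A * p := by
      calc Nat.card ((Ce t) ⊔ A : Subgroup P) ≤ Nat.card P := Subgroup.card_le_card_group _
        _ = Nat.card A * A.index := (Subgroup.card_mul_index A).symm
        _ ≤ _ := Nat.mul_le_mul_left _ hidx
    have h5 : Nat.card A ≤ p * Nat.card (center P) := by
      have h6 : Nat.card A * Nat.card A ≤ Nat.card A * (p * Nat.card (center P)) := by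
        rw [← h3]
        calc Nat.card ((Ce t) ⊔ A : Subgroup P) * Nat.card (center P) ≤ (Nat.card A * p) * Nat.card (center P) := Nat.mul_le_mul_right _ h4
          _ = _ := by ring
      exact Nat.le_of_mul_le_mul_left h6 Nat.card_pos
    have hZA : center P ≤ A := by rw [← hinf]; exact inf_le_right
    have h6 : (center P).relIndex A ≤ p := by
      have h7 := Subgroup.relIndex_mul_relIndex ⊥ (center P) A bot_le hZA
      rw [Subgroup.relIndex_bot_left, Subgroup.relIndex_bot_left] at h7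
      rw [← h7, mul_comm p] at h5
      exact Nat.le_of_mul_le_mul_left h5 Nat.card_pos
    -- order of x in A / Z
    have h7 : IsPGroup p (A ⧸ (center P).subgroupOf A) := (hP.to_subgroup A).to_quotient _
    obtain ⟨k, hk⟩ := IsPGroup.iff_card.1 h7
    have h8 : p ^ k ≤ p ^ 1 := by rw [← hk, pow_one]; exact h6
    have h9 : k ≤ 1 := (Nat.pow_le_pow_iff_right hp.out.one_lt).1 h8
    have h10 : (QuotientGroup.mk (⟨x, hxA⟩ : A) : A ⧸ (center P).subgroupOf A) ^ p = 1 := by
      apply orderOf_dvd_iff_pow_eq_one.1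
      have h11 : orderOf (QuotientGroup.mk (⟨x, hxA⟩ : A) : A ⧸ (center P).subgroupOf A) ∣ p ^ k := by rw [← hk]; exact orderOf_dvd_natCard _
      exact h11.trans ((pow_dvd_pow p h9).trans (by rw [pow_one]))
    rw [← QuotientGroup.mk_pow, QuotientGroup.eq_one_iff, mem_subgroupOf] at h10
    exact hx h10

end

end CfsgH3
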