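import Mathlib
import Cfsg.Agent.H1.CoprimeSylow
import Cfsg.Agent.H1.CopExtra
import Cfsg.Agent.H3.PCentral
import Cfsg.Agent.H3.NPC
import Cfsg.Prelude.Def_HallClasses

set_option autoImplicit false

/-!
Pronormality of the overgroups of Sylow subgroups.
-/

namespace CfsgH3

open Subgroup Cfsg

open scoped Pointwise

universe u v

section

variable {G : Type u} [Group G]

/-- `H` and its conjugate by `g` are conjugate in their join -/
def PrAt (H : Subgroup G) (g : G) : Prop := ∃ x ∈ H ⊔ MulAut.conj g • H, MulAut.conj g • H = MulAut.conj x • H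

theorem pron_iff {H : Subgroup G} : IsPronormal H ↔ ∀ g, PrAt H g := Iff.rfl

theorem PrAt.left {H : Subgroup G} {g y : G} (hy : y ∈ H ⊔ MulAut.conj g • H) (h : PrAt H (y⁻¹ * g)) : PrAt H g := by
  obtain ⟨x, hx, hxe⟩ := h
  have hJ : MulAut.conj (y⁻¹ * g) • H ≤ H ⊔ MulAut.conj g • H := by
    rw [map_mul, mul_smul]
    intro z hz
    rw [CfsgH1.mem_conj_smul, inv_inv] at hz
    have h1 : y * z * y⁻¹ ∈ H ⊔ MulAut.conj g • H := mem_sup_right hz
    have e : z = y⁻¹ * (y * z * y⁻¹) * y := by group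
    rw [e]
    exact mul_mem (mul_mem (inv_mem hy) h1) hy
  refine ⟨y * x, mul_mem hy ((sup_le le_sup_left hJ) hx), ?_⟩
  rw [map_mul, mul_smul, ← hxe, smul_smul, ← map_mul]
  congr 2; group

theorem PrAt.right {H : Subgroup G} {g n : G} (hn : n ∈ normalizer (H : Set G)) (h : PrAt H g) : PrAt H (g * n) := by
  have h1 : MulAut.conj (g * n) • H = MulAut.conj g • H := by
    rw [map_mul, mul_smul, CfsgH1.conj_smul_eq_self_iff.2 hn]
  obtain ⟨x, hx, hxe⟩ := h
  refine ⟨x, ?_, ?_⟩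
  · rw [h1]; exact hx
  · rw [h1]; exact hxe

theorem pron_conj {H : Subgroup G} (c : G) (h : IsPronormal (MulAut.conj c • H)) : IsPronormal H := by
  rw [pron_iff] at h ⊢
  intro g
  obtain ⟨x, hx, hxe⟩ := h (c * g * c⁻¹)
  have h1 : MulAut.conj (c * g * c⁻¹) • MulAut.conj c • H = MulAut.conj c • MulAut.conj g • H := by
    rw [smul_smul, smul_smul, ← map_mul, ← map_mul]; congr 2; group
  rw [h1, ← Subgroup.smul_sup, CfsgH1.mem_conj_smul] at hx
  refine ⟨c⁻¹ * x * c, hx, ?_⟩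
  rw [h1] at hxe
  have h2 := congrArg (fun L => MulAut.conj c⁻¹ • L) hxe
  simp only [smul_smul, ← map_mul] at h2
  rw [← mul_assoc, inv_mul_cancel, one_mul] at h2
  rw [h2]; congr 2; group

theorem map_conj_smul' {G' : Type v} [Group G'] (f : G →* G') (H : Subgroup G) (g : G) : (MulAut.conj g • H).map f = MulAut.conj (f g) • H.map f := by
  ext y
  constructor
  · rintro ⟨_, ⟨x, hx, rfl⟩, rfl⟩
    refine ⟨f x, ⟨x, hx, rfl⟩, ?_⟩
    show f g * f x * (f g)⁻¹ = f (g * x * g⁻¹)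
    rw [map_mul, map_mul, map_inv]
  · rintro ⟨_, ⟨x, hx, rfl⟩, rfl⟩
    refine ⟨g * x * g⁻¹, ⟨x, hx, rfl⟩, ?_⟩
    show f (g * x * g⁻¹) = f g * f x * (f g)⁻¹
    rw [map_mul, map_mul, map_inv]

theorem PrAt.map {G' : Type v} [Group G'] (f : G →* G') {H : Subgroup G} {g : G} (h : PrAt H g) : PrAt (H.map f) (f g) := by
  obtain ⟨x, hx, hxe⟩ := h
  refine ⟨f x, ?_, ?_⟩
  · rw [← map_conj_smul', ← Subgroup.map_sup]; exact ⟨x, hx, rfl⟩
  · rw [← map_conj_smul', ← map_conj_smul', hxe]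

theorem PrAt.lift {G' : Type v} [Group G'] (f : G →* G') {H : Subgroup G} {g : G} (h : PrAt (H.map f) (f g)) : 
    ∃ y ∈ H ⊔ MulAut.conj g • H, (MulAut.conj g • H).map f = (MulAut.conj y • H).map f := by
  obtain ⟨x, hx, hxe⟩ := h
  rw [← map_conj_smul', ← Subgroup.map_sup] at hx
  obtain ⟨y, hy, rfl⟩ := hx
  refine ⟨y, hy, ?_⟩
  rw [map_conj_smul', map_conj_smul', hxe]

theorem PrAt.of_map {G' : Type v} [Group G'] (f : G →* G') {H : Subgroup G} {g : G} (hk : f.ker ≤ H) (h : PrAt (H.map f) (f g)) : PrAt H g := by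
  obtain ⟨y, hy, hye⟩ := h.lift
  refine ⟨y, hy, ?_⟩
  have hker : ∀ c : G, f.ker ≤ MulAut.conj c • H := by
    intro c
    have : MulAut.conj c • f.ker = f.ker := by rw [CfsgH1.conj_smul_of_normal]
    rw [← this]; exact CfsgH1.conj_smul_mono c hk
  have h1 := congrArg (Subgroup.comap f) hye
  rwa [Subgroup.comap_map_eq, Subgroup.comap_map_eq, sup_eq_left.2 (hker g), sup_eq_left.2 (hker y)] at h1

end

section

variable {G : Type u} [Group G] [Finite G] {p : ℕ} [hp : Fact p.Prime]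

theorem ov_iff {K : Subgroup G} : (∃ P : Sylow p G, (P : Subgroup G) ≤ K) ↔ ¬ p ∣ K.index := by
  constructor
  · rintro ⟨P, hP⟩ h
    exact P.not_dvd_index (h.trans (Subgroup.index_dvd_of_le hP))
  · exact exists_sylow_le_of_not_dvd K

/-- data: normal subgroup `A` with Sylow subgroup `T` -/
theorem sylow_norm {A T : Subgroup G} [A.Normal] (hT : CfsgH1.IsSylowOf p T A) (S : Sylow p G) (hTS : T ≤ (S : Subgroup G)) : 
    (S : Subgroup G) ≤ normalizer (T : Set G) := by
  have hT' := CfsgH1.isSylowOf_iff.1 hT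
  have hTi : T ≤ (S : Subgroup G) ⊓ A := le_inf hTS hT'.1
  have heq : T = (S : Subgroup G) ⊓ A := by
    have h1 : T.relIndex ((S : Subgroup G) ⊓ A) = 1 := by
      have h2 : T.relIndex ((S : Subgroup G) ⊓ A) ∣ T.relIndex A := by
        rw [← Subgroup.relIndex_mul_relIndex T ((S : Subgroup G) ⊓ A) A hTi inf_le_right]
        exact Dvd.intro _ rfl
      have h3 : IsPGroup p ((S : Subgroup G) ⊓ A : Subgroup G) := S.2.to_le inf_le_left
      obtain ⟨n, hn⟩ := IsPGroup.iff_card.1 h3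
      have h4 : T.relIndex ((S : Subgroup G) ⊓ A) ∣ p ^ n := by
        rw [← hn]; exact Subgroup.relIndex_dvd_card _ _
      obtain ⟨m, -, hm⟩ := (Nat.dvd_prime_pow hp.out).1 h4
      rw [hm] at h2 ⊢
      rcases Nat.eq_zero_or_pos m with rfl | hm0
      · rw [pow_zero]
      · exact absurd ((dvd_pow_self p hm0.ne').trans h2) hT'.2.2
    rw [Subgroup.relIndex_eq_one] at h1
    exact le_antisymm hTi h1
  rw [heq]
  exact CfsgH1.le_normalizer_inf le_normalizer (CfsgH1.le_normalizer_of_normal _ _)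

theorem norm_index {A T : Subgroup G} [A.Normal] (hT : CfsgH1.IsSylowOf p T A) : ¬ p ∣ (normalizer (T : Set G)).index := by
  obtain ⟨S, hS⟩ := (CfsgH1.isSylowOf_isPGroup hT).exists_le_sylow
  exact ov_iff.1 ⟨S, sylow_norm hT S hS⟩

theorem isSylow_conj_of {A T : Subgroup G} [A.Normal] (hT : CfsgH1.IsSylowOf p T A) (K : Subgroup G) (hK : ¬ p ∣ K.index) : ∃ c : G, T ≤ MulAut.conj c • K := by
  obtain ⟨P, hP⟩ := ov_iff.2 hK
  have h1 : CfsgH1.IsSylowOf p ((P : Subgroup G) ⊓ A) A := by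
    rw [CfsgH1.isSylowOf_iff]
    refine ⟨inf_le_right, P.2.to_le inf_le_left, ?_⟩
    rw [Subgroup.inf_relIndex_right]
    exact fun h => P.not_dvd_index (h.trans (relIndex_dvd_index_of_normal_right _ _))
  obtain ⟨c, hc, hce⟩ := CfsgH1.isSylowOf_conj_trans h1 hT
  refine ⟨c, ?_⟩
  rw [← hce]
  exact CfsgH1.conj_smul_mono c (inf_le_left.trans hP)

theorem prono_key (A : Subgroup G) [A.Normal] (hA : ∀ K : Subgroup A, ¬ p ∣ K.index → IsPronormal K) (hQ : ∀ K : Subgroup (G ⧸ A), ¬ p ∣ K.index → IsPronormal K)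
    (T : Subgroup G) (hT : CfsgH1.IsSylowOf p T A) [(T.subgroupOf (normalizer (T : Set G))).Normal] 
    (hi : ∀ K : Subgroup (↥(normalizer (T : Set G)) ⧸ T.subgroupOf (normalizer (T : Set G))), ¬ p ∣ K.index → IsPronormal K)
    (hii : ∀ K : Subgroup G, ¬ p ∣ K.index → (normalizer (K : Set G)).map (QuotientGroup.mk' A) = normalizer ((K.map (QuotientGroup.mk' A) : Subgroup (G ⧸ A)) : Set (G ⧸ A)))
    (K : Subgroup G) (hK : ¬ p ∣ K.index) (hTK : T ≤ K) : IsPronormal K := by
  have hT' := CfsgH1.isSylowOf_iff.1 hT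
  have hAn : A.Normal := inferInstance
  have hπs : Function.Surjective (QuotientGroup.mk' A) := QuotientGroup.mk'_surjective A
  rw [pron_iff]
  intro g
  -- step 1
  have h1 : PrAt (K.map (QuotientGroup.mk' A)) (QuotientGroup.mk' A g) := 
    hQ _ (fun h => hK (h.trans (Subgroup.index_map_dvd K hπs))) _
  obtain ⟨y, hy, hye⟩ := h1.lift
  apply PrAt.left hy
  have h2 : QuotientGroup.mk' A (y⁻¹ * g) ∈ normalizer ((K.map (QuotientGroup.mk' A) : Subgroup (G ⧸ A)) : Set (G ⧸ A)) := by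
    rw [← CfsgH1.conj_smul_eq_self_iff, ← map_conj_smul', map_mul (MulAut.conj), mul_smul, map_conj_smul', hye, map_conj_smul', smul_smul, ← map_mul, ← map_mul, inv_mul_cancel, map_one, map_one, one_smul]
  rw [← hii K hK] at h2
  obtain ⟨n, hn, hne⟩ := h2
  set a := (y⁻¹ * g) * n⁻¹ with ha
  have haA : a ∈ A := by
    rw [← QuotientGroup.eq_one_iff]
    show QuotientGroup.mk' A ((y⁻¹ * g) * n⁻¹) = 1
    rw [map_mul, ← hne, map_inv, mul_inv_cancel]
  have e1 : y⁻¹ * g = a * n := by rw [ha]; group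
  rw [e1]
  apply PrAt.right hn
  -- step 2
  set K₀ := K ⊓ A with hK₀
  have hmapK : (K.subgroupOf A).map A.subtype = K₀ := Subgroup.subgroupOf_map_subtype K A
  have h3 : PrAt K₀ a := by
    have h4 := (hA (K.subgroupOf A) (fun h => hK (h.trans (relIndex_dvd_index_of_normal_right K A))) ⟨a, haA⟩)
    have h5 := PrAt.map A.subtype (show PrAt (K.subgroupOf A) ⟨a, haA⟩ from h4)
    rw [hmapK] at h5
    exact h5
  obtain ⟨b, hb, hbe⟩ := h3
  have hK₀A : K₀ ≤ A := inf_le_right
  have haK₀ : MulAut.conj a • K₀ ≤ A := by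
    have : MulAut.conj a • A = A := by rw [CfsgH1.conj_smul_of_normal]
    rw [← this]; exact CfsgH1.conj_smul_mono a hK₀A
  have hbA : b ∈ A := (sup_le hK₀A haK₀) hb
  apply PrAt.left (y := b) ((sup_le_sup (inf_le_left : K₀ ≤ K) (CfsgH1.conj_smul_mono a inf_le_left)) hb)
  set a₁ := b⁻¹ * a with ha₁
  have ha₁K : MulAut.conj a₁ • K₀ = K₀ := by
    rw [ha₁, map_mul, mul_smul, hbe, smul_smul, ← map_mul, inv_mul_cancel, map_one, one_smul]
  -- step 3
  have hTK₀ : CfsgH1.IsSylowOf p T K₀ := by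
    rw [CfsgH1.isSylowOf_iff]
    refine ⟨le_inf hTK hT'.1, hT'.2.1, fun h => hT'.2.2 ?_⟩
    rw [← Subgroup.relIndex_mul_relIndex T K₀ A (le_inf hTK hT'.1) hK₀A]
    exact Dvd.dvd.mul_right h _
  have haN : a₁ ∈ normalizer (K₀ : Set G) := CfsgH1.conj_smul_eq_self_iff.1 ha₁K
  obtain ⟨c, hc, hce⟩ := CfsgH1.isSylowOf_conj_trans hTK₀ (CfsgH1.isSylowOf_conj hTK₀ haN)
  apply PrAt.left (y := c) (mem_sup_left hc.1)
  set a₂ := c⁻¹ * a₁ with ha₂
  have ha₂T : MulAut.conj a₂ • T = T := by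
    rw [ha₂, map_mul, mul_smul, ← hce, smul_smul, ← map_mul, inv_mul_cancel, map_one, one_smul]
  have ha₂K : MulAut.conj a₂ • K₀ = K₀ := by
    rw [ha₂, map_mul, mul_smul, ha₁K]
    exact CfsgH1.conj_smul_eq_self_iff.2 (inv_mem (le_normalizer hc))
  -- step 4
  set N := normalizer (T : Set G) with hN
  have ha₂N : a₂ ∈ N := CfsgH1.conj_smul_eq_self_iff.1 ha₂T
  set H₁ := K ⊓ N with hH₁
  have hTN : T ≤ N := le_normalizer
  have hH₁i : ¬ p ∣ H₁.index := by
    -- a Sylow subgroup of K containing T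
    obtain ⟨S₀, hS₀⟩ := (hT'.2.1.comap_subtype : IsPGroup p (T.subgroupOf K)).exists_le_sylow
    have hSi : ¬ p ∣ ((S₀ : Subgroup K).map K.subtype).index := by
      rw [Subgroup.index_map_subtype]
      intro h
      rcases (Nat.Prime.dvd_mul hp.out).1 h with h | h
      · exact S₀.not_dvd_index h
      · exact hK h
    let S : Sylow p G := (S₀.2.map K.subtype).toSylow hSi
    have hTS : T ≤ (S : Subgroup G) := by
      intro t ht
      exact ⟨⟨t, hTK ht⟩, hS₀ ht, rfl⟩
    exact ov_iff.1 ⟨S, le_inf (Subgroup.map_subtype_le _) (sylow_norm hT S hTS)⟩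
  have h5 : PrAt H₁ a₂ := by
    have hH₁N : H₁ ≤ N := inf_le_right
    have h6 : ¬ p ∣ ((H₁.subgroupOf N).map (QuotientGroup.mk' (T.subgroupOf N))).index := by
      intro h
      have h7 := h.trans (Subgroup.index_map_dvd (H₁.subgroupOf N) (QuotientGroup.mk'_surjective _))
      apply hH₁i
      rw [← Subgroup.relIndex_mul_index hH₁N]
      exact Dvd.dvd.mul_right h7 _
    have h7 : PrAt ((H₁.subgroupOf N).map (QuotientGroup.mk' (T.subgroupOf N))) (QuotientGroup.mk' (T.subgroupOf N) ⟨a₂, ha₂N⟩) := hi _ h6 _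
    have h8 : PrAt (H₁.subgroupOf N) ⟨a₂, ha₂N⟩ := by
      apply h7.of_map
      rw [QuotientGroup.ker_mk']
      intro t ht
      exact ⟨hTK ht, hTN ht⟩
    have h9 := PrAt.map N.subtype h8
    rw [Subgroup.map_subgroupOf_eq_of_le hH₁N] at h9
    exact h9
  obtain ⟨d, hd, hde⟩ := h5
  refine ⟨d, (sup_le_sup (inf_le_left : H₁ ≤ K) (CfsgH1.conj_smul_mono a₂ inf_le_left)) hd, ?_⟩
  have hK₀n : K ≤ normalizer (K₀ : Set G) := CfsgH1.le_normalizer_inf le_normalizer (CfsgH1.le_normalizer_of_normal _ _)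
  have hKeq : K = K₀ ⊔ H₁ := by
    apply le_antisymm
    · intro k hk
      obtain ⟨c, hc, hce⟩ := CfsgH1.isSylowOf_conj_trans hTK₀ (CfsgH1.isSylowOf_conj hTK₀ (hK₀n hk))
      have h6 : c⁻¹ * k ∈ H₁ := by
        refine ⟨K.mul_mem (K.inv_mem hc.1) hk, ?_⟩
        show c⁻¹ * k ∈ normalizer (T : Set G)
        rw [← CfsgH1.conj_smul_eq_self_iff, map_mul, mul_smul, ← hce, smul_smul, ← map_mul, inv_mul_cancel, map_one, one_smul]
      have e : k = c * (c⁻¹ * k) := by group
      rw [e]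
      exact mul_mem (mem_sup_left hc) (mem_sup_right h6)
    · exact sup_le inf_le_left inf_le_left
  have hdK : MulAut.conj d • K₀ = K₀ := by
    rw [CfsgH1.conj_smul_eq_self_iff]
    have h6 : H₁ ⊔ MulAut.conj a₂ • H₁ ≤ normalizer (K₀ : Set G) := by
      refine sup_le (inf_le_left.trans hK₀n) ?_
      rintro _ ⟨h, hh, rfl⟩
      have h7 := CfsgH1.conj_smul_eq_self_iff.2 (hK₀n hh.1)
      rw [← CfsgH1.conj_smul_eq_self_iff]
      have h8 : MulAut.conj (a₂ * h * a₂⁻¹) • K₀ = K₀ := by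
        rw [map_mul, map_mul, mul_smul, mul_smul]
        have h9 : MulAut.conj a₂⁻¹ • K₀ = K₀ := by
          nth_rewrite 1 [← ha₂K]
          rw [smul_smul, ← map_mul, inv_mul_cancel, map_one, one_smul]
        rw [h9, h7, ha₂K]
      exact h8
    exact h6 hd
  rw [hKeq, Subgroup.smul_sup, Subgroup.smul_sup, ha₂K, hdK, hde]

theorem prono_iff (A : Subgroup G) [A.Normal] (hA : ∀ K : Subgroup A, ¬ p ∣ K.index → IsPronormal K) (hQ : ∀ K : Subgroup (G ⧸ A), ¬ p ∣ K.index → IsPronormal K)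
    (T : Subgroup G) (hT : CfsgH1.IsSylowOf p T A) [(T.subgroupOf (normalizer (T : Set G))).Normal] :
    (∀ K : Subgroup G, ¬ p ∣ K.index → IsPronormal K) ↔ 
    ((∀ K : Subgroup (↥(normalizer (T : Set G)) ⧸ T.subgroupOf (normalizer (T : Set G))), ¬ p ∣ K.index → IsPronormal K) ∧ 
    (∀ K : Subgroup G, ¬ p ∣ K.index → (normalizer (K : Set G)).map (QuotientGroup.mk' A) = normalizer ((K.map (QuotientGroup.mk' A) : Subgroup (G ⧸ A)) : Set (G ⧸ A)))) := by
  have hπs : Function.Surjective (QuotientGroup.mk' A) := QuotientGroup.mk'_surjective A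
  constructor
  · intro h
    refine ⟨?_, ?_⟩
    · intro K hK
      set N := normalizer (T : Set G) with hN
      set f := QuotientGroup.mk' (T.subgroupOf N) with hf
      have hfs : Function.Surjective f := QuotientGroup.mk'_surjective _
      have h1 : ¬ p ∣ ((K.comap f).map N.subtype).index := by
        rw [Subgroup.index_map_subtype, Subgroup.index_comap_of_surjective _ hfs]
        intro h2
        rcases (Nat.Prime.dvd_mul hp.out).1 h2 with h3 | h3
        · exact hK h3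
        · exact norm_index hT h3
      rw [pron_iff]
      intro g
      obtain ⟨g, rfl⟩ := hfs g
      have h2 : PrAt ((K.comap f).map N.subtype) (N.subtype g) := h _ h1 _
      have h3 : PrAt (K.comap f) g := h2.of_map _ (by rw [Subgroup.ker_subtype]; exact bot_le)
      have h4 := h3.map f
      rwa [Subgroup.map_comap_eq_self_of_surjective hfs] at h4
    · intro K hK
      apply le_antisymm
      · rintro _ ⟨n, hn, rfl⟩
        rw [← CfsgH1.conj_smul_eq_self_iff, ← map_conj_smul', CfsgH1.conj_smul_eq_self_iff.2 hn]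
      · intro g hg
        obtain ⟨g, rfl⟩ := hπs g
        obtain ⟨x, hx, hxe⟩ := h K hK g
        have hxe' : MulAut.conj g • K = MulAut.conj x • K := hxe
        have h1 : x⁻¹ * g ∈ normalizer (K : Set G) := by
          rw [← CfsgH1.conj_smul_eq_self_iff, map_mul, mul_smul, hxe', smul_smul, ← map_mul, inv_mul_cancel, map_one, one_smul]
        have h2 : MulAut.conj g • K ≤ A ⊔ K := by
          intro z hz
          have h3 : QuotientGroup.mk' A z ∈ K.map (QuotientGroup.mk' A) := by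
            rw [← CfsgH1.conj_smul_eq_self_iff.2 hg, ← map_conj_smul']
            exact ⟨z, hz, rfl⟩
          obtain ⟨k, hk, hkz⟩ := h3
          have h4 : z * k⁻¹ ∈ A := by
            rw [← QuotientGroup.eq_one_iff]
            show QuotientGroup.mk' A (z * k⁻¹) = 1
            rw [map_mul, map_inv, hkz, mul_inv_cancel]
          have e : z = (z * k⁻¹) * k := by group
          rw [e]
          exact mul_mem (mem_sup_left h4) (mem_sup_right hk)
        have h3 : x ∈ ((A ⊔ K : Subgroup G) : Set G) := (sup_le le_sup_right h2) hx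
        rw [Subgroup.normal_mul] at h3
        obtain ⟨a, ha, k, hk, hak⟩ := Set.mem_mul.1 h3
        refine ⟨k * (x⁻¹ * g), mul_mem (le_normalizer hk) h1, ?_⟩
        have h4 : QuotientGroup.mk' A a = 1 := (QuotientGroup.eq_one_iff a).2 ha
        have e : g = a * (k * (x⁻¹ * g)) := by rw [← mul_assoc, hak]; group
        conv_rhs => rw [e, map_mul, h4, one_mul]
  · rintro ⟨hi, hii⟩ K hK
    obtain ⟨c, hc⟩ := isSylow_conj_of hT K hK
    apply pron_conj c
    apply prono_key A hA hQ T hT hi hii _ _ hc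
    have : (MulAut.conj c • K).index = K.index := Subgroup.index_map_equiv K (MulAut.conj c)
    rw [this]; exact hK

theorem selfnorm_prono (h : ∀ P : Sylow p G, normalizer ((P : Subgroup G) : Set G) = P) (K : Subgroup G) (hK : ¬ p ∣ K.index) : 
    IsPronormal K ∧ normalizer (K : Set G) = K := by
  obtain ⟨P, hP⟩ := ov_iff.2 hK
  have hsy : ∀ L : Subgroup G, (P : Subgroup G) ≤ L → CfsgH1.IsSylowOf p (P : Subgroup G) L := by
    intro L hL
    rw [CfsgH1.isSylowOf_iff]
    refine ⟨hL, P.2, fun hd => P.not_dvd_index ?_⟩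
    rw [← Subgroup.relIndex_mul_index hL]
    exact Dvd.dvd.mul_right hd _
  have hsy2 : ∀ (g : G) (L : Subgroup G), MulAut.conj g • (P : Subgroup G) ≤ L → CfsgH1.IsSylowOf p (MulAut.conj g • (P : Subgroup G)) L := by
    intro g L hL
    rw [CfsgH1.isSylowOf_iff]
    refine ⟨hL, P.2.map _, fun hd => P.not_dvd_index ?_⟩
    have h1 : (MulAut.conj g • (P : Subgroup G)).index = (P : Subgroup G).index := Subgroup.index_map_equiv (P : Subgroup G) (MulAut.conj g)
    rw [← h1, ← Subgroup.relIndex_mul_index hL]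
    exact Dvd.dvd.mul_right hd _
  constructor
  · rw [pron_iff]
    intro g
    obtain ⟨j, hj, hje⟩ := CfsgH1.isSylowOf_conj_trans (hsy (K ⊔ MulAut.conj g • K) (hP.trans le_sup_left)) 
      (hsy2 g (K ⊔ MulAut.conj g • K) ((CfsgH1.conj_smul_mono g hP).trans le_sup_right))
    have h1 : j⁻¹ * g ∈ (P : Subgroup G) := by
      have : j⁻¹ * g ∈ normalizer ((P : Subgroup G) : Set G) := by
        rw [← CfsgH1.conj_smul_eq_self_iff, map_mul, mul_smul, ← hje, smul_smul, ← map_mul, inv_mul_cancel, map_one, one_smul]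
      rwa [h P] at this
    refine ⟨j, hj, ?_⟩
    have h2 := CfsgH1.conj_smul_eq_self_iff.2 (le_normalizer (hP h1))
    have e : g = j * (j⁻¹ * g) := by group
    rw [e, map_mul, mul_smul, h2]
  · apply le_antisymm _ le_normalizer
    intro g hg
    have hgK := CfsgH1.conj_smul_eq_self_iff.2 hg
    obtain ⟨j, hj, hje⟩ := CfsgH1.isSylowOf_conj_trans (hsy K hP) (hsy2 g K ((CfsgH1.conj_smul_mono g hP).trans hgK.le))
    have h1 : j⁻¹ * g ∈ (P : Subgroup G) := by
      have : j⁻¹ * g ∈ normalizer ((P : Subgroup G) : Set G) := by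
        rw [← CfsgH1.conj_smul_eq_self_iff, map_mul, mul_smul, ← hje, smul_smul, ← map_mul, inv_mul_cancel, map_one, one_smul]
      rwa [h P] at this
    have e : g = j * (j⁻¹ * g) := by group
    rw [e]; exact K.mul_mem hj (hP h1)

end

end CfsgH3
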