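import Mathlib
import Cfsg.Agent.H3.PGroup

set_option autoImplicit false

/-!
Elements of order four with a square acting as a transvection.
-/

namespace CfsgH3

section

variable {V : Type*} [AddCommGroup V] [Module (ZMod 2) V] [Finite V]

theorem dbl (z : V) : z + z = 0 := by
  have h : (2 : ZMod 2) • z = z + z := two_smul _ z
  rw [← h]
  have : (2 : ZMod 2) = 0 := rfl
  rw [this, zero_smul]

theorem eq_of_add_zero {a b : V} (h : a + b = 0) : a = b := by
  have h1 := dbl b
  rw [← h1] at h
  exact add_right_cancel h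

theorem unip_four (y : V ≃ₗ[ZMod 2] V) (ho : Odd (orderOf y)) (h : ∀ z : V, y (y (y (y z))) = z) : y = 1 := by
  have h1 : y ^ 4 = 1 := by
    ext z
    show y (y (y (y z))) = z
    exact h z
  have h2 : orderOf y ∣ 4 := orderOf_dvd_of_pow_eq_one h1
  have h3 : orderOf y = 1 := by
    have h4 : (orderOf y).Coprime 4 := by
      rw [show (4 : ℕ) = 2 ^ 2 from rfl]
      exact Nat.Coprime.pow_right 2 (Nat.coprime_two_right.2 ho)
    exact Nat.Coprime.eq_one_of_dvd h4 h2
  exact orderOf_eq_one_iff.1 h3

/-- if `y - 1` is nilpotent of degree at most `4` and `y` has odd order then `y = 1` -/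
theorem unip_D (y : V ≃ₗ[ZMod 2] V) (ho : Odd (orderOf y)) (h : ∀ z : V, ∀ a, a = y z + z → ∀ b, b = y a + a → ∀ c, c = y b + b → y c = c) : y = 1 := by
  apply unip_four y ho
  intro z
  have h1 := h z _ rfl _ rfl _ rfl
  have e1 : y (y z + z) + (y z + z) = y (y z) + z := by
    rw [map_add]
    have := dbl (y z)
    calc y (y z) + y z + (y z + z) = y (y z) + (y z + y z) + z := by abel
      _ = _ := by rw [this, add_zero]
  rw [e1] at h1
  have e2 : y (y (y z) + z) + (y (y z) + z) = y (y (y z)) + y (y z) + y z + z := by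
    rw [map_add]; abel
  rw [e2] at h1
  simp only [map_add] at h1
  have h2 : y (y (y (y z))) + z + (y (y (y z)) + y (y (y z))) + (y (y z) + y (y z)) + (y z + y z) = 0 := by
    have h3 := congrArg (fun w => w + (y (y (y z)) + y (y z) + y z + z)) h1
    rw [dbl] at h3
    rw [← h3]; abel
  rw [dbl, dbl, dbl, add_zero, add_zero, add_zero] at h2
  exact eq_of_add_zero h2

theorem quad_four {R : Subgroup (V ≃ₗ[ZMod 2] V)} {r : ℕ} [hr : Fact r.Prime] (hr2 : r ≠ 2) (hR : IsPGroup r R) {t P g : V ≃ₗ[ZMod 2] V} (htP : P * P = t) 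
    (ht2 : t * t = 1) (ht1 : t ≠ 1) (hPR : ∀ y ∈ R, P * y * P⁻¹ ∈ R) (hgR : g ∈ R) (hg : t * g ≠ g * t) {v₀ : V} 
    (hv : ∀ z, t z = z ∨ t z = z + v₀) : False := by
  classical
  have hodd : ∀ y ∈ R, Odd (orderOf y) := by
    intro y hy
    obtain ⟨k, hk⟩ := IsPGroup.iff_orderOf.1 hR ⟨y, hy⟩
    rw [Subgroup.orderOf_mk] at hk
    rw [hk]
    exact (hr.out.odd_of_ne_two hr2).pow
  have htR : ∀ y ∈ R, t * y * t⁻¹ ∈ R := by
    intro y hy
    have := hPR _ (hPR y hy)
    rw [← htP]
    have e : P * (P * y * P⁻¹) * P⁻¹ = P * P * y * (P * P)⁻¹ := by group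
    rwa [e] at this
  obtain ⟨z₀, hz₀⟩ : ∃ z, t z ≠ z := by
    by_contra h
    push Not at h
    exact ht1 (LinearEquiv.ext h)
  have hz₀' := (hv z₀).resolve_left hz₀
  have hv0 : v₀ ≠ 0 := by
    rintro rfl
    rw [add_zero] at hz₀'
    exact hz₀ hz₀'
  have hPt : ∀ z, t (P z) = P (t z) := by
    intro z
    rw [← htP]; rfl
  have hPv : P v₀ = v₀ := by
    have h1 := hPt z₀
    rw [hz₀', map_add] at h1
    rcases hv (P z₀) with h2 | h2
    · exfalso
      rw [h2] at h1
      have h3 : P v₀ = 0 := left_eq_add.1 h1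
      exact hv0 ((map_eq_zero_iff P P.injective).1 h3)
    · rw [h2] at h1
      exact (add_left_cancel h1).symm
  have htv : t v₀ = v₀ := by rw [← htP]; show P (P v₀) = v₀; rw [hPv, hPv]
  have htinv : t⁻¹ = t := inv_eq_of_mul_eq_one_left ht2
  set x := t * g * t⁻¹ * g⁻¹ with hx
  have hxR : x ∈ R := R.mul_mem (htR g hgR) (R.inv_mem hgR)
  have hx1 : x ≠ 1 := by
    intro h
    apply hg
    calc t * g = (t * g * t⁻¹ * g⁻¹) * (g * t) := by group
      _ = _ := by rw [← hx, h, one_mul]
  have htx : t * x * t⁻¹ = x⁻¹ := by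
    rw [hx, htinv]
    calc t * (t * g * t * g⁻¹) * t = (t * t) * g * t * g⁻¹ * t := by group
      _ = g * t * g⁻¹ * t := by rw [ht2, one_mul]
      _ = g * t⁻¹ * g⁻¹ * t⁻¹ := by rw [htinv]
      _ = _ := by group
  -- displacement of x
  set g₀ := g v₀ with hg₀
  have hg₀0 : g₀ ≠ 0 := fun h => hv0 ((map_eq_zero_iff g g.injective).1 h)
  have hsum : v₀ + g₀ = 0 ↔ v₀ = g₀ := ⟨eq_of_add_zero, fun h => by rw [h]; exact dbl _⟩
  have hU0 : ∀ z, x z + z = 0 ∨ x z + z = v₀ ∨ x z + z = g₀ ∨ x z + z = v₀ + g₀ := by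
    intro z
    have h1 : x z = t (g (t (g⁻¹ z))) := by
      rw [hx, htinv]; rfl
    have h2 : g (t (g⁻¹ z)) = z ∨ g (t (g⁻¹ z)) = z + g₀ := by
      have h3 : g (g⁻¹ z) = z := by
        show (g * g⁻¹) z = z
        rw [mul_inv_cancel]; rfl
      rcases hv (g⁻¹ z) with h | h
      · left; rw [h, h3]
      · right; rw [h, map_add, h3]
    rw [h1]
    rcases h2 with h2 | h2
    · rw [h2]
      rcases hv z with h | h
      · left; rw [h]; exact dbl z
      · right; left; rw [h, add_right_comm, dbl, zero_add]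
    · rw [h2]
      rcases hv (z + g₀) with h | h
      · right; right; left; rw [h, add_right_comm, dbl, zero_add]
      · right; right; right
        rw [h]
        calc z + g₀ + v₀ + z = (z + z) + (v₀ + g₀) := by abel
          _ = _ := by rw [dbl, zero_add]
  have hxv : x v₀ ≠ v₀ := by
    intro h
    apply hx1
    apply unip_D x (hodd x hxR)
    intro z a ha b hb c hc
    -- D g₀ ∈ {0, v₀}
    have hDg : x g₀ = g₀ ∨ x g₀ = g₀ + v₀ := by
      rcases hU0 g₀ with h1 | h1 | h1 | h1
      · left; exact eq_of_add_zero h1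
      · right
        have := congrArg (fun w => w + g₀) h1
        rw [add_assoc, dbl, add_zero] at this
        rw [this, add_comm]
      · exfalso
        have h2 : x g₀ = 0 := add_eq_right.1 h1
        exact hg₀0 ((map_eq_zero_iff x x.injective).1 h2)
      · have h2 : x g₀ = v₀ := add_right_cancel h1
        have h3 : g₀ = v₀ := x.injective (by rw [h2, h])
        left; rw [h3, h]
    have key : ∀ w, (w = 0 ∨ w = v₀ ∨ w = g₀ ∨ w = v₀ + g₀) → (x w + w = 0 ∨ x w + w = v₀) := by
      intro w hw
      rcases hw with rfl | rfl | rfl | rfl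
      · left; rw [map_zero, add_zero]
      · left; rw [h, dbl]
      · rcases hDg with h1 | h1
        · left; rw [h1, dbl]
        · right; rw [h1, add_right_comm, dbl, zero_add]
      · rcases hDg with h1 | h1
        · left; rw [map_add, h, h1, dbl]
        · right; rw [map_add, h, h1]
          calc v₀ + (g₀ + v₀) + (v₀ + g₀) = (v₀ + v₀) + (g₀ + g₀) + v₀ := by abel
            _ = _ := by rw [dbl, dbl, zero_add, zero_add]
    have hb' : b = 0 ∨ b = v₀ := by
      rw [hb]; exact key a (by rw [ha]; exact hU0 z)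
    have hc' : c = 0 := by
      rw [hc]
      rcases hb' with rfl | rfl
      · rw [map_zero, add_zero]
      · rw [h, dbl]
    rw [hc', map_zero]
  set v₁ := x v₀ with hv₁
  have hv10 : v₁ ≠ 0 := fun h => hv0 ((map_eq_zero_iff x x.injective).1 h)
  have hU : ∀ z, x z + z = 0 ∨ x z + z = v₀ ∨ x z + z = v₁ ∨ x z + z = v₀ + v₁ := by
    have h1 : v₁ = g₀ ∨ v₁ = v₀ + g₀ := by
      rcases hU0 v₀ with h | h | h | h
      · exact absurd (eq_of_add_zero h) hxv
      · exact absurd (add_eq_right.1 h) hv10
      · right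
        have := congrArg (fun w => w + v₀) h
        rw [add_assoc, dbl, add_zero] at this
        rw [hv₁, this, add_comm]
      · left
        have h2 : x v₀ + v₀ = g₀ + v₀ := by rw [h, add_comm]
        exact add_right_cancel h2
    intro z
    rcases h1 with h1 | h1
    · rw [h1]; exact hU0 z
    · have h2 : v₀ + v₁ = g₀ := by rw [h1, ← add_assoc, dbl, zero_add]
      rw [h2, h1]
      rcases hU0 z with h | h | h | h
      · exact Or.inl h
      · exact Or.inr (Or.inl h)
      · exact Or.inr (Or.inr (Or.inr h))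
      · exact Or.inr (Or.inr (Or.inl h))
  have hxv1 : x v₁ = v₀ + v₁ := by
    rcases hU v₁ with h | h | h | h
    · exfalso
      have h1 : x v₁ = v₁ := eq_of_add_zero h
      exact hxv (x.injective (by rw [← hv₁]; exact h1))
    · have := congrArg (fun w => w + v₁) h
      rw [add_assoc, dbl, add_zero] at this
      exact this
    · exfalso
      have h1 : x v₁ = 0 := add_eq_right.1 h
      exact hv10 ((map_eq_zero_iff x x.injective).1 h1)
    · exfalso
      have h1 : x v₁ = v₀ := add_right_cancel h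
      apply hx1
      apply unip_four x (hodd x hxR)
      intro z
      -- x² z = z + (x a + a), where a = x z + z
      have h2 : ∀ z, x (x z) = z ∨ x (x z) = z + (v₀ + v₁) := by
        intro z
        have e : x (x z) = z + (x (x z + z) + (x z + z)) := by
          rw [map_add]
          have := dbl (x z)
          have := dbl z
          calc x (x z) = x (x z) + (x z + x z) + (z + z) := by rw [dbl, dbl, add_zero, add_zero]
            _ = _ := by abel
        rw [e]
        rcases hU z with h | h | h | h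
        · left; rw [h, map_zero, add_zero, add_zero]
        · right; rw [h, ← hv₁, add_comm v₁]
        · right; rw [h, h1]
        · left; rw [h, map_add, ← hv₁, h1, add_comm v₁, dbl, add_zero]
      have h3 : x (x (v₀ + v₁)) = v₀ + v₁ := by
        rw [map_add, ← hv₁, h1, map_add, ← hv₁, h1, add_comm]
      rcases h2 z with h4 | h4
      · rw [h4, h4]
      · rw [h4, map_add, map_add, h3, h4, add_assoc, dbl, add_zero]
  have hx3 : x * x * x = 1 := by
    have h1 : ∀ w, (w = 0 ∨ w = v₀ ∨ w = v₁ ∨ w = v₀ + v₁) → x (x w) + x w + w = 0 := by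
      have e1 : x (x v₀) + x v₀ + v₀ = 0 := by
        rw [← hv₁, hxv1]
        calc v₀ + v₁ + v₁ + v₀ = (v₀ + v₀) + (v₁ + v₁) := by abel
          _ = 0 := by rw [dbl, dbl, add_zero]
      have e2 : x (x v₁) + x v₁ + v₁ = 0 := by
        rw [hxv1, map_add, ← hv₁, hxv1]
        calc v₁ + (v₀ + v₁) + (v₀ + v₁) + v₁ = (v₀ + v₀) + (v₁ + v₁) + (v₁ + v₁) := by abel
          _ = 0 := by rw [dbl, dbl, add_zero, add_zero]
      intro w hw
      rcases hw with rfl | rfl | rfl | rfl
      · rw [map_zero, map_zero, add_zero, add_zero]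
      · exact e1
      · exact e2
      · rw [map_add, map_add]
        calc x (x v₀) + x (x v₁) + (x v₀ + x v₁) + (v₀ + v₁) = (x (x v₀) + x v₀ + v₀) + (x (x v₁) + x v₁ + v₁) := by abel
          _ = 0 := by rw [e1, e2, add_zero]
    ext z
    show x (x (x z)) = z
    have h2 := h1 _ (hU z)
    simp only [map_add] at h2
    have h3 : x (x (x z)) + z + (x (x z) + x (x z)) + (x z + x z) = 0 := by
      rw [← h2]; abel
    rw [dbl, dbl, add_zero, add_zero] at h3
    exact eq_of_add_zero h3
  have hxo : orderOf x = 3 := by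
    apply orderOf_eq_prime _ hx1
    rw [pow_succ, pow_two]; exact hx3
  have hr3 : r = 3 := by
    obtain ⟨k, hk⟩ := IsPGroup.iff_orderOf.1 hR ⟨x, hxR⟩
    rw [Subgroup.orderOf_mk, hxo] at hk
    exact ((Nat.prime_dvd_prime_iff_eq Nat.prime_three hr.out).1 (Nat.prime_three.dvd_of_dvd_pow (Dvd.intro 1 (by rw [mul_one]; exact hk)))).symm
  -- the conjugate by P
  set x' := P * x * P⁻¹ with hx'
  have hx'R : x' ∈ R := hPR x hxR
  set v₂ := P v₁ with hv₂
  have hPinv : ∀ z, P (P⁻¹ z) = z := fun z => by
    show (P * P⁻¹) z = z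
    rw [mul_inv_cancel]; rfl
  have hPinv' : ∀ z, P⁻¹ (P z) = z := fun z => by
    show (P⁻¹ * P) z = z
    rw [inv_mul_cancel]; rfl
  have hx'a : ∀ z, x' z = P (x (P⁻¹ z)) := fun z => rfl
  have hPiv : P⁻¹ v₀ = v₀ := by
    have := hPinv' v₀
    rwa [hPv] at this
  have hx'v0 : x' v₀ = v₂ := by rw [hx'a, hPiv]
  have hx'v2 : x' v₂ = v₀ + v₂ := by rw [hx'a, hv₂, hPinv', hxv1, map_add, hPv]
  have hU' : ∀ z, x' z + z = 0 ∨ x' z + z = v₀ ∨ x' z + z = v₂ ∨ x' z + z = v₀ + v₂ := by
    intro z
    have e : x' z + z = P (x (P⁻¹ z) + P⁻¹ z) := by rw [map_add, hPinv, hx'a]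
    rw [e]
    rcases hU (P⁻¹ z) with h | h | h | h
    · left; rw [h, map_zero]
    · right; left; rw [h, hPv]
    · right; right; left; rw [h]
    · right; right; right; rw [h, map_add, hPv]
  have hv20 : v₂ ≠ 0 := fun h => hv10 ((map_eq_zero_iff P P.injective).1 h)
  have hv2v0 : v₂ ≠ v₀ := fun h => hxv (P.injective (by rw [hPv]; exact h))
  -- the common fixed vector
  obtain ⟨w, hxw, hx'w, hw⟩ : ∃ w, x w = w ∧ x' w = w ∧ (v₂ = v₁ + w ∨ v₂ = v₀ + v₁ + w) := by
    by_cases hc : v₂ = v₁ ∨ v₂ = v₀ + v₁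
    · refine ⟨0, map_zero _, map_zero _, ?_⟩
      rw [add_zero, add_zero]; exact hc
    push Not at hc
    let f : ZMod 2 × ZMod 2 × ZMod 2 → V := fun a => a.1 • v₀ + a.2.1 • v₁ + a.2.2 • v₂
    have hz2 : ∀ a : ZMod 2, a = 0 ∨ a = 1 := by decide
    have hf0 : ∀ a, f a = 0 → a = 0 := by
      rintro ⟨a, b, c⟩ h
      change a • v₀ + b • v₁ + c • v₂ = 0 at h
      have hc0 : c = 0 := by
        rcases hz2 c with hc' | hc'
        · exact hc'
        · exfalso
          rw [hc', one_smul] at h
          have h1 := eq_of_add_zero h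
          rcases hz2 a with ha | ha <;> rcases hz2 b with hb | hb <;> rw [ha, hb] at h1 <;> simp only [zero_smul, one_smul, zero_add, add_zero] at h1
          · exact hv20 h1.symm
          · exact hc.1 h1.symm
          · exact hv2v0 h1.symm
          · exact hc.2 h1.symm
      have hb0 : b = 0 := by
        rcases hz2 b with hb | hb
        · exact hb
        · exfalso
          rw [hc0, hb, zero_smul, one_smul, add_zero] at h
          rcases hz2 a with ha | ha <;> rw [ha] at h <;> simp only [zero_smul, one_smul, zero_add] at h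
          · exact hv10 h
          · exact hxv (eq_of_add_zero h).symm
      have ha0 : a = 0 := by
        rcases hz2 a with ha | ha
        · exact ha
        · exfalso
          rw [hc0, hb0, ha, zero_smul, zero_smul, one_smul, add_zero, add_zero] at h
          exact hv0 h
      rw [ha0, hb0, hc0]; rfl
    have hfadd : ∀ a b, f a + f b = f (a + b) := by
      rintro ⟨a, b, c⟩ ⟨a', b', c'⟩
      show a • v₀ + b • v₁ + c • v₂ + (a' • v₀ + b' • v₁ + c' • v₂) = (a + a') • v₀ + (b + b') • v₁ + (c + c') • v₂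
      rw [add_smul, add_smul, add_smul]; abel
    have hfinj : Function.Injective f := by
      intro a b hab
      have h1 : f (a + b) = 0 := by rw [← hfadd, hab, dbl]
      have h2 := hf0 _ h1
      have h3 : b + b = 0 := by
        ext <;> exact CharTwo.add_self_eq_zero _
      rw [← h3] at h2
      exact add_right_cancel h2
    let W : Set V := Set.range f
    have hWadd : ∀ a ∈ W, ∀ b ∈ W, a + b ∈ W := by
      rintro _ ⟨a, rfl⟩ _ ⟨b, rfl⟩
      exact ⟨a + b, (hfadd a b).symm⟩
    have hWv0 : v₀ ∈ W := ⟨(1, 0, 0), by show (1 : ZMod 2) • v₀ + (0 : ZMod 2) • v₁ + (0 : ZMod 2) • v₂ = v₀; simp⟩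
    have hWv1 : v₁ ∈ W := ⟨(0, 1, 0), by show (0 : ZMod 2) • v₀ + (1 : ZMod 2) • v₁ + (0 : ZMod 2) • v₂ = v₁; simp⟩
    have hWv2 : v₂ ∈ W := ⟨(0, 0, 1), by show (0 : ZMod 2) • v₀ + (0 : ZMod 2) • v₁ + (1 : ZMod 2) • v₂ = v₂; simp⟩
    have hW0 : (0 : V) ∈ W := ⟨(0, 0, 0), by show (0 : ZMod 2) • v₀ + (0 : ZMod 2) • v₁ + (0 : ZMod 2) • v₂ = 0; simp⟩
    have hWcard : Nat.card W = 8 := by
      rw [Nat.card_range_of_injective hfinj]
      simp [Nat.card_eq_fintype_card, ZMod.card]
    let Q : Subgroup (V ≃ₗ[ZMod 2] V) := Subgroup.closure {x, x'}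
    have hQR : Q ≤ R := by
      rw [Subgroup.closure_le]
      rintro y (rfl | rfl)
      · exact hxR
      · exact hx'R
    have hQW : ∀ y ∈ Q, ∀ z, y z + z ∈ W := by
      intro y hy
      induction hy using Subgroup.closure_induction with
      | mem y hy =>
        rcases hy with rfl | rfl
        · intro z
          rcases hU z with h | h | h | h <;> rw [h]
          · exact hW0
          · exact hWv0
          · exact hWv1
          · exact hWadd _ hWv0 _ hWv1
        · intro z
          rcases hU' z with h | h | h | h <;> rw [h]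
          · exact hW0
          · exact hWv0
          · exact hWv2
          · exact hWadd _ hWv0 _ hWv2
      | one => intro z; show z + z ∈ W; rw [dbl]; exact hW0
      | mul a b _ _ ha hb =>
        intro z
        show a (b z) + z ∈ W
        have h1 := hWadd _ (ha (b z)) _ (hb z)
        have e : a (b z) + b z + (b z + z) = a (b z) + z := by
          calc a (b z) + b z + (b z + z) = a (b z) + z + (b z + b z) := by abel
            _ = _ := by rw [dbl, add_zero]
        rwa [e] at h1
      | inv a _ ha =>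
        intro z
        have h1 := ha (a⁻¹ z)
        have e : a (a⁻¹ z) = z := by
          show (a * a⁻¹) z = z
          rw [mul_inv_cancel]; rfl
        rw [e, add_comm] at h1
        exact h1
    have hQW' : ∀ y ∈ Q, ∀ z ∈ W, y z ∈ W := by
      intro y hy z hz
      have h1 := hWadd _ (hQW y hy z) _ hz
      rwa [add_assoc, dbl, add_zero] at h1
    letI : MulAction Q W := 
      { smul := fun y z => ⟨(y : V ≃ₗ[ZMod 2] V) z, hQW' y y.2 z z.2⟩
        one_smul := fun z => rfl
        mul_smul := fun a b z => rfl }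
    have hQp : IsPGroup r Q := hR.to_le hQR
    have h1 := hQp.card_modEq_card_fixedPoints W
    rw [hWcard, hr3] at h1
    have h2 : (0 : V) ∈ W := hW0
    obtain ⟨w, hwf, hw0⟩ : ∃ w : W, w ∈ MulAction.fixedPoints Q W ∧ (w : V) ≠ 0 := by
      by_contra hcon
      push Not at hcon
      have h3 : MulAction.fixedPoints Q W = {⟨0, hW0⟩} := by
        ext w
        constructor
        · intro hw
          exact Subtype.ext (hcon w hw)
        · rintro rfl
          intro y
          apply Subtype.ext
          show (y : V ≃ₗ[ZMod 2] V) 0 = 0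
          exact map_zero _
      rw [h3] at h1
      have h4 : Nat.card ({⟨0, hW0⟩} : Set W) = 1 := by simp
      rw [h4] at h1
      exact absurd h1 (by decide)
    have hxw : x w = w := congrArg Subtype.val (hwf ⟨x, Subgroup.subset_closure (Or.inl rfl)⟩)
    have hx'w : x' w = w := congrArg Subtype.val (hwf ⟨x', Subgroup.subset_closure (Or.inr rfl)⟩)
    refine ⟨w, hxw, hx'w, ?_⟩
    -- analyse w
    have hxU : ∀ u : V, (u = 0 ∨ u = v₀ ∨ u = v₁ ∨ u = v₀ + v₁) → x u = u → u = 0 := by
      intro u hu hxu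
      rcases hu with rfl | rfl | rfl | rfl
      · rfl
      · exact absurd hxu hxv
      · rw [hxv1] at hxu; exact absurd (add_eq_right.1 hxu) hv0
      · rw [map_add, ← hv₁, hxv1] at hxu
        exfalso
        have h9 : v₁ + (v₀ + v₁) = v₀ := by rw [add_left_comm, dbl, add_zero]
        rw [h9] at hxu
        exact hv10 (left_eq_add.1 hxu)
    have hx'U : ∀ u : V, (u = 0 ∨ u = v₀ ∨ u = v₂ ∨ u = v₀ + v₂) → x' u = u → u = 0 := by
      intro u hu hxu
      rcases hu with rfl | rfl | rfl | rfl
      · rfl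
      · rw [hx'v0] at hxu; exact absurd hxu hv2v0
      · rw [hx'v2] at hxu; exact absurd (add_eq_right.1 hxu) hv0
      · rw [map_add, hx'v0, hx'v2] at hxu
        exfalso
        have h9 : v₂ + (v₀ + v₂) = v₀ := by rw [add_left_comm, dbl, add_zero]
        rw [h9] at hxu
        exact hv20 (left_eq_add.1 hxu)
    obtain ⟨⟨a, b, c⟩, habc⟩ := w.2
    have habc' : a • v₀ + b • v₁ + c • v₂ = (w : V) := habc
    rcases hz2 c with hc' | hc'
    · exfalso
      apply hw0
      apply hxU _ _ hxw
      rw [hc', zero_smul, add_zero] at habc'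
      rcases hz2 a with ha | ha <;> rcases hz2 b with hb | hb <;> rw [ha, hb] at habc' <;> simp only [zero_smul, one_smul, zero_add, add_zero] at habc'
      · exact Or.inl habc'.symm
      · exact Or.inr (Or.inr (Or.inl habc'.symm))
      · exact Or.inr (Or.inl habc'.symm)
      · exact Or.inr (Or.inr (Or.inr habc'.symm))
    rcases hz2 b with hb' | hb'
    · exfalso
      apply hw0
      apply hx'U _ _ hx'w
      rw [hb', zero_smul, add_zero] at habc'
      rcases hz2 a with ha | ha <;> rw [ha, hc'] at habc' <;> simp only [zero_smul, one_smul, zero_add] at habc'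
      · exact Or.inr (Or.inr (Or.inl habc'.symm))
      · exact Or.inr (Or.inr (Or.inr habc'.symm))
    rw [hb', hc', one_smul, one_smul] at habc'
    rcases hz2 a with ha | ha <;> rw [ha] at habc' <;> simp only [zero_smul, one_smul, zero_add] at habc'
    · left
      rw [← habc', ← add_assoc, dbl, zero_add]
    · right
      rw [← habc']
      calc v₂ = (v₀ + v₀) + (v₁ + v₁) + v₂ := by rw [dbl, dbl, zero_add, zero_add]
        _ = _ := by abel
  -- general unipotent lemma on W
  have hxinv0 : x⁻¹ v₁ = v₀ := by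
    rw [hv₁]
    show (x⁻¹ * x) v₀ = v₀
    rw [inv_mul_cancel]; rfl
  have hxinv : ∀ z, x⁻¹ z = x (x z) := by
    have h1 : x⁻¹ = x * x := inv_eq_of_mul_eq_one_left hx3
    intro z; rw [h1]; rfl
  have fin : x' = x ∨ x' = x⁻¹ := by
    have gen : ∀ y ∈ R, (∀ z, ∃ a b c : ZMod 2, y z + z = a • v₀ + b • v₁ + c • w) → (y v₀ = v₀ ∨ y v₀ = v₀ + w) → (y v₁ = v₁ ∨ y v₁ = v₁ + w) → y w = w → y = 1 := by
      intro y hyR h1 h2 h3 h4
      apply unip_D y (hodd y hyR)
      intro z a ha b hb c hc
      have hz2 : ∀ a : ZMod 2, a = 0 ∨ a = 1 := by decide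
      have e2 : y v₀ + v₀ = 0 ∨ y v₀ + v₀ = w := by
        rcases h2 with h | h
        · left; rw [h, dbl]
        · right; rw [h, add_right_comm, dbl, zero_add]
      have e3 : y v₁ + v₁ = 0 ∨ y v₁ + v₁ = w := by
        rcases h3 with h | h
        · left; rw [h, dbl]
        · right; rw [h, add_right_comm, dbl, zero_add]
      obtain ⟨p, q, s, hpqs⟩ := h1 z
      have hb' : b = 0 ∨ b = w := by
        rw [hb, ha, hpqs, map_add, map_add, map_smul, map_smul, map_smul, h4]
        have e : p • y v₀ + q • y v₁ + s • w + (p • v₀ + q • v₁ + s • w) = p • (y v₀ + v₀) + q • (y v₁ + v₁) + s • (w + w) := by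
          rw [smul_add, smul_add, smul_add]; abel
        rw [e, dbl, smul_zero, add_zero]
        rcases e2 with e2 | e2 <;> rcases e3 with e3 | e3 <;> rcases hz2 p with hp | hp <;> rcases hz2 q with hq | hq <;> rw [e2, e3, hp, hq] <;> simp [dbl]
      have hc' : c = 0 := by
        rw [hc]
        rcases hb' with rfl | rfl
        · rw [map_zero, add_zero]
        · rw [h4, dbl]
      rw [hc', map_zero]
    have span : ∀ z, ∃ a b c : ZMod 2, x z + z = a • v₀ + b • v₁ + c • w := by
      intro z
      rcases hU z with h | h | h | h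
      · exact ⟨0, 0, 0, by rw [h]; simp⟩
      · exact ⟨1, 0, 0, by rw [h]; simp⟩
      · exact ⟨0, 1, 0, by rw [h]; simp⟩
      · exact ⟨1, 1, 0, by rw [h]; simp⟩
    have span' : ∀ z, ∃ a b c : ZMod 2, x' z + z = a • v₀ + b • v₁ + c • w := by
      intro z
      rcases hw with hw | hw
      · rcases hU' z with h | h | h | h
        · exact ⟨0, 0, 0, by rw [h]; simp⟩
        · exact ⟨1, 0, 0, by rw [h]; simp⟩
        · exact ⟨0, 1, 1, by rw [h, hw]; simp⟩
        · exact ⟨1, 1, 1, by rw [h, hw]; simp [add_assoc]⟩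
      · rcases hU' z with h | h | h | h
        · exact ⟨0, 0, 0, by rw [h]; simp⟩
        · exact ⟨1, 0, 0, by rw [h]; simp⟩
        · exact ⟨1, 1, 1, by rw [h, hw]; simp⟩
        · refine ⟨0, 1, 1, ?_⟩
          rw [h, hw, ← add_assoc, ← add_assoc, dbl]; simp
    have spmul : ∀ y y' : V ≃ₗ[ZMod 2] V, (∀ z, ∃ a b c : ZMod 2, y z + z = a • v₀ + b • v₁ + c • w) → (∀ z, ∃ a b c : ZMod 2, y' z + z = a • v₀ + b • v₁ + c • w) → 
        (∀ z, ∃ a b c : ZMod 2, (y * y') z + z = a • v₀ + b • v₁ + c • w) := by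
      intro y y' h h' z
      obtain ⟨a, b, c, e⟩ := h (y' z)
      obtain ⟨a', b', c', e'⟩ := h' z
      refine ⟨a + a', b + b', c + c', ?_⟩
      show y (y' z) + z = _
      calc y (y' z) + z = (y (y' z) + y' z) + (y' z + z) := by
            have := dbl (y' z)
            calc y (y' z) + z = y (y' z) + z + (y' z + y' z) := by rw [this, add_zero]
              _ = _ := by abel
        _ = _ := by rw [e, e', add_smul, add_smul, add_smul]; abel
    have hx'v1 : (v₂ = v₁ + w → x' v₁ = v₀ + v₁) ∧ (v₂ = v₀ + v₁ + w → x' v₁ = v₀ + w) := by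
      constructor
      · intro h
        have e : v₁ = v₂ + w := by rw [h, add_assoc, dbl, add_zero]
        rw [e, map_add, hx'v2, hx'w]; abel
      · intro h
        have e : v₁ = v₂ + v₀ + w := by
          rw [h]
          calc v₁ = v₁ + (v₀ + v₀) + (w + w) := by rw [dbl, dbl, add_zero, add_zero]
            _ = _ := by abel
        rw [e, map_add, map_add, hx'v2, hx'v0, hx'w, add_assoc v₀, dbl, add_zero]
    rcases hw with hw | hw
    · left
      have h1 : x' * (x * x) = 1 := by
        apply gen _ (R.mul_mem hx'R (R.mul_mem hxR hxR)) (spmul _ _ span' (spmul _ _ span span))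
        · right
          show x' (x (x v₀)) = v₀ + w
          rw [← hv₁, hxv1, map_add, hx'v0, hx'v1.1 hw, hw]
          calc v₁ + w + (v₀ + v₁) = v₀ + w + (v₁ + v₁) := by abel
            _ = _ := by rw [dbl, add_zero]
        · right
          show x' (x (x v₁)) = v₁ + w
          rw [hxv1, map_add, ← hv₁, hxv1]
          have e : v₁ + (v₀ + v₁) = v₀ := by rw [add_left_comm, dbl, add_zero]
          rw [e, hx'v0, hw]
        · show x' (x (x w)) = w
          rw [hxw, hxw, hx'w]
      have h2 : (x * x)⁻¹ = x := by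
        rw [inv_eq_iff_mul_eq_one]; exact hx3
      rw [← h2]; exact eq_inv_of_mul_eq_one_left h1
    · right
      have h1 : x' * x = 1 := by
        apply gen _ (R.mul_mem hx'R hxR) (spmul _ _ span' span)
        · right
          show x' (x v₀) = v₀ + w
          rw [← hv₁, hx'v1.2 hw]
        · left
          show x' (x v₁) = v₁
          rw [hxv1, map_add, hx'v0, hx'v1.2 hw, hw]
          calc v₀ + v₁ + w + (v₀ + w) = v₁ + (v₀ + v₀) + (w + w) := by abel
            _ = _ := by rw [dbl, dbl, add_zero, add_zero]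
        · show x' (x w) = w
          rw [hxw, hx'w]
      exact eq_inv_of_mul_eq_one_left h1
  -- conclusion
  have hP1 : P * x' * P⁻¹ = x := by
    rcases fin with h | h
    · rw [h]; rw [← hx', h]
    · have : P * x' * P⁻¹ = (P * x * P⁻¹)⁻¹ := by rw [h]; group
      rw [this, ← hx', h, inv_inv]
  have h5 : t * x * t⁻¹ = x := by
    rw [← htP]
    calc P * P * x * (P * P)⁻¹ = P * (P * x * P⁻¹) * P⁻¹ := by group
      _ = x := hP1
  rw [htx] at h5
  have h6 : x * x = 1 := by
    nth_rewrite 1 [← h5]; exact inv_mul_cancel x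
  rw [h6, one_mul] at hx3
  exact hx1 hx3

end

end CfsgH3
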