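import Mathlib
import Cfsg.Prelude.Def_PLocal
import Cfsg.Agent.H3.PGroup

/-!
# Regular `p`-groups
-/

set_option autoImplicit false
open Subgroup Cfsg
open scoped commutatorElement

namespace CfsgH3

universe u v

section General

variable {G : Type*} [Group G] {G' : Type*} [Group G'] {p : ℕ}

theorem powerClosure_map (f : G →* G') (n : ℕ) (K : Subgroup G) :
    (powerClosure p n K).map f = powerClosure p n (K.map f) := by
  unfold powerClosure
  rw [MonoidHom.map_closure]
  congr 1
  ext y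
  constructor
  · rintro ⟨_, ⟨x, hx, rfl⟩, rfl⟩
    exact ⟨f x, ⟨x, hx, rfl⟩, by rw [map_pow]⟩
  · rintro ⟨_, ⟨x, hx, rfl⟩, rfl⟩
    exact ⟨x ^ p ^ n, ⟨x, hx, rfl⟩, by rw [map_pow]⟩

theorem powerClosure_mono {n : ℕ} {K L : Subgroup G} (h : K ≤ L) : powerClosure p n K ≤ powerClosure p n L := by
  apply Subgroup.closure_mono
  rintro _ ⟨x, hx, rfl⟩
  exact ⟨x, h hx, rfl⟩

theorem pow_mem_powerClosure {n : ℕ} {K : Subgroup G} {x : G} (hx : x ∈ K) : x ^ p ^ n ∈ powerClosure p n K :=
  Subgroup.subset_closure ⟨x, hx, rfl⟩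

theorem powerClosure_le {n : ℕ} {K : Subgroup G} : powerClosure p n K ≤ K := by
  rw [powerClosure, Subgroup.closure_le]
  rintro _ ⟨x, hx, rfl⟩
  exact K.pow_mem hx _

theorem powerClosure_eq_bot {n : ℕ} {K : Subgroup G} (h : ∀ x ∈ K, x ^ p ^ n = 1) : powerClosure p n K = ⊥ := by
  rw [eq_bot_iff, powerClosure, Subgroup.closure_le]
  rintro _ ⟨x, hx, rfl⟩
  rw [h x hx]
  exact Subgroup.one_mem _

theorem powerClosure_normal {n : ℕ} {K : Subgroup G} (hK : K.Normal) : (powerClosure p n K).Normal := by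
  have h : ∀ g : G, (powerClosure p n K).map (MulAut.conj g).toMonoidHom ≤ powerClosure p n K := by
    intro g
    rw [powerClosure_map]
    apply powerClosure_mono
    rintro _ ⟨x, hx, rfl⟩
    exact hK.conj_mem x hx g
  exact ⟨fun x hx g => h g ⟨x, hx, rfl⟩⟩

/-- the derived subgroup of `⟨a, b⟩` -/
def pairComm (a b : G) : Subgroup G := ⁅Subgroup.closure ({a, b} : Set G), Subgroup.closure ({a, b} : Set G)⁆

theorem pairComm_map (f : G →* G') (a b : G) : (pairComm a b).map f = pairComm (f a) (f b) := by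
  unfold pairComm
  rw [Subgroup.map_commutator, MonoidHom.map_closure, Set.image_pair]

/-- `p`-th power regularity -/
def Reg1 (p : ℕ) (G : Type*) [Group G] : Prop :=
  IsPGroup p G ∧ ∀ a b : G, ∃ c ∈ powerClosure p 1 (pairComm a b), (a * b) ^ p = a ^ p * b ^ p * c

theorem IsRegular.reg1 (h : IsRegularPGroup p G) : Reg1 p G := by
  refine ⟨h.1, fun a b => ?_⟩
  obtain ⟨c, hc, hab⟩ := h.2 a b 1
  rw [pow_one] at hab
  exact ⟨c, hc, hab⟩

theorem regular_of_injective (h : IsRegularPGroup p G) (f : G' →* G) (hf : Function.Injective f) :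
    IsRegularPGroup p G' := by
  refine ⟨h.1.of_injective f hf, fun a b n => ?_⟩
  obtain ⟨c, hc, hab⟩ := h.2 (f a) (f b) n
  change c ∈ powerClosure p n (pairComm (f a) (f b)) at hc
  rw [← pairComm_map, ← powerClosure_map] at hc
  obtain ⟨c', hc', rfl⟩ := hc
  refine ⟨c', hc', hf ?_⟩
  rw [map_mul, map_mul, map_pow, map_pow, map_pow, map_mul, hab]

theorem regular_of_surjective (h : IsRegularPGroup p G) (f : G →* G') (hf : Function.Surjective f) :
    IsRegularPGroup p G' := by
  refine ⟨h.1.of_surjective f hf, fun a b n => ?_⟩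
  obtain ⟨a, rfl⟩ := hf a
  obtain ⟨b, rfl⟩ := hf b
  obtain ⟨c, hc, hab⟩ := h.2 a b n
  refine ⟨f c, ?_, ?_⟩
  · change f c ∈ powerClosure p n (pairComm (f a) (f b))
    rw [← pairComm_map, ← powerClosure_map]
    exact ⟨c, hc, rfl⟩
  · rw [← map_mul, ← map_pow, hab, map_mul, map_mul, map_pow, map_pow]

theorem Reg1.of_injective (h : Reg1 p G) (f : G' →* G) (hf : Function.Injective f) : Reg1 p G' := by
  refine ⟨h.1.of_injective f hf, fun a b => ?_⟩
  obtain ⟨c, hc, hab⟩ := h.2 (f a) (f b)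
  rw [← pairComm_map, ← powerClosure_map] at hc
  obtain ⟨c', hc', rfl⟩ := hc
  refine ⟨c', hc', hf ?_⟩
  rw [map_mul, map_mul, map_pow, map_pow, map_pow, map_mul, hab]

theorem Reg1.of_surjective (h : Reg1 p G) (f : G →* G') (hf : Function.Surjective f) : Reg1 p G' := by
  refine ⟨h.1.of_surjective f hf, fun a b => ?_⟩
  obtain ⟨a, rfl⟩ := hf a
  obtain ⟨b, rfl⟩ := hf b
  obtain ⟨c, hc, hab⟩ := h.2 a b
  refine ⟨f c, ?_, ?_⟩
  · rw [← pairComm_map, ← powerClosure_map]
    exact ⟨c, hc, rfl⟩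
  · rw [← map_mul, ← map_pow, hab, map_mul, map_mul, map_pow, map_pow]

theorem pairComm_le_commutator (a b : G) : pairComm a b ≤ commutator G := by
  rw [_root_.commutator_def]
  exact Subgroup.commutator_mono le_top le_top

theorem commutator_eq_normalClosure_of_gen {x y : G} (hgen : Subgroup.closure ({x, y} : Set G) = ⊤) :
    commutator G ≤ Subgroup.normalClosure {⁅y, x⁆} := by
  set N := Subgroup.normalClosure ({⁅y, x⁆} : Set G) with hN
  apply Subgroup.Normal.quotient_commutative_iff_commutator_le.1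
  have hcomm : (QuotientGroup.mk' N) y * (QuotientGroup.mk' N) x = (QuotientGroup.mk' N) x * (QuotientGroup.mk' N) y := by
    have h1 : ⁅y, x⁆ ∈ N := Subgroup.subset_normalClosure rfl
    have h2 : (QuotientGroup.mk' N) ⁅y, x⁆ = 1 := (QuotientGroup.eq_one_iff _).2 h1
    rw [map_commutatorElement, commutatorElement_eq_one_iff_mul_comm] at h2
    exact h2
  have hgen' : Subgroup.closure ({(QuotientGroup.mk' N) x, (QuotientGroup.mk' N) y} : Set (G ⧸ N)) = ⊤ := by
    rw [← Set.image_pair, ← MonoidHom.map_closure, hgen, ← MonoidHom.range_eq_map, 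
      MonoidHom.range_eq_top.2 (QuotientGroup.mk'_surjective N)]
  have h3 : ∀ a ∈ ({(QuotientGroup.mk' N) x, (QuotientGroup.mk' N) y} : Set (G ⧸ N)), 
      ∀ b ∈ ({(QuotientGroup.mk' N) x, (QuotientGroup.mk' N) y} : Set (G ⧸ N)), a * b = b * a := by
    intro a ha b hb
    rcases ha with rfl | ha
    · rcases hb with rfl | hb
      · rfl
      · rw [Set.mem_singleton_iff.1 hb]; exact hcomm.symm
    · rw [Set.mem_singleton_iff.1 ha]
      rcases hb with rfl | hb
      · exact hcomm
      · rw [Set.mem_singleton_iff.1 hb]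
  have h4 := Subgroup.isMulCommutative_closure h3
  rw [hgen'] at h4
  refine ⟨⟨fun a b => ?_⟩⟩
  exact congrArg Subtype.val (h4.is_comm.comm (⟨a, trivial⟩ : (⊤ : Subgroup (G ⧸ N))) ⟨b, trivial⟩)

end General

section Finite

variable {G : Type*} [Group G] [Finite G] {p : ℕ} [hp : Fact p.Prime]

theorem zpowers_eq_top_of_sup_commutator (hG : IsPGroup p G) {x : G} (h : zpowers x ⊔ commutator G = ⊤) :
    zpowers x = ⊤ := by
  apply frattini_nongenerating
  rw [eq_top_iff, ← h]
  exact sup_le_sup_left (commutator_le_frattini hG) _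

theorem commutator_eq_bot_of_zpowers {x : G} (h : zpowers x = ⊤) : commutator G = ⊥ := by
  rw [_root_.commutator_def, Subgroup.commutator_eq_bot_iff_le_centralizer]
  intro a _
  rw [mem_centralizer_iff]
  intro b _
  have ha : a ∈ zpowers x := by rw [h]; trivial
  have hb : b ∈ zpowers x := by rw [h]; trivial
  obtain ⟨i, rfl⟩ := mem_zpowers_iff.1 ha
  obtain ⟨j, rfl⟩ := mem_zpowers_iff.1 hb
  exact zpow_mul_comm x j i

theorem commutator_ne_top (hG : IsPGroup p G) [Nontrivial G] : commutator G ≠ ⊤ := by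
  haveI := hG.isNilpotent
  haveI : Group.IsSolvable G := inferInstance
  exact (Group.IsSolvable.commutator_lt_top_of_nontrivial G).ne

/-- key step: a two-generator group whose proper subgroups satisfy the power law -/
theorem regular_key (hG : IsPGroup p G) {x y : G} (hgen : Subgroup.closure ({x, y} : Set G) = ⊤)
    (hIH : ∀ H : Subgroup G, H ≠ ⊤ → ∀ u ∈ H, ∀ v ∈ H, u ^ p = v ^ p ↔ (u * v⁻¹) ^ p = 1)
    (hxy : (y * x * y⁻¹) ^ p = x ^ p) : ∀ c ∈ commutator G, c ^ p = 1 := by
  by_cases hH : zpowers x ⊔ commutator G = ⊤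
  · intro c hc
    rw [commutator_eq_bot_of_zpowers (zpowers_eq_top_of_sup_commutator hG hH), mem_bot] at hc
    rw [hc, one_pow]
  · have hx1 : x ∈ zpowers x ⊔ commutator G := Subgroup.mem_sup_left (mem_zpowers x)
    have hy1 : y * x * y⁻¹ ∈ zpowers x ⊔ commutator G := by
      have e : y * x * y⁻¹ = ⁅y, x⁆ * x := by rw [commutatorElement_def]; group
      rw [e]
      exact Subgroup.mul_mem _ (Subgroup.mem_sup_right (commutator_mem_commutator (mem_top y) (mem_top x))) hx1
    have h1 := (hIH _ hH _ hy1 _ hx1).1 hxy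
    have e : y * x * y⁻¹ * x⁻¹ = ⁅y, x⁆ := by rw [commutatorElement_def]
    rw [e] at h1
    -- the set of elements of the derived subgroup with `c ^ p = 1`
    have hnt : Nontrivial G := by
      by_contra hcon
      rw [not_nontrivial_iff_subsingleton] at hcon
      exact hH (Subsingleton.elim _ _)
    have hD := commutator_ne_top hG
    let T : Subgroup G :=
      { carrier := {c | c ∈ commutator G ∧ c ^ p = 1}
        one_mem' := ⟨Subgroup.one_mem _, one_pow _⟩
        mul_mem' := by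
          rintro a b ⟨ha, ha'⟩ ⟨hb, hb'⟩
          refine ⟨Subgroup.mul_mem _ ha hb, ?_⟩
          have := (hIH _ hD a ha b⁻¹ (Subgroup.inv_mem _ hb)).1 (by rw [ha', inv_pow, hb', inv_one])
          rwa [inv_inv] at this
        inv_mem' := by
          rintro a ⟨ha, ha'⟩
          exact ⟨Subgroup.inv_mem _ ha, by rw [inv_pow, ha', inv_one]⟩ }
    have hT : T.Normal := by
      refine ⟨?_⟩
      rintro c ⟨hc, hc'⟩ g
      refine ⟨Subgroup.Normal.conj_mem inferInstance c hc g, ?_⟩
      rw [conj_pow, hc', mul_one, mul_inv_cancel]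
    intro c hc
    have h2 := commutator_eq_normalClosure_of_gen hgen hc
    have h3 : Subgroup.normalClosure ({⁅y, x⁆} : Set G) ≤ T := by
      apply Subgroup.normalClosure_le_normal
      rw [Set.singleton_subset_iff]
      exact ⟨commutator_mem_commutator (mem_top y) (mem_top x), h1⟩
    exact (h3 h2).2

end Finite

theorem reg_A {p : ℕ} [hp : Fact p.Prime] (n : ℕ) : ∀ {G : Type u} [Group G] [Finite G], Nat.card G ≤ n → Reg1 p G →
    ∀ a b : G, a ^ p = b ^ p ↔ (a * b⁻¹) ^ p = 1 := by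
  induction n with
  | zero =>
    intro G _ _ hc
    exact absurd hc (by have : 0 < Nat.card G := Nat.card_pos; omega)
  | succ n ih =>
    intro G _ _ hcard hG a b
    -- the law holds in proper subgroups
    have hsub : ∀ H : Subgroup G, H ≠ ⊤ → ∀ u ∈ H, ∀ v ∈ H, u ^ p = v ^ p ↔ (u * v⁻¹) ^ p = 1 := by
      intro H hH u hu v hv
      have h1 : Nat.card H < Nat.card G := by
        have h2 : Nat.card H ≤ Nat.card G := Nat.card_le_card_of_injective _ H.subtype_injective
        rcases h2.lt_or_eq with h | h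
        · exact h
        · exact absurd (Subgroup.card_eq_iff_eq_top H |>.1 h) hH
      have h2 := ih (G := H) (by omega) (hG.of_injective H.subtype H.subtype_injective) ⟨u, hu⟩ ⟨v, hv⟩
      constructor
      · intro h
        have h3 := h2.1 (Subtype.ext h)
        exact congrArg Subtype.val h3
      · intro h
        have h3 := h2.2 (Subtype.ext h)
        exact congrArg Subtype.val h3
    by_cases hK : Subgroup.closure ({a, b} : Set G) = ⊤
    · -- both directions show that the derived subgroup has exponent `p`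
      have hfin : (∀ c ∈ commutator G, c ^ p = 1) → (a ^ p = b ^ p ↔ (a * b⁻¹) ^ p = 1) := by
        intro hD
        obtain ⟨c, hc, hab⟩ := hG.2 a b⁻¹
        have h1 : powerClosure p 1 (pairComm a b⁻¹) = ⊥ := by
          apply powerClosure_eq_bot
          intro x hx
          rw [pow_one]
          exact hD x (pairComm_le_commutator _ _ hx)
        rw [h1, mem_bot] at hc
        rw [hab, hc, mul_one, inv_pow]
        exact mul_inv_eq_one.symm
      constructor
      · intro h
        refine (hfin ?_).1 h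
        have hgen : Subgroup.closure ({a, b⁻¹} : Set G) = ⊤ := by
          rw [eq_top_iff, ← hK, Subgroup.closure_le]
          rintro z (rfl | hz)
          · exact Subgroup.subset_closure (Or.inl rfl)
          · rw [Set.mem_singleton_iff.1 hz]
            have : (b⁻¹)⁻¹ ∈ Subgroup.closure ({a, b⁻¹} : Set G) := 
              Subgroup.inv_mem _ (Subgroup.subset_closure (Or.inr rfl))
            rwa [inv_inv] at this
        apply regular_key hG.1 hgen hsub
        rw [conj_pow, h]
        have : b⁻¹ * b ^ p * (b⁻¹)⁻¹ = b ^ p := by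
          rw [inv_inv, mul_assoc, ← pow_succ, pow_succ', ← mul_assoc, inv_mul_cancel, one_mul]
        exact this
      · intro h
        refine (hfin ?_).2 h
        have hgen : Subgroup.closure ({a * b⁻¹, b⁻¹} : Set G) = ⊤ := by
          rw [eq_top_iff, ← hK, Subgroup.closure_le]
          have hb : b ∈ Subgroup.closure ({a * b⁻¹, b⁻¹} : Set G) := by
            have : (b⁻¹)⁻¹ ∈ Subgroup.closure ({a * b⁻¹, b⁻¹} : Set G) := 
              Subgroup.inv_mem _ (Subgroup.subset_closure (Or.inr rfl))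
            rwa [inv_inv] at this
          rintro z (rfl | hz)
          · have : z * b⁻¹ * b ∈ Subgroup.closure ({z * b⁻¹, b⁻¹} : Set G) := 
              Subgroup.mul_mem _ (Subgroup.subset_closure (Or.inl rfl)) hb
            rwa [inv_mul_cancel_right] at this
          · rw [Set.mem_singleton_iff.1 hz]
            exact hb
        apply regular_key hG.1 hgen hsub
        rw [conj_pow, h, mul_one, mul_inv_cancel]
    · exact hsub _ hK a (Subgroup.subset_closure (Or.inl rfl)) b (Subgroup.subset_closure (Or.inr rfl))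

section Reg1

variable {p : ℕ} [hp : Fact p.Prime]

theorem Reg1.pow_eq_iff {G : Type*} [Group G] [Finite G] (hG : Reg1 p G) (a b : G) : a ^ p = b ^ p ↔ (a * b⁻¹) ^ p = 1 :=
  reg_A _ le_rfl hG a b

/-- `Ω₁` of a regular group -/
def Reg1.omega {G : Type*} [Group G] [Finite G] (hG : Reg1 p G) : Subgroup G where
  carrier := {x | x ^ p = 1}
  one_mem' := one_pow _
  mul_mem' := by
    intro a b ha hb
    have := (hG.pow_eq_iff a b⁻¹).1 (by rw [ha, inv_pow, hb, inv_one])
    rwa [inv_inv] at this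
  inv_mem' := by
    intro a ha
    change (a⁻¹) ^ p = 1
    rw [inv_pow, ha, inv_one]

theorem Reg1.mem_omega {G : Type*} [Group G] [Finite G] (hG : Reg1 p G) (x : G) : x ∈ hG.omega ↔ x ^ p = 1 := Iff.rfl

theorem Reg1.omega_normal {G : Type*} [Group G] [Finite G] (hG : Reg1 p G) : hG.omega.Normal := by
  refine ⟨fun x hx g => ?_⟩
  rw [Reg1.mem_omega] at hx ⊢
  rw [conj_pow, hx, mul_one, mul_inv_cancel]

theorem Reg1.pow_eq_iff' (s : ℕ) : ∀ {G : Type u} [Group G] [Finite G] (_ : Reg1 p G) (a b : G),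
    a ^ p ^ s = b ^ p ^ s ↔ (a * b⁻¹) ^ p ^ s = 1 := by
  induction s with
  | zero =>
    intro G _ _ hG a b
    rw [pow_zero, pow_one, pow_one, pow_one]
    exact mul_inv_eq_one.symm
  | succ s ih =>
    intro G _ _ hG a b
    haveI := hG.omega_normal
    have hQ : Reg1 p (G ⧸ hG.omega) := hG.of_surjective (QuotientGroup.mk' _) (QuotientGroup.mk'_surjective _)
    have h1 := ih hQ (QuotientGroup.mk' hG.omega a) (QuotientGroup.mk' hG.omega b)
    rw [← map_pow, ← map_pow, ← map_inv, ← map_mul, ← map_pow] at h1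
    have h2 : (QuotientGroup.mk' hG.omega) ((a * b⁻¹) ^ p ^ s) = 1 ↔ (a * b⁻¹) ^ p ^ (s + 1) = 1 := by
      rw [pow_succ, pow_mul]
      exact QuotientGroup.eq_one_iff _
    have h3 : (QuotientGroup.mk' hG.omega) (a ^ p ^ s) = (QuotientGroup.mk' hG.omega) (b ^ p ^ s) ↔ 
        a ^ p ^ (s + 1) = b ^ p ^ (s + 1) := by
      rw [pow_succ, pow_mul, pow_mul, hG.pow_eq_iff, ← mul_inv_eq_one, ← map_inv, ← map_mul]
      exact QuotientGroup.eq_one_iff _
    rw [← h3, h1, h2]

theorem Reg1.pow_comm_iff {G : Type*} [Group G] [Finite G] (hG : Reg1 p G) (a b : G) (s : ℕ) :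
    a ^ p ^ s * b = b * a ^ p ^ s ↔ (a⁻¹ * b⁻¹ * a * b) ^ p ^ s = 1 := by
  have h1 := Reg1.pow_eq_iff' s hG a⁻¹ (b⁻¹ * a⁻¹ * b)
  have e1 : a⁻¹ * (b⁻¹ * a⁻¹ * b)⁻¹ = a⁻¹ * b⁻¹ * a * b := by group
  rw [e1] at h1
  rw [← h1]
  have e2 : (b⁻¹ * a⁻¹ * b) ^ p ^ s = b⁻¹ * (a⁻¹) ^ p ^ s * b := by
    have := conj_pow (a := b⁻¹) (b := a⁻¹) (i := p ^ s)
    rwa [inv_inv] at this
  rw [e2, inv_pow]
  constructor
  · intro h
    have h2 : (a ^ p ^ s)⁻¹ * b⁻¹ = b⁻¹ * (a ^ p ^ s)⁻¹ := by
      rw [← mul_inv_rev, ← mul_inv_rev, h]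
    rw [← h2, inv_mul_cancel_right]
  · intro h
    have h2 : b * (a ^ p ^ s)⁻¹ = (a ^ p ^ s)⁻¹ * b := by
      calc b * (a ^ p ^ s)⁻¹ = b * (b⁻¹ * (a ^ p ^ s)⁻¹ * b) := by rw [← h]
        _ = (a ^ p ^ s)⁻¹ * b := by group
    calc a ^ p ^ s * b = a ^ p ^ s * (b * (a ^ p ^ s)⁻¹) * a ^ p ^ s := by group
      _ = a ^ p ^ s * ((a ^ p ^ s)⁻¹ * b) * a ^ p ^ s := by rw [h2]
      _ = b * a ^ p ^ s := by group

/-- the elements with `x ^ (p ^ k) = 1` form a subgroup -/
def Reg1.omegaN {G : Type*} [Group G] [Finite G] (hG : Reg1 p G) (k : ℕ) : Subgroup G where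
  carrier := {x | x ^ p ^ k = 1}
  one_mem' := one_pow _
  mul_mem' := by
    intro a b ha hb
    have := (Reg1.pow_eq_iff' k hG a b⁻¹).1 (by rw [ha, inv_pow, hb, inv_one])
    rwa [inv_inv] at this
  inv_mem' := by
    intro a ha
    change (a⁻¹) ^ p ^ k = 1
    rw [inv_pow, ha, inv_one]

theorem Reg1.mem_omegaN {G : Type*} [Group G] [Finite G] (hG : Reg1 p G) (k : ℕ) (x : G) :
    x ∈ hG.omegaN k ↔ x ^ p ^ k = 1 := Iff.rfl

theorem Reg1.omegaN_char {G : Type*} [Group G] [Finite G] (hG : Reg1 p G) (k : ℕ) : (hG.omegaN k).Characteristic := by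
  rw [Subgroup.characteristic_iff_map_le]
  intro φ
  rintro _ ⟨x, hx, rfl⟩
  rw [Reg1.mem_omegaN]
  change (φ x) ^ p ^ k = 1
  rw [← map_pow, (hG.mem_omegaN k x).1 hx, map_one]

end Reg1

end CfsgH3
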