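import Mathlib
import Cfsg.Prelude.Def_CaseTheorems
import Cfsg.Agent.H3.PGroup
import Cfsg.Agent.H1.Coprime

/-! Sectional rank: basic tools. -/

set_option autoImplicit false
open Subgroup Cfsg
open scoped commutatorElement

namespace CfsgH3

variable {G : Type*} [Group G] {p k : ℕ}

/-- an elementary abelian section has order at most `p ^ k` -/
theorem sect_card_le (hr : SectionalPRankLE p k G) {H N : Subgroup G} (hN : H ≤ normalizer (N : Set G)) 
    (hcomm : ∀ a ∈ H, ∀ b ∈ H, ⁅a, b⁆ ∈ N) (hpow : ∀ a ∈ H, a ^ p ∈ N) : N.relIndex H ≤ p ^ k := by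
  haveI hn : (N.subgroupOf H).Normal := by
    refine ⟨?_⟩
    rintro ⟨x, hx⟩ hx' ⟨g, hg⟩
    rw [mem_subgroupOf] at hx' ⊢
    exact (mem_normalizer_iff.1 (hN hg) x).1 hx'
  have h1 := hr H (N.subgroupOf H) ⊤ ?_ ?_
  · rw [Subgroup.card_top] at h1
    exact h1
  · refine ⟨⟨?_⟩⟩
    rintro ⟨a, -⟩ ⟨b, -⟩
    apply Subtype.ext
    obtain ⟨a, rfl⟩ := QuotientGroup.mk_surjective a
    obtain ⟨b, rfl⟩ := QuotientGroup.mk_surjective b
    change ((a : H ⧸ N.subgroupOf H)) * (b : H ⧸ N.subgroupOf H) = (b : H ⧸ N.subgroupOf H) * (a : H ⧸ N.subgroupOf H)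
    rw [← commutatorElement_eq_one_iff_mul_comm]
    have h2 : ((⁅a, b⁆ : H) : H ⧸ N.subgroupOf H) = 1 := by
      rw [QuotientGroup.eq_one_iff, mem_subgroupOf]
      exact hcomm a a.2 b b.2
    exact h2
  · rintro a -
    obtain ⟨a, rfl⟩ := QuotientGroup.mk_surjective a
    rw [← QuotientGroup.mk_pow, QuotientGroup.eq_one_iff, mem_subgroupOf]
    exact hpow a a.2

theorem sect_card_ge (h : ¬ SectionalPRankLE p k G) : ∃ H N : Subgroup G, N ≤ H ∧ H ≤ normalizer (N : Set G) ∧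
    (∀ a ∈ H, ∀ b ∈ H, ⁅a, b⁆ ∈ N) ∧ (∀ a ∈ H, a ^ p ∈ N) ∧ p ^ k < N.relIndex H := by
  unfold SectionalPRankLE PRankLE at h
  push Not at h
  obtain ⟨H, N, hn, A, hA, hAp, hcard⟩ := h
  let H' : Subgroup H := A.comap (QuotientGroup.mk' N)
  have hNH' : N ≤ H' := by
    intro x hx
    rw [Subgroup.mem_comap]
    have : (QuotientGroup.mk' N) x = 1 := (QuotientGroup.eq_one_iff _).2 hx
    rw [this]; exact A.one_mem
  refine ⟨H'.map H.subtype, N.map H.subtype, Subgroup.map_mono hNH', ?_, ?_, ?_, ?_⟩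
  · rintro _ ⟨g, hg, rfl⟩
    have key : ∀ g : H, ∀ x ∈ N.map H.subtype, (g : G) * x * (g : G)⁻¹ ∈ N.map H.subtype := by
      rintro g _ ⟨x, hx, rfl⟩
      exact ⟨g * x * g⁻¹, hn.conj_mem x hx g, rfl⟩
    rw [mem_normalizer_iff]
    intro x
    constructor
    · exact key g x
    · intro hx
      have := key g⁻¹ _ hx
      have e : ((g⁻¹ : H) : G) * (H.subtype g * x * (H.subtype g)⁻¹) * ((g⁻¹ : H) : G)⁻¹ = x := by
        simp [mul_assoc]
      rwa [e] at this
  · rintro _ ⟨a, ha, rfl⟩ _ ⟨b, hb, rfl⟩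
    refine ⟨⁅a, b⁆, ?_, by simp [map_commutatorElement]⟩
    have h1 := congrArg Subtype.val (hA.is_comm.comm (⟨_, ha⟩ : A) ⟨_, hb⟩)
    have h2 : (QuotientGroup.mk' N) ⁅a, b⁆ = 1 := by
      rw [map_commutatorElement, commutatorElement_eq_one_iff_mul_comm]
      exact h1
    exact (QuotientGroup.eq_one_iff _).1 h2
  · rintro _ ⟨a, ha, rfl⟩
    refine ⟨a ^ p, ?_, by simp⟩
    have h1 := hAp _ ha
    rw [← map_pow] at h1
    exact (QuotientGroup.eq_one_iff _).1 h1
  · have h1 : (N.map H.subtype).relIndex (H'.map H.subtype) = N.relIndex H' := 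
      Subgroup.relIndex_map_map_of_injective _ _ H.subtype_injective
    rw [h1]
    have h2 : N.relIndex H' = Nat.card A := by
      have e : Nat.card (H'.map (QuotientGroup.mk' N)) = N.relIndex H' := by
        have := Subgroup.relIndex_ker (K := H') (QuotientGroup.mk' N)
        rw [QuotientGroup.ker_mk'] at this
        exact this.symm
      rw [← e, Subgroup.map_comap_eq_self_of_surjective (QuotientGroup.mk'_surjective N)]
    rw [h2]
    exact hcard

theorem sect_of_injective {G' : Type*} [Group G'] (hr : SectionalPRankLE p k G) (f : G' →* G) (hf : Function.Injective f) :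
    SectionalPRankLE p k G' := by
  by_contra h
  obtain ⟨H, N, hNH, hN, h1, h2, h3⟩ := sect_card_ge h
  have h4 := sect_card_le hr (H := H.map f) (N := N.map f) ?_ ?_ ?_
  · rw [Subgroup.relIndex_map_map_of_injective _ _ hf] at h4
    exact absurd h4 (by omega)
  · have key : ∀ g ∈ H, ∀ x ∈ N.map f, f g * x * (f g)⁻¹ ∈ N.map f := by
      rintro g hg _ ⟨x, hx, rfl⟩
      exact ⟨g * x * g⁻¹, (mem_normalizer_iff.1 (hN hg) x).1 hx, by simp⟩
    rintro _ ⟨g, hg, rfl⟩
    rw [mem_normalizer_iff]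
    intro x
    constructor
    · exact key g hg x
    · intro hx
      have := key g⁻¹ (H.inv_mem hg) _ hx
      have e : f g⁻¹ * (f g * x * (f g)⁻¹) * (f g⁻¹)⁻¹ = x := by
        simp [mul_assoc]
      rwa [e] at this
  · rintro _ ⟨a, ha, rfl⟩ _ ⟨b, hb, rfl⟩
    exact ⟨_, h1 a ha b hb, by simp [map_commutatorElement]⟩
  · rintro _ ⟨a, ha, rfl⟩
    exact ⟨_, h2 a ha, by simp⟩

/-- in a `p`-group, outside a subgroup `A` there is a power of `y` whose `p`-th power is in `A` -/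
theorem exists_pow_not_mem {S : Type*} [Group S] [Finite S] [hp : Fact p.Prime] (hS : IsPGroup p S) (A : Subgroup S) {y : S} (hy : y ∉ A) :
    ∃ j : ℕ, y ^ j ∉ A ∧ (y ^ j) ^ p ∈ A := by
  classical
  obtain ⟨n, hn⟩ := hS y
  have hex : ∃ r : ℕ, y ^ p ^ r ∈ A := ⟨n, by rw [hn]; exact A.one_mem⟩
  obtain ⟨r, hr⟩ : ∃ r, Nat.find hex = r + 1 := by
    refine Nat.exists_eq_add_one.2 (Nat.pos_of_ne_zero ?_)
    intro h0
    have := Nat.find_spec hex
    rw [h0, pow_zero, pow_one] at this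
    exact hy this
  refine ⟨p ^ r, ?_, ?_⟩
  · exact Nat.find_min hex (by omega)
  · rw [← pow_mul, ← pow_succ, ← hr]
    exact Nat.find_spec hex

end CfsgH3
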