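import Cfsg.Agent.H3.SectRank
import Cfsg.Agent.H3.Regular

/-! Sectional rank: normal subgroups with small centre. -/

set_option autoImplicit false
open Subgroup Cfsg
open scoped commutatorElement

namespace CfsgH3

section

variable {P : Type*} [Group P] [Finite P] {p : ℕ} [hp : Fact p.Prime]

theorem frattini_index_ge (hP : IsPGroup p P) (hnc : ¬ IsMulCommutative P) : p ^ 2 ≤ (frattini P).index := by
  by_contra hlt
  push Not at hlt
  apply hnc
  have h1 : ∃ x : P, zpowers x ⊔ frattini P = ⊤ := by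
    by_cases ht : frattini P = ⊤
    · exact ⟨1, by rw [ht, sup_top_eq]⟩
    · obtain ⟨x, hx⟩ : ∃ x, x ∉ frattini P := by
        by_contra hcon
        push Not at hcon
        exact ht (eq_top_iff.2 fun x _ => hcon x)
      refine ⟨x, ?_⟩
      haveI : (frattini P).Normal := inferInstance
      obtain ⟨n, hn⟩ := IsPGroup.iff_card.1 (hP.to_quotient (frattini P))
      have hn' : (frattini P).index = p ^ n := hn
      have hn1 : n ≤ 1 := by
        by_contra hcon
        have : p ^ 2 ≤ p ^ n := Nat.pow_le_pow_right hp.out.pos (by omega)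
        omega
      have h2 : (zpowers x ⊔ frattini P).index ∣ p := by
        have h3 := Subgroup.index_dvd_of_le (le_sup_right : frattini P ≤ zpowers x ⊔ frattini P)
        rw [hn'] at h3
        exact h3.trans ((pow_dvd_pow p hn1).trans (by rw [pow_one]))
      rcases (Nat.dvd_prime hp.out).1 h2 with h3 | h3
      · exact Subgroup.index_eq_one.1 h3
      · exfalso
        have h4 : frattini P = zpowers x ⊔ frattini P := by
          apply Subgroup.eq_of_le_of_card_ge le_sup_right
          have e1 := Subgroup.card_mul_index (frattini P)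
          have e2 := Subgroup.card_mul_index (zpowers x ⊔ frattini P)
          rw [h3] at e2
          have e3 : (frattini P).index ≤ p := by
            rw [hn']
            calc p ^ n ≤ p ^ 1 := Nat.pow_le_pow_right hp.out.pos hn1
              _ = p := pow_one p
          have e4 : Nat.card ↥(zpowers x ⊔ frattini P) * p ≤ Nat.card (frattini P) * p := by
            rw [e2, ← e1]
            exact Nat.mul_le_mul_left _ e3
          exact Nat.le_of_mul_le_mul_right e4 hp.out.pos
        exact hx (h4 ▸ Subgroup.mem_sup_left (mem_zpowers x))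
  obtain ⟨x, hx⟩ := h1
  have h2 : zpowers x = ⊤ := frattini_nongenerating hx
  refine ⟨⟨fun a b => ?_⟩⟩
  have h5 : ⁅a, b⁆ ∈ commutator P := commutator_mem_commutator (mem_top a) (mem_top b)
  rw [commutator_eq_bot_of_zpowers h2, mem_bot, commutatorElement_eq_one_iff_mul_comm] at h5
  exact h5

theorem center_le_frattini (hP : IsPGroup p P) (hnc : ¬ IsMulCommutative P) (hZ : Nat.card (center P) = p) :
    center P ≤ frattini P := by
  have h1 : commutator P ≠ ⊥ := by
    intro h
    apply hnc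
    refine ⟨⟨fun a b => ?_⟩⟩
    have h5 : ⁅a, b⁆ ∈ commutator P := commutator_mem_commutator (mem_top a) (mem_top b)
    rw [h, mem_bot, commutatorElement_eq_one_iff_mul_comm] at h5
    exact h5
  obtain ⟨z, hz, hzZ, hzp⟩ := exists_center_mem hP (commutator P) h1
  have h2 : zpowers z = center P := by
    apply Subgroup.eq_of_le_of_card_ge (by rw [zpowers_le]; exact hzZ)
    rw [Nat.card_zpowers, hzp, hZ]
  rw [← h2, zpowers_le]
  exact commutator_le_frattini hP hz

end

section Sub

variable {S : Type*} [Group S] [Finite S] {p : ℕ} [hp : Fact p.Prime]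

/-- Frattini subgroup of a subgroup -/
noncomputable def frat (P : Subgroup S) : Subgroup S := (frattini P).map P.subtype

theorem frat_le (P : Subgroup S) : frat P ≤ P := Subgroup.map_subtype_le _

theorem pow_mem_frat {P : Subgroup S} (hP : IsPGroup p P) {a : S} (ha : a ∈ P) : a ^ p ∈ frat P :=
  ⟨(⟨a, ha⟩ : P) ^ p, pow_mem_frattini hP _, rfl⟩

theorem comm_mem_frat {P : Subgroup S} (hP : IsPGroup p P) {a b : S} (ha : a ∈ P) (hb : b ∈ P) : ⁅a, b⁆ ∈ frat P :=
  ⟨⁅(⟨a, ha⟩ : P), ⟨b, hb⟩⁆, commutator_le_frattini hP (commutator_mem_commutator (mem_top _) (mem_top _)), rfl⟩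

theorem char_conj_mem {P : Subgroup S} (K : Subgroup P) [hK : K.Characteristic] {g : S} (hg : g ∈ normalizer (P : Set S))
    {x : S} (hx : x ∈ K.map P.subtype) : g * x * g⁻¹ ∈ K.map P.subtype := by
  obtain ⟨⟨x, hxP⟩, hx, rfl⟩ := hx
  have hmem : ∀ y : P, g * y * g⁻¹ ∈ P := fun y => (mem_normalizer_iff.1 hg y).1 y.2
  have hmem' : ∀ y : P, g⁻¹ * y * g ∈ P := fun y => by
    rw [mem_normalizer_iff.1 hg]
    have e : g * (g⁻¹ * y * g) * g⁻¹ = y := by group
    rw [e]; exact y.2
  let φ : P ≃* P :=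
    { toFun := fun y => ⟨g * y * g⁻¹, hmem y⟩
      invFun := fun y => ⟨g⁻¹ * y * g, hmem' y⟩
      left_inv := fun y => Subtype.ext (by change g⁻¹ * (g * y * g⁻¹) * g = y; group)
      right_inv := fun y => Subtype.ext (by change g * (g⁻¹ * y * g) * g⁻¹ = y; group)
      map_mul' := fun a b => Subtype.ext (by change g * (a * b) * g⁻¹ = (g * a * g⁻¹) * (g * b * g⁻¹); group) }
  have h1 := Subgroup.characteristic_iff_map_eq.1 hK φ
  have h2 : φ ⟨x, hxP⟩ ∈ K := by
    rw [← h1]
    exact ⟨_, hx, rfl⟩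
  exact ⟨_, h2, rfl⟩

theorem char_le_normalizer {P : Subgroup S} (K : Subgroup P) [hK : K.Characteristic] :
    normalizer (P : Set S) ≤ normalizer ((K.map P.subtype : Subgroup S) : Set S) := by
  intro g hg
  rw [mem_normalizer_iff]
  intro x
  refine ⟨char_conj_mem K hg, fun hx => ?_⟩
  have := char_conj_mem K (Subgroup.inv_mem _ hg) hx
  have e : g⁻¹ * (g * x * g⁻¹) * g⁻¹⁻¹ = x := by group
  rwa [e] at this

theorem frat_relIndex (P : Subgroup S) : (frat P).relIndex P = (frattini P).index := by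
  rw [frat, Subgroup.relIndex, Subgroup.subgroupOf, Subgroup.comap_map_eq_self_of_injective P.subtype_injective]

theorem frat_card_mul (P : Subgroup S) : Nat.card (frat P) * (frattini P).index = Nat.card P := by
  rw [← frat_relIndex, ← Subgroup.card_mul_index ((frat P).subgroupOf P)]
  rw [Nat.card_congr (Subgroup.subgroupOfEquivOfLe (frat_le P)).toEquiv]
  rfl

theorem inf_eq_bot_of_center (hS : IsPGroup p S) {T P Q : Subgroup S} (hPT : P ≤ T) (hQT : Q ≤ T)
    (hTP : T ≤ normalizer (P : Set S)) (hTQ : T ≤ normalizer (Q : Set S))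
    (hZP : Nat.card (center P) = p) (hZQ : Nat.card (center Q) = p)
    (hne : (center P).map P.subtype ≠ (center Q).map Q.subtype) : P ⊓ Q = ⊥ := by
  by_contra hcon
  have hn : ((P ⊓ Q).subgroupOf T).Normal := by
    apply Subgroup.normal_subgroupOf_of_le_normalizer
    intro t ht
    rw [mem_normalizer_iff]
    intro x
    rw [mem_inf, mem_inf]
    exact and_congr (mem_normalizer_iff.1 (hTP ht) x) (mem_normalizer_iff.1 (hTQ ht) x)
  have hne' : (P ⊓ Q).subgroupOf T ≠ ⊥ := by
    intro h
    apply hcon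
    rw [Subgroup.subgroupOf_eq_bot] at h
    have : P ⊓ Q ≤ T := inf_le_left.trans hPT
    exact (disjoint_of_le_iff_left_eq_bot this).1 h
  obtain ⟨z, hz, hzZ, hzp⟩ := exists_center_mem (hS.to_subgroup T) _ hne'
  rw [mem_subgroupOf] at hz
  have key : ∀ R : Subgroup S, R ≤ T → (z : S) ∈ R → Nat.card (center R) = p → zpowers (z : S) = (center R).map R.subtype := by
    intro R hRT hzR hZR
    have h1 : (⟨(z : S), hzR⟩ : R) ∈ center R := by
      rw [mem_center_iff]
      intro g
      apply Subtype.ext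
      have h2 := congrArg (Subtype.val : T → S) (mem_center_iff.1 hzZ ⟨g, hRT g.2⟩)
      exact h2
    apply Subgroup.eq_of_le_of_card_ge
    · rw [zpowers_le]
      exact ⟨_, h1, rfl⟩
    · rw [Nat.card_zpowers, Subgroup.orderOf_coe, hzp]
      rw [Nat.card_congr ((center R).equivMapOfInjective R.subtype R.subtype_injective).symm.toEquiv, hZR]
  exact hne ((key P hPT hz.1 hZP).symm.trans (key Q hQT hz.2 hZQ))

theorem commute_of_inf_bot {P Q : Subgroup S} (hPQ : P ≤ normalizer (Q : Set S)) (hQP : Q ≤ normalizer (P : Set S))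
    (h : P ⊓ Q = ⊥) : ∀ a ∈ P, ∀ b ∈ Q, a * b = b * a := by
  intro a ha b hb
  rw [← commutatorElement_eq_one_iff_mul_comm, ← mem_bot, ← h]
  rw [commutatorElement_def]
  refine mem_inf.2 ⟨?_, ?_⟩
  · have : b * a⁻¹ * b⁻¹ ∈ P := (mem_normalizer_iff.1 (hQP hb) _).1 (P.inv_mem ha)
    have e : a * b * a⁻¹ * b⁻¹ = a * (b * a⁻¹ * b⁻¹) := by group
    rw [e]; exact P.mul_mem ha this
  · have : a * b * a⁻¹ ∈ Q := (mem_normalizer_iff.1 (hPQ ha) _).1 hb
    exact Q.mul_mem this (Q.inv_mem hb)

/-- in a group of sectional rank at most 4, two commuting disjoint nonabelian normal subgroups with centres of order 2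
generate a self-centralizing subgroup -/
theorem cent_sup_le (hS : IsPGroup 2 S) (hr : SectionalPRankLE 2 4 S) {P Q : Subgroup S}
    (hP : ¬ IsMulCommutative P) (hQ : ¬ IsMulCommutative Q)
    (hZP : Nat.card (center P) = 2) (hZQ : Nat.card (center Q) = 2) (hinf : P ⊓ Q = ⊥)
    (hc : ∀ a ∈ P, ∀ b ∈ Q, a * b = b * a) : centralizer ((P ⊔ Q : Subgroup S) : Set S) ≤ P ⊔ Q := by
  haveI : Fact (Nat.Prime 2) := ⟨Nat.prime_two⟩
  by_contra hcon
  obtain ⟨y, hyC, hyPQ⟩ : ∃ y ∈ centralizer ((P ⊔ Q : Subgroup S) : Set S), y ∉ P ⊔ Q := Set.not_subset.1 hcon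
  obtain ⟨j, hj1, hj2⟩ := exists_pow_not_mem hS (P ⊔ Q) hyPQ
  obtain ⟨w, hw⟩ : ∃ w, w = y ^ j := ⟨_, rfl⟩
  rw [← hw] at hj1 hj2
  have hwC : w ∈ centralizer ((P ⊔ Q : Subgroup S) : Set S) := by rw [hw]; exact Subgroup.pow_mem _ hyC j
  have hcomm : ∀ u ∈ P ⊔ Q, u * w = w * u := fun u hu => mem_centralizer_iff.1 hwC u hu
  have hPn : P ≤ normalizer (Q : Set S) := by
    intro a ha
    rw [mem_normalizer_iff]
    intro x
    constructor
    · intro hx
      rw [hc a ha x hx, mul_inv_cancel_right]; exact hx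
    · intro hx
      have h1 := hc a ha _ hx
      have e : x = a * x * a⁻¹ := by
        calc x = a⁻¹ * ((a * x * a⁻¹) * a) := by group
          _ = a⁻¹ * (a * (a * x * a⁻¹)) := by rw [h1]
          _ = a * x * a⁻¹ := by group
      rw [e]; exact hx
  have hmemPQ : ∀ u, u ∈ P ⊔ Q ↔ ∃ a ∈ P, ∃ b ∈ Q, a * b = u := fun u => CfsgH1.mem_sup_of_le_normalizer hPn
  have hPp := hS.to_subgroup P
  have hQp := hS.to_subgroup Q
  -- w ^ 2 lies in the product of the Frattini subgroups
  obtain ⟨a, ha, b, hb, hab⟩ := (hmemPQ _).1 hj2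
  have haZ : a ∈ frat P := by
    have h1 : (⟨a, ha⟩ : P) ∈ center P := by
      rw [mem_center_iff]
      intro g
      apply Subtype.ext
      change (g : S) * a = a * g
      have h2 : (g : S) * w ^ 2 = w ^ 2 * g := by
        have := hcomm g (Subgroup.mem_sup_left g.2)
        rw [pow_two, ← mul_assoc, this, mul_assoc, this, mul_assoc]
      rw [← hab] at h2
      have h3 := hc g g.2 b hb
      have h4 : (g : S) * a * b = a * g * b := by
        rw [mul_assoc, h2, mul_assoc, mul_assoc, h3]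
      exact mul_right_cancel h4
    exact ⟨_, center_le_frattini hPp hP hZP h1, rfl⟩
  have hbZ : b ∈ frat Q := by
    have h1 : (⟨b, hb⟩ : Q) ∈ center Q := by
      rw [mem_center_iff]
      intro g
      apply Subtype.ext
      change (g : S) * b = b * g
      have h2 : (g : S) * w ^ 2 = w ^ 2 * g := by
        have := hcomm g (Subgroup.mem_sup_right g.2)
        rw [pow_two, ← mul_assoc, this, mul_assoc, this, mul_assoc]
      rw [← hab] at h2
      have h3 := hc a ha g g.2
      have h4 : a * ((g : S) * b) = a * (b * g) := by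
        rw [← mul_assoc, h3, mul_assoc, h2, mul_assoc]
      exact mul_left_cancel h4
    exact ⟨_, center_le_frattini hQp hQ hZQ h1, rfl⟩
  set N := frat P ⊔ frat Q with hN
  have hFn : frat P ≤ normalizer ((frat Q : Subgroup S) : Set S) := by
    intro u hu
    exact char_le_normalizer (frattini Q) (hPn (frat_le P hu))
  have hmemN : ∀ u, u ∈ N ↔ ∃ a ∈ frat P, ∃ b ∈ frat Q, a * b = u := fun u => CfsgH1.mem_sup_of_le_normalizer hFn
  have hNle : N ≤ P ⊔ Q := sup_le_sup (frat_le P) (frat_le Q)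
  set H := (P ⊔ Q) ⊔ zpowers w with hH
  have hwn : zpowers w ≤ normalizer (((P ⊔ Q : Subgroup S)) : Set S) := by
    rw [zpowers_le, mem_normalizer_iff]
    intro x
    constructor
    · intro hx
      rw [← hcomm x hx, mul_inv_cancel_right]; exact hx
    · intro hx
      have h1 := hcomm _ hx
      have e : x = w * x * w⁻¹ := by
        calc x = w⁻¹ * ((w * x * w⁻¹) * w) := by group
          _ = w⁻¹ * (w * (w * x * w⁻¹)) := by rw [h1]
          _ = w * x * w⁻¹ := by group
      rw [e]; exact hx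
  have hmemH : ∀ u, u ∈ H ↔ ∃ g ∈ P ⊔ Q, ∃ k ∈ zpowers w, g * k = u := by
    intro u
    rw [hH, CfsgH1.mem_sup_of_le_normalizer' hwn]
  -- form of elements of `H` : `a * b * w ^ i`
  have hform : ∀ u ∈ H, ∃ a ∈ P, ∃ b ∈ Q, ∃ i : ℤ, u = a * b * w ^ i := by
    intro u hu
    obtain ⟨g, hg, k, hk, rfl⟩ := (hmemH u).1 hu
    obtain ⟨a, ha, b, hb, rfl⟩ := (hmemPQ g).1 hg
    obtain ⟨i, rfl⟩ := mem_zpowers_iff.1 hk
    exact ⟨a, ha, b, hb, i, rfl⟩
  have hcw : ∀ u ∈ P ⊔ Q, ∀ i : ℤ, Commute u (w ^ i) := fun u hu i => 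
    (show Commute u w from hcomm u hu).zpow_right i
  have hw2 : w ^ 2 ∈ N := (hmemN _).2 ⟨a, haZ, b, hbZ, hab⟩
  -- commutators
  have hcm : ∀ u ∈ H, ∀ v ∈ H, ⁅u, v⁆ ∈ N := by
    intro u hu v hv
    obtain ⟨a, ha, b, hb, i, rfl⟩ := hform u hu
    obtain ⟨a', ha', b', hb', i', rfl⟩ := hform v hv
    have haPQ : a * b ∈ P ⊔ Q := Subgroup.mul_mem _ (Subgroup.mem_sup_left ha) (Subgroup.mem_sup_right hb)
    have haPQ' : a' * b' ∈ P ⊔ Q := Subgroup.mul_mem _ (Subgroup.mem_sup_left ha') (Subgroup.mem_sup_right hb')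
    have e1 : ⁅a * b * w ^ i, a' * b' * w ^ i'⁆ = ⁅a, a'⁆ * ⁅b, b'⁆ := by
      have c1 : Commute (a * b) (w ^ i') := hcw _ haPQ i'
      have c2 : Commute (a' * b') (w ^ i) := hcw _ haPQ' i
      have c3 : Commute (w ^ i) (w ^ i') := (Commute.refl w).zpow_zpow i i'
      have d1 : Commute a b' := hc a ha b' hb'
      have d2 : Commute a' b := hc a' ha' b hb
      have d3 : Commute a b := hc a ha b hb
      have d4 : Commute a' b' := hc a' ha' b' hb'
      have c4 := hcw _ haPQ i
      have c5 := hcw _ haPQ' i'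
      have step1 : ⁅a * b * w ^ i, a' * b' * w ^ i'⁆ = ⁅a * b, a' * b'⁆ := by
        rw [commutatorElement_def, commutatorElement_def]
        have f1 : (a * b * w ^ i) * (a' * b' * w ^ i') = (a * b) * (a' * b') * (w ^ i * w ^ i') := by
          calc (a * b * w ^ i) * (a' * b' * w ^ i') = (a * b) * (w ^ i * (a' * b')) * w ^ i' := by group
            _ = (a * b) * ((a' * b') * w ^ i) * w ^ i' := by rw [c2.eq]
            _ = _ := by group
        have f2 : (a' * b' * w ^ i') * (a * b * w ^ i) = (a' * b') * (a * b) * (w ^ i * w ^ i') := by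
          calc (a' * b' * w ^ i') * (a * b * w ^ i) = (a' * b') * (w ^ i' * (a * b)) * w ^ i := by group
            _ = (a' * b') * ((a * b) * w ^ i') * w ^ i := by rw [c1.eq]
            _ = (a' * b') * (a * b) * (w ^ i' * w ^ i) := by group
            _ = _ := by rw [c3.eq]
        calc a * b * w ^ i * (a' * b' * w ^ i') * (a * b * w ^ i)⁻¹ * (a' * b' * w ^ i')⁻¹
            = (a * b * w ^ i * (a' * b' * w ^ i')) * ((a' * b' * w ^ i') * (a * b * w ^ i))⁻¹ := by group
          _ = _ := by rw [f1, f2]; group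
      rw [step1, commutatorElement_def, commutatorElement_def, commutatorElement_def]
      have f1 : (a * b) * (a' * b') = (a * a') * (b * b') := by
        calc (a * b) * (a' * b') = a * (b * a') * b' := by group
          _ = a * (a' * b) * b' := by rw [d2.eq]
          _ = _ := by group
      have f2 : (a' * b') * (a * b) = (a' * a) * (b' * b) := by
        calc (a' * b') * (a * b) = a' * (b' * a) * b := by group
          _ = a' * (a * b') * b := by rw [d1.eq]
          _ = _ := by group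
      have f3 : Commute (b * b' * (b' * b)⁻¹) ((a' * a)⁻¹) := by
        have g1 : ∀ y ∈ Q, ∀ x ∈ P, Commute y x := fun y hy x hx => (hc x hx y hy).symm
        apply g1
        · exact Q.mul_mem (Q.mul_mem hb hb') (Q.inv_mem (Q.mul_mem hb' hb))
        · exact P.inv_mem (P.mul_mem ha' ha)
      calc a * b * (a' * b') * (a * b)⁻¹ * (a' * b')⁻¹ = (a * b * (a' * b')) * ((a' * b') * (a * b))⁻¹ := by group
        _ = (a * a') * ((b * b' * (b' * b)⁻¹) * (a' * a)⁻¹) := by rw [f1, f2]; group
        _ = (a * a') * ((a' * a)⁻¹ * (b * b' * (b' * b)⁻¹)) := by rw [f3.eq]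
        _ = _ := by group
    rw [e1]
    exact N.mul_mem (Subgroup.mem_sup_left (comm_mem_frat hPp ha ha')) (Subgroup.mem_sup_right (comm_mem_frat hQp hb hb'))
  have hsq : ∀ u ∈ H, u ^ 2 ∈ N := by
    intro u hu
    obtain ⟨a, ha, b, hb, i, rfl⟩ := hform u hu
    have haPQ : a * b ∈ P ⊔ Q := Subgroup.mul_mem _ (Subgroup.mem_sup_left ha) (Subgroup.mem_sup_right hb)
    rw [(hcw _ haPQ i).mul_pow, (show Commute a b from hc a ha b hb).mul_pow]
    refine N.mul_mem (N.mul_mem (Subgroup.mem_sup_left (pow_mem_frat hPp ha)) (Subgroup.mem_sup_right (pow_mem_frat hQp hb))) ?_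
    have e : (w ^ i) ^ 2 = (w ^ 2) ^ i := by
      rw [← zpow_natCast, ← zpow_natCast, ← zpow_mul, ← zpow_mul, mul_comm]
    rw [e]
    exact N.zpow_mem hw2 i
  have hNn : H ≤ normalizer (N : Set S) := by
    intro u hu
    rw [mem_normalizer_iff]
    have key : ∀ u ∈ H, ∀ x ∈ N, u * x * u⁻¹ ∈ N := by
      intro u hu x hx
      have h1 := hcm u hu x (Subgroup.mem_sup_left (hNle hx))
      have e : u * x * u⁻¹ = ⁅u, x⁆ * x := by rw [commutatorElement_def]; group
      rw [e]; exact N.mul_mem h1 hx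
    intro x
    refine ⟨key u hu x, fun hx => ?_⟩
    have := key u⁻¹ (H.inv_mem hu) _ hx
    have e : u⁻¹ * (u * x * u⁻¹) * u⁻¹⁻¹ = x := by group
    rwa [e] at this
  have hle := sect_card_le hr hNn hcm hsq
  -- now count
  have hcard1 : Nat.card ↥(P ⊔ Q) = Nat.card P * Nat.card Q := by
    have := CfsgH1.card_sup_mul_card_inf (H := P) (K := Q) hPn
    rw [hinf, Subgroup.card_bot, mul_one] at this
    exact this
  have hcard2 : Nat.card N = Nat.card (frat P) * Nat.card (frat Q) := by
    have := CfsgH1.card_sup_mul_card_inf (H := frat P) (K := frat Q) hFn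
    have h0 : frat P ⊓ frat Q = ⊥ := by
      rw [eq_bot_iff, ← hinf]
      exact inf_le_inf (frat_le P) (frat_le Q)
    rw [h0, Subgroup.card_bot, mul_one] at this
    exact this
  have hcard3 : 2 * Nat.card ↥(P ⊔ Q) ≤ Nat.card H := by
    have h1 : P ⊔ Q < H := by
      refine lt_of_le_of_ne le_sup_left ?_
      intro h
      apply hj1
      have : w ∈ H := Subgroup.mem_sup_right (mem_zpowers w)
      rwa [← h] at this
    have h2 : Nat.card ↥(P ⊔ Q) ∣ Nat.card H := Subgroup.card_dvd_of_le h1.le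
    obtain ⟨c, hc⟩ := h2
    have h3 : c ≠ 1 := by
      rintro rfl
      rw [mul_one] at hc
      exact h1.ne (Subgroup.eq_of_le_of_card_ge h1.le hc.le)
    have h4 : c ≠ 0 := by
      rintro rfl
      rw [mul_zero] at hc
      exact Nat.card_pos.ne' hc
    rw [hc, mul_comm]
    exact Nat.mul_le_mul_left _ (by omega)
  have hcard4 : Nat.card N * N.relIndex H = Nat.card H := by
    rw [← Subgroup.card_mul_index (N.subgroupOf H)]
    rw [Nat.card_congr (Subgroup.subgroupOfEquivOfLe (hNle.trans le_sup_left)).toEquiv]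
    rfl
  have hcard5 := frat_card_mul P
  have hcard6 := frat_card_mul Q
  have h1 := frattini_index_ge hPp hP
  have h2 := frattini_index_ge hQp hQ
  have h3 : 2 * (Nat.card (frat P) * 4) * (Nat.card (frat Q) * 4) ≤ Nat.card N * 16 := by
    calc 2 * (Nat.card (frat P) * 4) * (Nat.card (frat Q) * 4) 
        ≤ 2 * (Nat.card (frat P) * (frattini P).index) * (Nat.card (frat Q) * (frattini Q).index) := by gcongr <;> omega
      _ = 2 * Nat.card ↥(P ⊔ Q) := by rw [hcard5, hcard6, hcard1]; ring
      _ ≤ Nat.card H := hcard3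
      _ = Nat.card N * N.relIndex H := hcard4.symm
      _ ≤ Nat.card N * 16 := Nat.mul_le_mul_left _ (by simpa using hle)
  rw [hcard2] at h3
  have h4 : 0 < Nat.card (frat P) * Nat.card (frat Q) := Nat.mul_pos Nat.card_pos Nat.card_pos
  nlinarith

end Sub

end CfsgH3
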