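import Cfsg.Agent.H3.SectRank2
import Cfsg.Agent.H3.MaxClIso

/-! 2-groups of sectional rank at most 2 containing a nonabelian subgroup of order 8. -/

set_option autoImplicit false
open Subgroup Cfsg
open scoped commutatorElement

namespace CfsgH3

section Gens

variable {G : Type*} [Group G]

theorem comm_mem_of_gens {X : Set G} {N : Subgroup G} (hN : Subgroup.closure X ≤ normalizer (N : Set G))
    (h : ∀ a ∈ X, ∀ b ∈ X, ⁅a, b⁆ ∈ N) : ∀ a ∈ Subgroup.closure X, ∀ b ∈ Subgroup.closure X, ⁅a, b⁆ ∈ N := by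
  have conj : ∀ g ∈ Subgroup.closure X, ∀ x ∈ N, g * x * g⁻¹ ∈ N := fun g hg x hx => 
    (mem_normalizer_iff.1 (hN hg) x).1 hx
  have h1 : ∀ a ∈ X, ∀ b ∈ Subgroup.closure X, ⁅a, b⁆ ∈ N := by
    intro a ha b hb
    refine Subgroup.closure_induction (p := fun b _ => ⁅a, b⁆ ∈ N) (fun b hb => h a ha b hb) ?_ ?_ ?_ hb
    · rw [commutatorElement_one_right]; exact N.one_mem
    · intro b c hb hc h1 h2
      have e : ⁅a, b * c⁆ = ⁅a, b⁆ * (b * ⁅a, c⁆ * b⁻¹) := by simp only [commutatorElement_def]; group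
      rw [e]; exact N.mul_mem h1 (conj b hb _ h2)
    · intro b hb h1
      have e : ⁅a, b⁻¹⁆ = b⁻¹ * ⁅a, b⁆⁻¹ * (b⁻¹)⁻¹ := by simp only [commutatorElement_def]; group
      rw [e]; exact conj _ (Subgroup.inv_mem _ hb) _ (N.inv_mem h1)
  intro a ha b hb
  refine Subgroup.closure_induction (p := fun a _ => ⁅a, b⁆ ∈ N) (fun a ha => h1 a ha b hb) ?_ ?_ ?_ ha
  · rw [commutatorElement_one_left]; exact N.one_mem
  · intro a c ha hc h1 h2
    have e : ⁅a * c, b⁆ = (a * ⁅c, b⁆ * a⁻¹) * ⁅a, b⁆ := by simp only [commutatorElement_def]; group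
    rw [e]; exact N.mul_mem (conj a ha _ h2) h1
  · intro a ha h1
    have e : ⁅a⁻¹, b⁆ = a⁻¹ * ⁅a, b⁆⁻¹ * (a⁻¹)⁻¹ := by simp only [commutatorElement_def]; group
    rw [e]; exact conj _ (Subgroup.inv_mem _ ha) _ (N.inv_mem h1)

theorem sq_mem_of_gens {X : Set G} {N : Subgroup G} (hN : Subgroup.closure X ≤ normalizer (N : Set G))
    (h : ∀ a ∈ X, ∀ b ∈ X, ⁅a, b⁆ ∈ N) (h2 : ∀ a ∈ X, a ^ 2 ∈ N) : ∀ a ∈ Subgroup.closure X, a ^ 2 ∈ N := by
  have hc := comm_mem_of_gens hN h
  intro a ha
  refine Subgroup.closure_induction (p := fun a _ => a ^ 2 ∈ N) h2 ?_ ?_ ?_ ha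
  · rw [one_pow]; exact N.one_mem
  · intro a b ha hb h1 h2
    have e : (a * b) ^ 2 = a ^ 2 * ⁅a⁻¹, b⁆ * b ^ 2 := by simp only [commutatorElement_def, pow_two]; group
    rw [e]; exact N.mul_mem (N.mul_mem h1 (hc _ (Subgroup.inv_mem _ ha) _ hb)) h2
  · intro a ha h1
    rw [inv_pow]; exact N.inv_mem h1

end Gens

section RankTwo

variable {S : Type*} [Group S] [Finite S]

/-- in a 2-group of sectional rank at most 2, nonabelian subgroups of order 8 are self-centralizing -/
theorem mem_of_rank_two (hS : IsPGroup 2 S) (hr : SectionalPRankLE 2 2 S) {w x y : S} (hw : orderOf w = 4)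
    (hxw : x * w * x⁻¹ = w⁻¹) (hx : x ∉ zpowers w) (hx2 : x * x = 1 ∨ x * x = w ^ 2) (hyw : y * w = w * y) (hyx : y * x = x * y) :
    y ∈ Subgroup.closure ({w, x} : Set S) := by
  haveI : Fact (Nat.Prime 2) := ⟨Nat.prime_two⟩
  by_contra hcon
  set A := Subgroup.closure ({w, x} : Set S) with hA
  have hwA : w ∈ A := subset_closure (by simp)
  have hxA : x ∈ A := subset_closure (by simp)
  obtain ⟨j, hj1, hj2⟩ := exists_pow_not_mem hS A hcon
  obtain ⟨v, hv⟩ : ∃ v, v = y ^ j := ⟨_, rfl⟩
  rw [← hv] at hj1 hj2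
  have hvw : v * w = w * v := by
    rw [hv]; exact ((show Commute y w from hyw).pow_left j).eq
  have hvx : v * x = x * v := by
    rw [hv]; exact ((show Commute y x from hyx).pow_left j).eq
  -- elements of A
  have hxw' : x * w = w⁻¹ * x := by rw [← hxw]; group
  have hx2' : x * x ∈ zpowers w := by
    rcases hx2 with h | h
    · rw [h]; exact Subgroup.one_mem _
    · rw [h]; exact Subgroup.pow_mem _ (mem_zpowers w) 2
  have hxn : x ∈ normalizer (zpowers w : Set S) := by
    have h1 : zpowers x ≤ normalizer (zpowers w : Set S) := by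
      rw [zpowers_le, mem_normalizer_iff]
      have key : ∀ k : ℤ, x * w ^ k * x⁻¹ = w ^ (-k) := by
        intro k
        have h2 := conj_zpow (a := x) (b := w) (i := k)
        rw [hxw] at h2
        rw [← h2, inv_zpow, zpow_neg]
      intro g
      constructor
      · intro hg
        obtain ⟨k, rfl⟩ := mem_zpowers_iff.1 hg
        rw [key]; exact zpow_mem_zpowers _ _
      · intro hg
        obtain ⟨k, hk⟩ := mem_zpowers_iff.1 hg
        have h3 : g = w ^ (-k) := by
          have h4 := key (-k)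
          rw [neg_neg, hk] at h4
          have h5 : x * w ^ (-k) = x * g := mul_right_cancel h4
          exact (mul_left_cancel h5).symm
        rw [h3]; exact zpow_mem_zpowers _ _
    exact h1 (mem_zpowers x)
  have hAform : ∀ a ∈ A, a ∈ zpowers w ∨ a * x ∈ zpowers w := by
    intro a ha
    refine Subgroup.closure_induction (p := fun a _ => a ∈ zpowers w ∨ a * x ∈ zpowers w) ?_ ?_ ?_ ?_ ha
    · rintro a (rfl | ha)
      · left; exact mem_zpowers _
      · right; rw [Set.mem_singleton_iff.1 ha]; exact hx2'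
    · left; exact Subgroup.one_mem _
    · intro a b _ _ h1 h2
      have conj : ∀ g ∈ zpowers w, x * g * x⁻¹ ∈ zpowers w := fun g hg => (mem_normalizer_iff.1 hxn g).1 hg
      have conj' : ∀ g ∈ zpowers w, x⁻¹ * g * x ∈ zpowers w := fun g hg => by
        rw [mem_normalizer_iff.1 hxn]
        have e : x * (x⁻¹ * g * x) * x⁻¹ = g := by group
        rwa [e]
      rcases h1 with h1 | h1
      · rcases h2 with h2 | h2
        · left; exact Subgroup.mul_mem _ h1 h2
        · right; rw [mul_assoc]; exact Subgroup.mul_mem _ h1 h2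
      · rcases h2 with h2 | h2
        · right
          have e : a * b * x = (a * x) * (x⁻¹ * b * x) := by group
          rw [e]; exact Subgroup.mul_mem _ h1 (conj' b h2)
        · left
          have e : a * b = (a * x) * (x⁻¹ * (b * x) * x) * (x * x)⁻¹ := by group
          rw [e]
          exact Subgroup.mul_mem _ (Subgroup.mul_mem _ h1 (conj' _ h2)) (Subgroup.inv_mem _ hx2')
    · intro a _ h1
      rcases h1 with h1 | h1
      · left; exact Subgroup.inv_mem _ h1
      · right
        have e : a⁻¹ * x = x * (a * x)⁻¹ * x⁻¹ * (x * x) := by group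
        rw [e]
        refine Subgroup.mul_mem _ ?_ hx2'
        exact (mem_normalizer_iff.1 hxn _).1 (Subgroup.inv_mem _ h1)
  -- v ^ 2 is a power of w ^ 2
  have hv2 : v ^ 2 ∈ zpowers (w ^ 2) := by
    have hvA : v ^ 2 ∈ zpowers w := by
      rcases hAform _ hj2 with h | h
      · exact h
      · exfalso
        -- v ^ 2 * x = w ^ k commutes with w, so x commutes with w
        obtain ⟨k, hk⟩ := mem_zpowers_iff.1 h
        have h1 : Commute (v ^ 2) w := (show Commute v w from hvw).pow_left 2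
        have h2 : x = (v ^ 2)⁻¹ * w ^ k := by rw [hk]; group
        have h3 : Commute x w := by
          rw [h2]; exact (h1.inv_left).mul_left ((Commute.refl w).zpow_left k)
        have h4 : w = w⁻¹ := by
          rw [← hxw, h3.eq, mul_inv_cancel_right]
        have h5 : w ^ 2 = 1 := by
          rw [pow_two]
          calc w * w = w * w⁻¹ := by rw [← h4]
            _ = 1 := mul_inv_cancel w
        have h6 : 4 ∣ 2 := by rw [← hw]; exact orderOf_dvd_of_pow_eq_one h5
        omega
    obtain ⟨k, hk⟩ := mem_zpowers_iff.1 hvA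
    -- commutes with x
    have h1 : Commute (v ^ 2) x := (show Commute v x from hvx).pow_left 2
    have h2 : x * w ^ k * x⁻¹ = w ^ k := by rw [hk, ← h1.eq, mul_inv_cancel_right]
    have h3 : w ^ (-k) = w ^ k := by
      rw [← h2, ← conj_zpow, hxw, inv_zpow, zpow_neg]
    have h4 : w ^ (2 * k) = 1 := by
      have h5 : w ^ (2 * k) = w ^ k * (w ^ (-k))⁻¹ := by rw [← zpow_neg, ← zpow_add]; congr 1; ring
      rw [h5, h3, mul_inv_cancel]
    have h5 : (4 : ℤ) ∣ 2 * k := by
      have := orderOf_dvd_iff_zpow_eq_one.2 h4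
      rw [hw] at this
      exact_mod_cast this
    obtain ⟨m, hm⟩ : ∃ m, k = 2 * m := ⟨k / 2, by omega⟩
    have h6 : w ^ k = (w ^ 2) ^ m := by
      rw [hm, zpow_mul]; norm_cast
    rw [← hk, h6]
    exact zpow_mem_zpowers _ _
  -- the section
  set H := Subgroup.closure ({w, x, v} : Set S) with hH
  have hwH : w ∈ H := subset_closure (by simp)
  have hxH : x ∈ H := subset_closure (by simp)
  have hvH : v ∈ H := subset_closure (by simp)
  have hN : H ≤ centralizer (zpowers (w ^ 2) : Set S) := by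
    rw [hH, closure_le]
    have key : ∀ g : S, Commute g (w ^ 2) → g ∈ centralizer (zpowers (w ^ 2) : Set S) := by
      intro g hg
      rw [mem_centralizer_iff]
      rintro _ ⟨k, rfl⟩
      exact (hg.symm.zpow_left k).eq
    rintro g (rfl | rfl | hg)
    · exact key _ ((Commute.refl _).pow_right 2)
    · apply key
      have h1 : g * w ^ 2 * g⁻¹ = w ^ 2 := by
        rw [← conj_pow, hxw, inv_pow]
        have h2 : w ^ 2 * w ^ 2 = 1 := by
          rw [← pow_add]
          have h3 := pow_orderOf_eq_one w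
          rw [hw] at h3
          exact h3
        exact inv_eq_of_mul_eq_one_left h2
      calc g * w ^ 2 = (g * w ^ 2 * g⁻¹) * g := by group
        _ = w ^ 2 * g := by rw [h1]
    · rw [Set.mem_singleton_iff.1 hg]
      exact key _ ((show Commute v w from hvw).pow_right 2)
  have hN' : H ≤ normalizer (zpowers (w ^ 2) : Set S) := hN.trans (Subgroup.centralizer_le_normalizer _)
  have hcomm : ∀ a ∈ ({w, x, v} : Set S), ∀ b ∈ ({w, x, v} : Set S), ⁅a, b⁆ ∈ zpowers (w ^ 2) := by
    have s1 : ⁅x, w⁆ ∈ zpowers (w ^ 2) := by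
      rw [commutatorElement_def, hxw]
      have e : w⁻¹ * w⁻¹ = (w ^ 2)⁻¹ := by group
      rw [e]; exact Subgroup.inv_mem _ (mem_zpowers _)
    have s2 : ⁅w, x⁆ ∈ zpowers (w ^ 2) := by
      rw [← commutatorElement_inv]; exact Subgroup.inv_mem _ s1
    have t : ∀ a b : S, a * b = b * a → ⁅a, b⁆ ∈ zpowers (w ^ 2) := by
      intro a b h
      rw [commutatorElement_eq_one_iff_mul_comm.2 h]; exact Subgroup.one_mem _
    rintro a (rfl | rfl | ha) b (rfl | rfl | hb)
    · exact t _ _ rfl
    · exact s2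
    · rw [Set.mem_singleton_iff.1 hb]; exact t _ _ hvw.symm
    · exact s1
    · exact t _ _ rfl
    · rw [Set.mem_singleton_iff.1 hb]; exact t _ _ hvx.symm
    · rw [Set.mem_singleton_iff.1 ha]; exact t _ _ hvw
    · rw [Set.mem_singleton_iff.1 ha]; exact t _ _ hvx
    · rw [Set.mem_singleton_iff.1 ha, Set.mem_singleton_iff.1 hb]; exact t _ _ rfl
  have hsq : ∀ a ∈ ({w, x, v} : Set S), a ^ 2 ∈ zpowers (w ^ 2) := by
    rintro a (rfl | rfl | ha)
    · exact mem_zpowers _
    · rcases hx2 with h | h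
      · rw [pow_two a, h]; exact Subgroup.one_mem _
      · rw [pow_two a, h]; exact mem_zpowers _
    · rw [Set.mem_singleton_iff.1 ha]; exact hv2
  have hle := sect_card_le hr hN' (comm_mem_of_gens hN' hcomm) (sq_mem_of_gens hN' hcomm hsq)
  -- counting
  have hNH : zpowers (w ^ 2) ≤ H := by rw [zpowers_le]; exact Subgroup.pow_mem _ hwH 2
  have hc1 : Nat.card (zpowers (w ^ 2)) = 2 := by
    rw [Nat.card_zpowers, orderOf_pow_of_dvd (by norm_num) (by rw [hw]; norm_num), hw]
  have hc2 : Nat.card (zpowers w) = 4 := by rw [Nat.card_zpowers, hw]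
  have dbl : ∀ U V : Subgroup S, U ≤ V → U ≠ V → 2 * Nat.card U ≤ Nat.card V := by
    intro U V hUV hne
    obtain ⟨c, hc⟩ := Subgroup.card_dvd_of_le hUV
    have h3 : c ≠ 1 := by
      rintro rfl
      rw [mul_one] at hc
      exact hne (Subgroup.eq_of_le_of_card_ge hUV hc.le)
    have h4 : c ≠ 0 := by
      rintro rfl
      rw [mul_zero] at hc
      exact Nat.card_pos.ne' hc
    rw [hc, mul_comm]
    exact Nat.mul_le_mul_left _ (by omega)
  have hc3 := dbl (zpowers w) A (by rw [zpowers_le]; exact hwA) (fun h => hx (by rw [h]; exact hxA))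
  have hc4 := dbl A H (by
    rw [hA, closure_le]
    rintro g (rfl | hg)
    · exact hwH
    · rw [Set.mem_singleton_iff.1 hg]; exact hxH) (fun h => hj1 (by rw [h]; exact hvH))
  have hc5 : Nat.card (zpowers (w ^ 2)) * (zpowers (w ^ 2)).relIndex H = Nat.card H := by
    rw [← Subgroup.card_mul_index ((zpowers (w ^ 2)).subgroupOf H)]
    rw [Nat.card_congr (Subgroup.subgroupOfEquivOfLe hNH).toEquiv]
    rfl
  rw [hc1] at hc5
  rw [hc2] at hc3
  have hle' : (zpowers (w ^ 2)).relIndex H ≤ 4 := hle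
  omega

end RankTwo

section Main

variable {S : Type*} [Group S] [Finite S]

theorem commutator_index_of_nonab (hS : IsPGroup 2 S) {T : Subgroup S} (hT8 : Nat.card T = 8) (hnc : ¬ IsMulCommutative T) :
    (_root_.commutator T).index = 4 := by
  haveI : Fact (Nat.Prime 2) := ⟨Nat.prime_two⟩
  have hTp := hS.to_subgroup T
  have h1 := frattini_index_ge hTp hnc
  have h2 := commutator_le_frattini hTp
  have h3 : (frattini T).index ∣ (_root_.commutator T).index := Subgroup.index_dvd_of_le h2
  have h4 : _root_.commutator T ≠ ⊥ := by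
    intro h
    apply hnc
    refine ⟨⟨fun a b => ?_⟩⟩
    have h5 : ⁅a, b⁆ ∈ _root_.commutator T := commutator_mem_commutator (mem_top a) (mem_top b)
    rw [h, mem_bot, commutatorElement_eq_one_iff_mul_comm] at h5
    exact h5
  have h5 := Subgroup.card_mul_index (_root_.commutator T)
  rw [hT8] at h5
  have h6 : Nat.card (_root_.commutator T) ≠ 1 := fun h => h4 (Subgroup.card_eq_one.1 h)
  have h7 : (_root_.commutator T).index ∣ 8 := by rw [← h5]; exact Dvd.intro_left _ rfl
  have h8 : 4 ≤ (_root_.commutator T).index := by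
    refine le_trans (by norm_num at h1 ⊢; exact h1) (Nat.le_of_dvd ?_ h3)
    exact Nat.pos_of_ne_zero Subgroup.FiniteIndex.index_ne_zero
  have h9 : (_root_.commutator T).index ≤ 8 := Nat.le_of_dvd (by norm_num) h7
  interval_cases h : (_root_.commutator T).index <;> omega

theorem normalizer_gt (hS : IsPGroup 2 S) {T : Subgroup S} (hT : T ≠ ⊤) : ∃ y ∈ normalizer (T : Set S), y ∉ T := by
  haveI : Fact (Nat.Prime 2) := ⟨Nat.prime_two⟩
  haveI := hS.isNilpotent
  have h1 := Group.normalizerCondition_of_isNilpotent (G := S) T (lt_top_iff_ne_top.2 hT)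
  exact Set.exists_of_ssubset h1

theorem maxcl_of_rank_two (hS : IsPGroup 2 S) (hr : SectionalPRankLE 2 2 S) (h : ∃ T : Subgroup S, Nat.card T = 8 ∧ ¬ IsMulCommutative T) :
    (_root_.commutator S).index = 4 ∧ 8 ≤ Nat.card S := by
  haveI : Fact (Nat.Prime 2) := ⟨Nat.prime_two⟩
  obtain ⟨T0, hT08, hT0⟩ := h
  obtain ⟨T, ⟨hT1, hT2⟩, hmax⟩ := CfsgH1.exists_maximal_of_set {T : Subgroup S | (_root_.commutator T).index = 4 ∧ 8 ≤ Nat.card T}
    ⟨T0, commutator_index_of_nonab hS hT08 hT0, hT08.ge⟩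
  by_cases htop : T = ⊤
  · subst htop
    rw [Subgroup.card_top] at hT2
    refine ⟨?_, hT2⟩
    have h1 : ((_root_.commutator (⊤ : Subgroup S)).map (Subgroup.topEquiv (G := S)).toMonoidHom) = _root_.commutator S := by
      rw [_root_.commutator_def, Subgroup.map_commutator, _root_.commutator_def, ← MonoidHom.range_eq_map]
      have : (Subgroup.topEquiv (G := S)).toMonoidHom.range = ⊤ := MonoidHom.range_eq_top.2 (Subgroup.topEquiv (G := S)).surjective
      rw [this]
    rw [← h1, ← hT1]
    exact Subgroup.index_map_equiv _ (Subgroup.topEquiv (G := S))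
  exfalso
  obtain ⟨y0, hy0n, hy0T⟩ := normalizer_gt hS htop
  obtain ⟨j, hj1, hj2⟩ := exists_pow_not_mem hS T hy0T
  obtain ⟨y, hy⟩ : ∃ y, y = y0 ^ j := ⟨_, rfl⟩
  rw [← hy] at hj1 hj2
  have hyn : y ∈ normalizer (T : Set S) := by rw [hy]; exact Subgroup.pow_mem _ hy0n j
  -- the derived subgroup of T
  set D : Subgroup S := ⁅T, T⁆ with hD
  have hDmap : D = (_root_.commutator T).map T.subtype := by
    rw [_root_.commutator_def, Subgroup.map_commutator, ← MonoidHom.range_eq_map, Subgroup.range_subtype]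
  have hDT : D ≤ T := by rw [hDmap]; exact Subgroup.map_subtype_le _
  have hDcard : Nat.card D * 4 = Nat.card T := by
    rw [hDmap, ← hT1, ← Subgroup.card_mul_index (_root_.commutator T)]
    rw [Nat.card_congr ((_root_.commutator T).equivMapOfInjective T.subtype T.subtype_injective).symm.toEquiv]
  -- claim 1
  have claim1 : ∀ t ∈ T, ⁅y, t⁆ ∈ D := by
    intro t ht
    by_contra hcon
    set X := T ⊔ zpowers y with hX
    have hyX : y ∈ X := Subgroup.mem_sup_right (mem_zpowers y)
    have hTX : T ≤ X := le_sup_left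
    have hcardX : Nat.card X ≤ 2 * Nat.card T := by
      have hn : zpowers y ≤ normalizer (T : Set S) := by rw [zpowers_le]; exact hyn
      have hmem : ∀ u ∈ X, u ∈ T ∨ u * y ∈ T := by
        intro u hu
        obtain ⟨t, ht, k, hk, rfl⟩ := (CfsgH1.mem_sup_of_le_normalizer' hn).1 hu
        obtain ⟨i, rfl⟩ := mem_zpowers_iff.1 hk
        have hsq : ∀ m : ℤ, (y ^ 2) ^ m ∈ T := fun m => T.zpow_mem hj2 m
        rcases Int.even_or_odd i with ⟨m, hm⟩ | ⟨m, hm⟩
        · left
          have e : y ^ i = (y ^ 2) ^ m := by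
            rw [hm, ← zpow_natCast, ← zpow_mul]; congr 1; push_cast; ring
          rw [e]; exact T.mul_mem ht (hsq m)
        · right
          have e : y ^ i * y = (y ^ 2) ^ (m + 1) := by
            rw [hm, ← zpow_add_one, ← zpow_natCast, ← zpow_mul]; congr 1; push_cast; ring
          rw [mul_assoc, e]; exact T.mul_mem ht (hsq _)
      have hinj : Nat.card X ≤ Nat.card (T ⊕ T) := by
        classical
        apply Nat.card_le_card_of_injective 
          (fun u : X => if h : (u : S) ∈ T then (Sum.inl ⟨u, h⟩ : T ⊕ T) else Sum.inr ⟨u * y, (hmem u u.2).resolve_left h⟩)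
        intro u v huv
        by_cases h1 : (u : S) ∈ T
        · by_cases h2 : (v : S) ∈ T
          · simp only [h1, h2, dite_true] at huv
            have h3 := Sum.inl_injective huv
            exact Subtype.ext (congrArg (Subtype.val : T → S) h3)
          · simp [h1, h2] at huv
        · by_cases h2 : (v : S) ∈ T
          · simp [h1, h2] at huv
          · simp only [h1, h2, dite_false] at huv
            have h3 := congrArg (Subtype.val : T → S) (Sum.inr_injective huv)
            exact Subtype.ext (mul_right_cancel h3)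
      rw [Nat.card_sum] at hinj
      omega
    have hDX : Nat.card D * 2 ≤ Nat.card (_root_.commutator X) := by
      have h1 : Nat.card (_root_.commutator X) = Nat.card (⁅X, X⁆ : Subgroup S) := by
        have e : (⁅X, X⁆ : Subgroup S) = (_root_.commutator X).map X.subtype := by
          rw [_root_.commutator_def, Subgroup.map_commutator, ← MonoidHom.range_eq_map, Subgroup.range_subtype]
        rw [e, Nat.card_congr ((_root_.commutator X).equivMapOfInjective X.subtype X.subtype_injective).symm.toEquiv]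
      rw [h1]
      have h2 : D ≤ ⁅X, X⁆ := Subgroup.commutator_mono hTX hTX
      have h3 : D ≠ ⁅X, X⁆ := by
        intro h3
        apply hcon
        rw [h3]
        exact commutator_mem_commutator hyX (hTX ht)
      exact card_mul_le_of_lt hS (lt_of_le_of_ne h2 h3)
    have hidx : (_root_.commutator X).index = 4 := by
      have h1 := Subgroup.card_mul_index (_root_.commutator X)
      have h2 : (_root_.commutator X).index ≤ 4 := by
        by_contra hcon2
        push Not at hcon2
        have hpos : 0 < Nat.card D := Nat.card_pos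
        have : Nat.card D * 2 * 5 ≤ Nat.card (_root_.commutator X) * (_root_.commutator X).index := 
          Nat.mul_le_mul hDX hcon2
        rw [h1] at this
        omega
      have hXp := hS.to_subgroup X
      have h3 : ¬ (_root_.commutator X).index ≤ 2 := by
        intro h3
        have h4 := cyclic_of_index_commutator_le hXp h3
        have h5 : _root_.commutator T = ⊥ := by
          rw [_root_.commutator_def, Subgroup.commutator_eq_bot_iff_le_centralizer]
          intro a _
          rw [mem_centralizer_iff]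
          intro b _
          apply Subtype.ext
          letI := h4.commGroup
          have := mul_comm (⟨b, hTX b.2⟩ : X) ⟨a, hTX a.2⟩
          exact congrArg (Subtype.val : X → S) this
        rw [h5, Subgroup.index_bot] at hT1
        omega
      haveI : (_root_.commutator X).Normal := inferInstance
      obtain ⟨m, hm⟩ := IsPGroup.iff_card.1 (hXp.to_quotient (_root_.commutator X))
      have hm' : (_root_.commutator X).index = 2 ^ m := hm
      rw [hm'] at h2 h3 ⊢
      have hm2 : m < 3 := by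
        by_contra hcon3
        have : 2 ^ 3 ≤ 2 ^ m := Nat.pow_le_pow_right (by norm_num) (by omega)
        omega
      interval_cases m
      · omega
      · omega
      · norm_num
    have h5 := hmax X ⟨hidx, hT2.trans (Nat.card_le_card_of_injective _ (Subgroup.inclusion_injective hTX))⟩ hTX
    exact hj1 (by rw [← h5]; exact hyX)
  -- structure of T
  obtain ⟨n, hn⟩ := IsPGroup.iff_card.1 (hS.to_subgroup T)
  have hn3 : 3 ≤ n := by
    by_contra hcon
    rw [hn] at hT2
    have : 2 ^ n ≤ 2 ^ 2 := Nat.pow_le_pow_right (by norm_num) (by omega)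
    omega
  obtain ⟨c0, x0, hc0, hxc0, htop0, hidx0, hrel0, hx20, -⟩ := maxcl_structure n hn3 hn hT1
  obtain ⟨c, hcdef⟩ : ∃ c : S, c = c0 := ⟨_, rfl⟩
  obtain ⟨x, hxdef⟩ : ∃ x : S, x = x0 := ⟨_, rfl⟩
  have hcT : c ∈ T := by rw [hcdef]; exact c0.2
  have hxT : x ∈ T := by rw [hxdef]; exact x0.2
  have hc : orderOf c = 2 ^ (n - 1) := by rw [hcdef, Subgroup.orderOf_coe, hc0]
  have hxc : x ∉ zpowers c := by
    intro h
    apply hxc0
    obtain ⟨k, hk⟩ := mem_zpowers_iff.1 h
    rw [mem_zpowers_iff]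
    refine ⟨k, Subtype.ext ?_⟩
    rw [hcdef, hxdef] at hk
    exact hk
  -- the derived subgroup is generated by `c ^ 2`
  have hpow : ∀ z : ℤ, c ^ z = 1 ↔ ((2 ^ (n - 1) : ℕ) : ℤ) ∣ z := by
    intro z
    rw [← hc, orderOf_dvd_iff_zpow_eq_one]
  have hrel : ∃ s : ℤ, x * c * x⁻¹ = c ^ (4 * s - 1) := by
    rcases hrel0 with h | h
    · refine ⟨0, ?_⟩
      have h1 := congrArg (Subtype.val : T → S) h
      rw [hcdef, hxdef]
      rw [mul_zero, zero_sub, zpow_neg, zpow_one]
      exact h1
    · by_cases hn' : n = 3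
      · exfalso
        subst hn'
        have h4 : c0⁻¹ * c0 ^ 2 ^ (3 - 2) = c0 := by norm_num [pow_two]
        rw [h4] at h
        have h6 : x0 * c0 = c0 * x0 := by
          calc x0 * c0 = (x0 * c0 * x0⁻¹) * x0 := by group
            _ = c0 * x0 := by rw [h]
        have h5 : _root_.commutator T = ⊥ := by
          have hcl : Subgroup.closure ({c0, x0} : Set T) = ⊤ := by
            rw [eq_top_iff, ← htop0]
            refine sup_le ?_ ?_
            · rw [zpowers_le]; exact subset_closure (by simp)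
            · rw [zpowers_le]; exact subset_closure (by simp)
          have h7 : ∀ a ∈ ({c0, x0} : Set T), ∀ b ∈ ({c0, x0} : Set T), a * b = b * a := by
            rintro a (rfl | ha) b (rfl | hb)
            · rfl
            · rw [Set.mem_singleton_iff.1 hb]; exact h6.symm
            · rw [Set.mem_singleton_iff.1 ha]; exact h6
            · rw [Set.mem_singleton_iff.1 ha, Set.mem_singleton_iff.1 hb]
          have h8 := Subgroup.isMulCommutative_closure h7
          rw [hcl] at h8
          rw [_root_.commutator_def, Subgroup.commutator_eq_bot_iff_le_centralizer]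
          intro a _
          rw [mem_centralizer_iff]
          intro b _
          exact congrArg Subtype.val (h8.is_comm.comm (⟨b, trivial⟩ : (⊤ : Subgroup T)) ⟨a, trivial⟩)
        rw [h5, Subgroup.index_bot] at hT1
        omega
      · refine ⟨2 ^ (n - 4), ?_⟩
        have h1 := congrArg (Subtype.val : T → S) h
        have h2 : c ^ (4 * 2 ^ (n - 4) - 1 : ℤ) = c⁻¹ * c ^ 2 ^ (n - 2) := by
          rw [sub_eq_neg_add, zpow_add, zpow_neg, zpow_one]
          congr 1
          rw [← zpow_natCast]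
          congr 1
          push_cast
          have e : n - 2 = (n - 4) + 2 := by omega
          rw [e, pow_add]; ring
        rw [h2, hcdef, hxdef]
        exact h1
  obtain ⟨s, hs⟩ := hrel
  have hx2 : x * x = 1 ∨ x * x = c ^ 2 ^ (n - 2) := by
    rcases hx20 with h | h
    · left
      have := congrArg (Subtype.val : T → S) h
      rw [hxdef]; exact this
    · right
      have := congrArg (Subtype.val : T → S) h
      rw [hxdef, hcdef]; exact this
  have hconjc : ∀ z : ℤ, x * c ^ z * x⁻¹ = c ^ ((4 * s - 1) * z) := by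
    intro z
    rw [← conj_zpow, hs, ← zpow_mul]
  have hTform : ∀ t ∈ T, ∃ a : ℤ, t = c ^ a ∨ t = c ^ a * x := by
    intro t ht
    have h1 : (⟨t, ht⟩ : T) ∈ zpowers c0 ⊔ zpowers x0 := by rw [htop0]; trivial
    haveI hcn : (zpowers c0).Normal := Subgroup.normal_of_index_eq_two hidx0
    obtain ⟨g, hg, k, hk, hgk⟩ := Subgroup.mem_sup_of_normal_left.1 h1
    obtain ⟨a, rfl⟩ := mem_zpowers_iff.1 hg
    obtain ⟨b, rfl⟩ := mem_zpowers_iff.1 hk
    have h2 : t = c ^ a * x ^ b := by
      have := congrArg (Subtype.val : T → S) hgk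
      rw [hcdef, hxdef]
      exact this.symm
    have hxx : x * x ∈ zpowers c := by
      rcases hx2 with h | h
      · rw [h]; exact Subgroup.one_mem _
      · rw [h]; exact Subgroup.pow_mem _ (mem_zpowers c) _
    obtain ⟨d, hd⟩ := mem_zpowers_iff.1 hxx
    rcases Int.even_or_odd b with ⟨m, hm⟩ | ⟨m, hm⟩
    · refine ⟨a + d * m, Or.inl ?_⟩
      rw [h2, hm, zpow_add c, zpow_mul, hd, (Commute.refl x).mul_zpow, zpow_add x m m]
    · refine ⟨a + d * m, Or.inr ?_⟩
      rw [h2, hm, zpow_add c, zpow_mul, hd, (Commute.refl x).mul_zpow, zpow_add_one, two_mul, zpow_add x m m]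
      group
  have hDc : D ≤ zpowers (c ^ (2 : ℤ)) := by
    rw [hD, Subgroup.commutator_le]
    have hx_inv : ∀ z : ℤ, x⁻¹ * c ^ z * x = c ^ ((4 * s - 1) * z) := by
      intro z
      have h1 : x * c ^ ((4 * s - 1) * z) * x⁻¹ = c ^ z := by
        have h3 : (x * x) * c ^ z * (x * x)⁻¹ = c ^ z := by
          have : Commute (x * x) (c ^ z) := by
            rcases hx2 with h | h
            · rw [h]; exact Commute.one_left _
            · rw [h]; exact ((Commute.refl c).pow_left _).zpow_right z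
          rw [this.eq, mul_inv_cancel_right]
        calc x * c ^ ((4 * s - 1) * z) * x⁻¹ = x * (x * c ^ z * x⁻¹) * x⁻¹ := by rw [hconjc z]
          _ = (x * x) * c ^ z * (x * x)⁻¹ := by group
          _ = c ^ z := h3
      rw [← h1]; group
    have hmem : ∀ z : ℤ, 2 ∣ z → c ^ z ∈ zpowers (c ^ (2 : ℤ)) := by
      rintro z ⟨m, rfl⟩
      rw [zpow_mul]; exact zpow_mem_zpowers _ _
    intro u hu v hv
    obtain ⟨a, ha⟩ := hTform u hu
    obtain ⟨b, hb⟩ := hTform v hv
    rcases ha with rfl | rfl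
    · rcases hb with rfl | rfl
      · rw [commutatorElement_eq_one_iff_mul_comm.2 (((Commute.refl c).zpow_zpow a b).eq)]
        exact Subgroup.one_mem _
      · have e : ⁅c ^ a, c ^ b * x⁆ = c ^ (a + (4 * s - 1) * (-a)) := by
          calc ⁅c ^ a, c ^ b * x⁆ = c ^ a * c ^ b * (x * c ^ (-a) * x⁻¹) * c ^ (-b) := by
                rw [commutatorElement_def]; group
            _ = _ := by rw [hconjc, ← zpow_add, ← zpow_add, ← zpow_add]; congr 1; ring
        rw [e]; exact hmem _ ⟨a * (1 - 2 * s), by ring⟩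
    · rcases hb with rfl | rfl
      · have e : ⁅c ^ a * x, c ^ b⁆ = c ^ ((4 * s - 1) * b - b) := by
          calc ⁅c ^ a * x, c ^ b⁆ = c ^ a * (x * c ^ b * x⁻¹) * c ^ (-a) * c ^ (-b) := by
                rw [commutatorElement_def]; group
            _ = _ := by rw [hconjc, ← zpow_add, ← zpow_add, ← zpow_add]; congr 1; ring
        rw [e]; exact hmem _ ⟨b * (2 * s - 1), by ring⟩
      · have e : ⁅c ^ a * x, c ^ b * x⁆ = c ^ ((a - b) + (4 * s - 1) * (b - a)) := by
          calc ⁅c ^ a * x, c ^ b * x⁆ = c ^ a * (x * c ^ b * x⁻¹) * (x * x) * (x⁻¹ * c ^ (-a) * x) * (x * x)⁻¹ * c ^ (-b) := by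
                rw [commutatorElement_def]; group
            _ = c ^ a * c ^ ((4 * s - 1) * b) * ((x * x) * c ^ ((4 * s - 1) * (-a)) * (x * x)⁻¹) * c ^ (-b) := by
                rw [hconjc, hx_inv]; group
            _ = c ^ a * c ^ ((4 * s - 1) * b) * c ^ ((4 * s - 1) * (-a)) * c ^ (-b) := by
                have : Commute (x * x) (c ^ ((4 * s - 1) * (-a))) := by
                  rcases hx2 with h | h
                  · rw [h]; exact Commute.one_left _
                  · rw [h]; exact ((Commute.refl c).pow_left _).zpow_right _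
                rw [this.eq, mul_inv_cancel_right]
            _ = _ := by rw [← zpow_add, ← zpow_add, ← zpow_add]; congr 1; ring
        rw [e]; exact hmem _ ⟨(a - b) * (1 - 2 * s), by ring⟩
  -- action of y
  obtain ⟨a, ha⟩ : ∃ a : ℤ, y * c * y⁻¹ = c ^ (2 * a + 1) := by
    obtain ⟨a, ha⟩ := mem_zpowers_iff.1 (hDc (claim1 c hcT))
    refine ⟨a, ?_⟩
    have e : y * c * y⁻¹ = ⁅y, c⁆ * c := by rw [commutatorElement_def]; group
    rw [e, ← ha, ← zpow_mul, ← zpow_add_one]
  obtain ⟨b, hb⟩ : ∃ b : ℤ, y * x * y⁻¹ = c ^ (2 * b) * x := by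
    obtain ⟨b, hb⟩ := mem_zpowers_iff.1 (hDc (claim1 x hxT))
    refine ⟨b, ?_⟩
    have e : y * x * y⁻¹ = ⁅y, x⁆ * x := by rw [commutatorElement_def]; group
    rw [e, ← hb, ← zpow_mul]
  -- step 2a
  obtain ⟨y1, hy1T, i, hy1c, hy1x⟩ : ∃ y1 : S, y1 ∉ T ∧ ∃ i : ℤ, y1 * c * y1⁻¹ = c ^ (4 * i + 1) ∧ y1 * x * y1⁻¹ = c ^ (2 * b) * x := by
    rcases Int.even_or_odd a with ⟨m, hm⟩ | ⟨m, hm⟩
    · refine ⟨y, hj1, m, ?_, hb⟩
      rw [ha, hm]; congr 1; ring
    · refine ⟨y * x, ?_, 4 * m * s + 3 * s - m - 1, ?_, ?_⟩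
      · intro h
        apply hj1
        have := T.mul_mem h (T.inv_mem hxT)
        rwa [mul_inv_cancel_right] at this
      · calc y * x * c * (y * x)⁻¹ = y * (x * c * x⁻¹) * y⁻¹ := by group
          _ = c ^ ((2 * a + 1) * (4 * s - 1)) := by rw [hs, ← conj_zpow, ha, ← zpow_mul]
          _ = _ := by rw [hm]; congr 1; ring
      · calc y * x * x * (y * x)⁻¹ = y * x * y⁻¹ := by group
          _ = _ := hb
  -- step 2b
  obtain ⟨u, q, huq⟩ : ∃ u q : ℤ, u * (1 - 2 * s) = 1 + q * ((2 ^ (n - 1) : ℕ) : ℤ) := by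
    have h1 : IsCoprime (1 - 2 * s) ((2 ^ (n - 1) : ℕ) : ℤ) := by
      push_cast
      apply IsCoprime.pow_right
      exact ⟨1, s, by ring⟩
    obtain ⟨u, q, h⟩ := h1
    exact ⟨u, -q, by linarith⟩
  obtain ⟨y2, hy2⟩ : ∃ y2, y2 = c ^ (-(b * u)) * y1 := ⟨_, rfl⟩
  have hy2T : y2 ∉ T := by
    intro h
    apply hy1T
    have h1 : y1 = (c ^ (-(b * u)))⁻¹ * y2 := by rw [hy2]; group
    rw [h1]
    exact T.mul_mem (T.inv_mem (T.zpow_mem hcT _)) h
  have hy2x : y2 * x * y2⁻¹ = x := by
    calc y2 * x * y2⁻¹ = c ^ (-(b * u)) * (y1 * x * y1⁻¹) * (c ^ (-(b * u)))⁻¹ := by rw [hy2]; group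
      _ = c ^ (-(b * u)) * (c ^ (2 * b) * x) * (c ^ (-(b * u)))⁻¹ := by rw [hy1x]
      _ = c ^ (-(b * u)) * c ^ (2 * b) * (x * c ^ (b * u) * x⁻¹) * x := by group
      _ = c ^ (2 * b * (1 - u * (1 - 2 * s))) * x := by
        rw [hconjc, ← zpow_add, ← zpow_add]; congr 2; ring
      _ = 1 * x := by
        congr 1
        rw [hpow, huq]
        exact ⟨-(2 * b * q), by ring⟩
      _ = x := one_mul x
  have hy2c : y2 * c * y2⁻¹ = c ^ (4 * i + 1) := by
    calc y2 * c * y2⁻¹ = c ^ (-(b * u)) * (y1 * c * y1⁻¹) * (c ^ (-(b * u)))⁻¹ := by rw [hy2]; group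
      _ = c ^ (-(b * u)) * c ^ (4 * i + 1) * (c ^ (-(b * u)))⁻¹ := by rw [hy1c]
      _ = c ^ (4 * i + 1) := by rw [← zpow_neg, ← zpow_add, ← zpow_add]; congr 1; ring
  -- the element of order 4
  obtain ⟨w, hw⟩ : ∃ w, w = c ^ ((2 : ℤ) ^ (n - 3)) := ⟨_, rfl⟩
  have hw' : w = c ^ (2 ^ (n - 3)) := by
    rw [hw, ← zpow_natCast]; push_cast; rfl
  have hword : orderOf w = 4 := by
    rw [hw', orderOf_pow_of_dvd (by positivity) (by rw [hc]; exact pow_dvd_pow 2 (by omega)), hc]
    have e : n - 1 = (n - 3) + 2 := by omega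
    rw [e, pow_add, Nat.mul_div_cancel_left _ (by positivity)]
    norm_num
  have h2n : ((2 ^ (n - 1) : ℕ) : ℤ) = 4 * 2 ^ (n - 3) := by
    push_cast
    have e : n - 1 = (n - 3) + 2 := by omega
    rw [e, pow_add]; ring
  have hxw : x * w * x⁻¹ = w⁻¹ := by
    rw [hw, hconjc, ← zpow_neg]
    have : c ^ ((4 * s - 1) * 2 ^ (n - 3) : ℤ) * (c ^ (-(2 : ℤ) ^ (n - 3)))⁻¹ = 1 := by
      rw [← zpow_neg, ← zpow_add, hpow, h2n]
      exact ⟨s, by ring⟩
    exact mul_inv_eq_one.1 this
  have hyw : y2 * w = w * y2 := by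
    have h1 : y2 * w * y2⁻¹ = w := by
      rw [hw, ← conj_zpow, hy2c, ← zpow_mul]
      have : c ^ ((4 * i + 1) * 2 ^ (n - 3) : ℤ) * (c ^ ((2 : ℤ) ^ (n - 3)))⁻¹ = 1 := by
        rw [← zpow_neg, ← zpow_add, hpow, h2n]
        exact ⟨i, by ring⟩
      exact mul_inv_eq_one.1 this
    calc y2 * w = (y2 * w * y2⁻¹) * y2 := by group
      _ = w * y2 := by rw [h1]
  have hyx : y2 * x = x * y2 := by
    calc y2 * x = (y2 * x * y2⁻¹) * y2 := by group
      _ = x * y2 := by rw [hy2x]
  have hwx2 : x * x = 1 ∨ x * x = w ^ 2 := by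
    rcases hx2 with h | h
    · exact Or.inl h
    · right
      rw [h, hw', ← pow_mul]
      congr 1
      have e : n - 2 = (n - 3) + 1 := by omega
      rw [e, pow_succ]
  have hxw2 : x ∉ zpowers w := by
    intro h
    apply hxc
    have h1 : zpowers w ≤ zpowers c := by
      rw [zpowers_le, hw]; exact zpow_mem_zpowers _ _
    exact h1 h
  have hfin := mem_of_rank_two hS hr hword hxw hxw2 hwx2 hyw hyx
  apply hy2T
  have h1 : Subgroup.closure ({w, x} : Set S) ≤ T := by
    rw [closure_le]
    rintro g (rfl | hg)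
    · rw [hw]; exact T.zpow_mem hcT _
    · rw [Set.mem_singleton_iff.1 hg]; exact hxT
  exact h1 hfin

end Main

end CfsgH3
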