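import Cfsg.Agent.H3.SectRank3

/-! 2-groups of sectional rank at most 4: centralizer of the centre of a subgroup with centre of order 2. -/

set_option autoImplicit false
open Subgroup Cfsg
open scoped commutatorElement

namespace CfsgH3

variable {S : Type*} [Group S] [Finite S]

theorem le_normalizer_of_comm {A B : Subgroup S} (h : ∀ a ∈ A, ∀ b ∈ B, a * b = b * a) : A ≤ normalizer (B : Set S) := by
  intro a ha
  rw [mem_normalizer_iff]
  intro x
  constructor
  · intro hx
    rw [h a ha x hx, mul_inv_cancel_right]; exact hx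
  · intro hx
    have h1 := h a ha _ hx
    have e : x = a * x * a⁻¹ := by
      calc x = a⁻¹ * ((a * x * a⁻¹) * a) := by group
        _ = a⁻¹ * (a * (a * x * a⁻¹)) := by rw [h1]
        _ = a * x * a⁻¹ := by group
    rw [e]; exact hx

/-- product of two elementary sections inside commuting disjoint subgroups -/
theorem sect_prod {k : ℕ} (hr : SectionalPRankLE 2 k S) {A₁ B₁ A₂ B₂ : Subgroup S} (h1 : B₁ ≤ A₁) (h2 : B₂ ≤ A₂)
    (hc : ∀ a ∈ A₁, ∀ b ∈ A₂, a * b = b * a) (hinf : A₁ ⊓ A₂ = ⊥)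
    (hcm1 : ∀ a ∈ A₁, ∀ b ∈ A₁, ⁅a, b⁆ ∈ B₁) (hcm2 : ∀ a ∈ A₂, ∀ b ∈ A₂, ⁅a, b⁆ ∈ B₂)
    (hp1 : ∀ a ∈ A₁, a ^ 2 ∈ B₁) (hp2 : ∀ a ∈ A₂, a ^ 2 ∈ B₂) :
    B₁.relIndex A₁ * B₂.relIndex A₂ ≤ 2 ^ k := by
  set X : Set S := (A₁ : Set S) ∪ A₂ with hX
  have hXcl : Subgroup.closure X = A₁ ⊔ A₂ := by
    rw [hX, Subgroup.closure_union, Subgroup.closure_eq, Subgroup.closure_eq]
  set N := B₁ ⊔ B₂ with hN
  have hB1N : B₁ ≤ N := le_sup_left
  have hB2N : B₂ ≤ N := le_sup_right
  have hn : Subgroup.closure X ≤ normalizer (N : Set S) := by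
    rw [closure_le]
    have conj : ∀ a ∈ X, ∀ x ∈ N, a * x * a⁻¹ ∈ N := by
      intro a ha x hx
      have h3 : N ≤ N.comap (MulAut.conj a).toMonoidHom := by
        refine sup_le ?_ ?_
        · intro b hb
          change a * b * a⁻¹ ∈ N
          rcases ha with ha | ha
          · have e : a * b * a⁻¹ = ⁅a, b⁆ * b := by rw [commutatorElement_def]; group
            rw [e]; exact N.mul_mem (hB1N (hcm1 a ha b (h1 hb))) (hB1N hb)
          · rw [← hc b (h1 hb) a ha, mul_inv_cancel_right]; exact hB1N hb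
        · intro b hb
          change a * b * a⁻¹ ∈ N
          rcases ha with ha | ha
          · rw [hc a ha b (h2 hb), mul_inv_cancel_right]; exact hB2N hb
          · have e : a * b * a⁻¹ = ⁅a, b⁆ * b := by rw [commutatorElement_def]; group
            rw [e]; exact N.mul_mem (hB2N (hcm2 a ha b (h2 hb))) (hB2N hb)
      exact h3 hx
    intro a ha
    rw [SetLike.mem_coe, mem_normalizer_iff]
    intro x
    refine ⟨conj a ha x, fun hx => ?_⟩
    have ha' : a⁻¹ ∈ X := by
      rcases ha with ha | ha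
      · exact Or.inl (A₁.inv_mem ha)
      · exact Or.inr (A₂.inv_mem ha)
    have := conj _ ha' _ hx
    have e : a⁻¹ * (a * x * a⁻¹) * a⁻¹⁻¹ = x := by group
    rwa [e] at this
  have hcm : ∀ a ∈ X, ∀ b ∈ X, ⁅a, b⁆ ∈ N := by
    intro a ha b hb
    rcases ha with ha | ha <;> rcases hb with hb | hb
    · exact hB1N (hcm1 a ha b hb)
    · rw [commutatorElement_eq_one_iff_mul_comm.2 (hc a ha b hb)]; exact N.one_mem
    · rw [commutatorElement_eq_one_iff_mul_comm.2 (hc b hb a ha).symm]; exact N.one_mem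
    · exact hB2N (hcm2 a ha b hb)
  have hsq : ∀ a ∈ X, a ^ 2 ∈ N := by
    intro a ha
    rcases ha with ha | ha
    · exact hB1N (hp1 a ha)
    · exact hB2N (hp2 a ha)
  have hle := sect_card_le hr hn (comm_mem_of_gens hn hcm) (sq_mem_of_gens hn hcm hsq)
  rw [hXcl] at hle
  refine le_trans (le_of_eq ?_) hle
  have hcard1 : Nat.card ↥(A₁ ⊔ A₂) = Nat.card A₁ * Nat.card A₂ := by
    have := CfsgH1.card_sup_mul_card_inf (H := A₁) (K := A₂) (le_normalizer_of_comm hc)
    rw [hinf, Subgroup.card_bot, mul_one] at this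
    exact this
  have hcard2 : Nat.card N = Nat.card B₁ * Nat.card B₂ := by
    have := CfsgH1.card_sup_mul_card_inf (H := B₁) (K := B₂) 
      (le_normalizer_of_comm fun a ha b hb => hc a (h1 ha) b (h2 hb))
    have h0 : B₁ ⊓ B₂ = ⊥ := by
      rw [eq_bot_iff, ← hinf]
      exact inf_le_inf h1 h2
    rw [h0, Subgroup.card_bot, mul_one] at this
    exact this
  have key : ∀ U V : Subgroup S, U ≤ V → Nat.card U * U.relIndex V = Nat.card V := by
    intro U V hUV
    rw [← Subgroup.card_mul_index (U.subgroupOf V)]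
    rw [Nat.card_congr (Subgroup.subgroupOfEquivOfLe hUV).toEquiv]
    rfl
  have e1 := key B₁ A₁ h1
  have e2 := key B₂ A₂ h2
  have e3 := key N (A₁ ⊔ A₂) (sup_le_sup h1 h2)
  rw [hcard1, hcard2, ← e1, ← e2] at e3
  have hpos : 0 < Nat.card B₁ * Nat.card B₂ := Nat.mul_pos Nat.card_pos Nat.card_pos
  apply Nat.eq_of_mul_eq_mul_left hpos
  rw [e3]; ring

/-- conjugate subgroup -/
abbrev cj (g : S) (P : Subgroup S) : Subgroup S := P.map (MulAut.conj g).toMonoidHom

theorem mem_cj {g : S} {P : Subgroup S} {x : S} : x ∈ cj g P ↔ g⁻¹ * x * g ∈ P := by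
  constructor
  · rintro ⟨y, hy, rfl⟩
    change g⁻¹ * (g * y * g⁻¹) * g ∈ P
    have e : g⁻¹ * (g * y * g⁻¹) * g = y := by group
    rw [e]; exact hy
  · intro h
    refine ⟨_, h, ?_⟩
    change g * (g⁻¹ * x * g) * g⁻¹ = x
    group

theorem center_map_eq {P : Subgroup S} {z : S} (hz : z ∈ P) (hc : ∀ a ∈ P, a * z = z * a) (hz2 : orderOf z = 2)
    (hZ : Nat.card (center P) = 2) : (center P).map P.subtype = zpowers z := by
  symm
  apply Subgroup.eq_of_le_of_card_ge
  · rw [zpowers_le]
    refine ⟨⟨z, hz⟩, ?_, rfl⟩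
    rw [SetLike.mem_coe, mem_center_iff]
    intro g
    exact Subtype.ext (hc g g.2)
  · rw [Nat.card_zpowers, hz2, Nat.card_congr ((center P).equivMapOfInjective P.subtype P.subtype_injective).symm.toEquiv, hZ]

theorem central_elem {P : Subgroup S} {z : S} (hz : z ∈ P) (hc : ∀ a ∈ P, a * z = z * a) (hz2 : orderOf z = 2)
    (hZ : Nat.card (center P) = 2) {y : S} (hy : y ∈ P) (hyc : ∀ a ∈ P, a * y = y * a) : y = 1 ∨ y = z := by
  have h1 : y ∈ (center P).map P.subtype := by
    refine ⟨⟨y, hy⟩, ?_, rfl⟩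
    rw [SetLike.mem_coe, mem_center_iff]
    intro g
    exact Subtype.ext (hyc g g.2)
  rw [center_map_eq hz hc hz2 hZ] at h1
  obtain ⟨k, rfl⟩ := mem_zpowers_iff.1 h1
  have hz3 : z ^ (2 : ℤ) = 1 := by
    have := pow_orderOf_eq_one z
    rw [hz2] at this
    exact_mod_cast this
  rcases Int.even_or_odd k with ⟨m, hm⟩ | ⟨m, hm⟩
  · left
    have : k = 2 * m := by omega
    rw [this, zpow_mul, hz3, one_zpow]
  · right
    rw [hm, zpow_add_one, zpow_mul, hz3, one_zpow, one_mul]

theorem zpowers_eq_order_two {a b : S} (ha : orderOf a = 2) (hb : orderOf b = 2) (h : zpowers a = zpowers b) : a = b := by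
  have h1 : a ∈ zpowers b := by rw [← h]; exact mem_zpowers a
  obtain ⟨k, hk⟩ := mem_zpowers_iff.1 h1
  have hz3 : b ^ (2 : ℤ) = 1 := by
    have := pow_orderOf_eq_one b
    rw [hb] at this
    exact_mod_cast this
  rcases Int.even_or_odd k with ⟨m, hm⟩ | ⟨m, hm⟩
  · exfalso
    have : k = 2 * m := by omega
    rw [this, zpow_mul, hz3, one_zpow] at hk
    rw [← hk, orderOf_one] at ha
    norm_num at ha
  · rw [hm, zpow_add_one, zpow_mul, hz3, one_zpow, one_mul] at hk
    exact hk.symm

theorem conj_swap {g : S} {P : Subgroup S} (hP : ¬ IsMulCommutative P) : ¬ IsMulCommutative (cj g P) := by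
  intro h
  apply hP
  refine ⟨⟨fun a b => Subtype.ext ?_⟩⟩
  have h1 := congrArg Subtype.val (h.is_comm.comm (⟨g * a * g⁻¹, ⟨a, a.2, rfl⟩⟩ : cj g P) ⟨g * b * g⁻¹, ⟨b, b.2, rfl⟩⟩)
  change (g * a * g⁻¹) * (g * b * g⁻¹) = (g * b * g⁻¹) * (g * a * g⁻¹) at h1
  change (a : S) * b = b * a
  calc (a : S) * b = g⁻¹ * ((g * a * g⁻¹) * (g * b * g⁻¹)) * g := by group
    _ = g⁻¹ * ((g * b * g⁻¹) * (g * a * g⁻¹)) * g := by rw [h1]
    _ = b * a := by group

theorem card_center_cj {g : S} {P : Subgroup S} : Nat.card (center (cj g P)) = Nat.card (center P) := by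
  let e : P ≃* cj g P := P.equivMapOfInjective (MulAut.conj g).toMonoidHom (MulAut.conj g).injective
  exact (Nat.card_congr (Subgroup.centerCongr e).toEquiv).symm

theorem rank_four_main (h2 : IsPGroup 2 S) (hr : SectionalPRankLE 2 4 S)
    (P : Subgroup S) (hP : ¬ IsMulCommutative P) (hZP : Nat.card (center P) = 2)
    {z : S} (hzP : z ∈ P) (hzc : ∀ a ∈ P, a * z = z * a) (hz2 : orderOf z = 2)
    (S₀ : Subgroup S) (hS₀ : S₀ = centralizer ({z} : Set S))
    (hPn : ∀ s ∈ S₀, ∀ x ∈ P, s * x * s⁻¹ ∈ P) (hne : S₀ ≠ ⊤) : 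
    SectionalPRankLE 2 2 P ∧ S₀.index = 2 := by
  haveI : Fact (Nat.Prime 2) := ⟨Nat.prime_two⟩
  have memS₀ : ∀ g, g ∈ S₀ ↔ g * z * g⁻¹ = z := by
    intro g
    rw [hS₀, mem_centralizer_singleton_iff, mul_inv_eq_iff_eq_mul]
  have hPS : P ≤ S₀ := by
    intro a ha
    rw [memS₀, hzc a ha, mul_inv_cancel_right]
  have hzS : z ∈ S₀ := hPS hzP
  have hzz : z * z = 1 := by
    have := pow_orderOf_eq_one z
    rw [hz2, pow_two] at this
    exact this
  have hz1 : z ≠ 1 := by
    rintro rfl
    rw [orderOf_one] at hz2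
    norm_num at hz2
  obtain ⟨N, hN⟩ : ∃ N, N = normalizer (S₀ : Set S) := ⟨_, rfl⟩
  have hS₀N : S₀ ≤ N := by rw [hN]; exact le_normalizer
  -- conjugates
  have hord : ∀ g : S, orderOf (g * z * g⁻¹) = 2 := by
    intro g
    have := MulEquiv.orderOf_eq (MulAut.conj g) z
    rw [← hz2, ← this]; rfl
  have hmemg : ∀ g : S, g * z * g⁻¹ ∈ cj g P := fun g => ⟨z, hzP, rfl⟩
  have hcg : ∀ g : S, ∀ a ∈ cj g P, a * (g * z * g⁻¹) = (g * z * g⁻¹) * a := by
    rintro g _ ⟨a, ha, rfl⟩
    change (g * a * g⁻¹) * (g * z * g⁻¹) = (g * z * g⁻¹) * (g * a * g⁻¹)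
    calc (g * a * g⁻¹) * (g * z * g⁻¹) = g * (a * z) * g⁻¹ := by group
      _ = g * (z * a) * g⁻¹ := by rw [hzc a ha]
      _ = _ := by group
  have hSg : ∀ g ∈ N, ∀ x, x ∈ S₀ ↔ g⁻¹ * x * g ∈ S₀ := by
    intro g hg x
    have h1 : g⁻¹ ∈ N := N.inv_mem hg
    rw [hN] at h1
    have h3 := mem_normalizer_iff.1 h1 x
    rw [inv_inv] at h3
    exact h3
  have hcjle : ∀ g ∈ N, cj g P ≤ S₀ := by
    rintro g hg x hx
    rw [mem_cj] at hx
    rw [hSg g hg]
    exact hPS hx
  have hcjn : ∀ g ∈ N, S₀ ≤ normalizer ((cj g P : Subgroup S) : Set S) := by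
    intro g hg
    have key : ∀ s ∈ S₀, ∀ x ∈ cj g P, s * x * s⁻¹ ∈ cj g P := by
      intro s hs x hx
      rw [mem_cj] at hx ⊢
      have h3 := hPn (g⁻¹ * s * g) ((hSg g hg s).1 hs) _ hx
      have e : (g⁻¹ * s * g) * (g⁻¹ * x * g) * (g⁻¹ * s * g)⁻¹ = g⁻¹ * (s * x * s⁻¹) * g := by group
      rwa [e] at h3
    intro s hs
    rw [mem_normalizer_iff]
    intro x
    refine ⟨key s hs x, fun hx => ?_⟩
    have := key s⁻¹ (S₀.inv_mem hs) _ hx
    have e : s⁻¹ * (s * x * s⁻¹) * s⁻¹⁻¹ = x := by group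
    rwa [e] at this
  -- distinct conjugates in `N`
  have pair : ∀ g ∈ N, ∀ h ∈ N, g * z * g⁻¹ ≠ h * z * h⁻¹ → cj g P ⊓ cj h P = ⊥ ∧ 
      (∀ a ∈ cj g P, ∀ b ∈ cj h P, a * b = b * a) ∧ centralizer ((cj g P ⊔ cj h P : Subgroup S) : Set S) ≤ cj g P ⊔ cj h P := by
    intro g hg h hh hgh
    have hZg : Nat.card (center (cj g P)) = 2 := by rw [card_center_cj, hZP]
    have hZh : Nat.card (center (cj h P)) = 2 := by rw [card_center_cj, hZP]
    have i1 : cj g P ⊓ cj h P = ⊥ := by
      apply inf_eq_bot_of_center (p := 2) h2 (hcjle g hg) (hcjle h hh) (hcjn g hg) (hcjn h hh) hZg hZh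
      rw [center_map_eq (hmemg g) (hcg g) (hord g) hZg, center_map_eq (hmemg h) (hcg h) (hord h) hZh]
      intro h3
      exact hgh (zpowers_eq_order_two (hord g) (hord h) h3)
    have i2 := commute_of_inf_bot ((hcjle g hg).trans (hcjn h hh)) ((hcjle h hh).trans (hcjn g hg)) i1
    exact ⟨i1, i2, cent_sup_le h2 hr (conj_swap hP) (conj_swap hP) hZg hZh i1 i2⟩
  have hcj1 : cj (1 : S) P = P := by
    ext x; rw [mem_cj]; simp
  have h1N : (1 : S) ∈ N := N.one_mem
  have hneg : ∀ g, g ∉ S₀ → (1 : S) * z * 1⁻¹ ≠ g * z * g⁻¹ := by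
    intro g hg h
    apply hg
    rw [memS₀, ← h]; simp
  -- existence of s
  obtain ⟨s, hsN, hs⟩ : ∃ s ∈ N, s ∉ S₀ := by rw [hN]; exact normalizer_gt h2 hne
  have hpair := pair 1 h1N s hsN (hneg s hs)
  rw [hcj1] at hpair
  obtain ⟨hPinf, hPcomm, hPcent⟩ := hpair
  refine ⟨?_, ?_⟩
  · -- the rank
    by_contra hcon
    obtain ⟨H, M, hMH, hMn, hc1, hc2, hc3⟩ := sect_card_ge hcon
    have hHP : H.map P.subtype ≤ P := Subgroup.map_subtype_le _
    have hle : (M.map P.subtype).relIndex (H.map P.subtype) * (cj s (M.map P.subtype)).relIndex (cj s (H.map P.subtype)) ≤ 2 ^ 4 := by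
      apply sect_prod hr (Subgroup.map_mono hMH) (Subgroup.map_mono (Subgroup.map_mono hMH))
      · intro a ha b hb
        exact hPcomm a (hHP ha) b (Subgroup.map_mono hHP hb)
      · rw [eq_bot_iff, ← hPinf]
        exact inf_le_inf hHP (Subgroup.map_mono hHP)
      · rintro _ ⟨a, ha, rfl⟩ _ ⟨b, hb, rfl⟩
        exact ⟨_, hc1 a ha b hb, by simp [map_commutatorElement]⟩
      · rintro _ ⟨_, ⟨a, ha, rfl⟩, rfl⟩ _ ⟨_, ⟨b, hb, rfl⟩, rfl⟩
        rw [← map_commutatorElement, ← map_commutatorElement]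
        exact ⟨_, ⟨_, hc1 a ha b hb, rfl⟩, rfl⟩
      · rintro _ ⟨a, ha, rfl⟩
        exact ⟨_, hc2 a ha, by simp⟩
      · rintro _ ⟨_, ⟨a, ha, rfl⟩, rfl⟩
        rw [← map_pow, ← map_pow]
        exact ⟨_, ⟨_, hc2 a ha, rfl⟩, rfl⟩
    have e1 : (cj s (M.map P.subtype)).relIndex (cj s (H.map P.subtype)) = (M.map P.subtype).relIndex (H.map P.subtype) :=
      Subgroup.relIndex_map_map_of_injective _ _ (MulAut.conj s).injective
    have e2 : (M.map P.subtype).relIndex (H.map P.subtype) = M.relIndex H :=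
      Subgroup.relIndex_map_map_of_injective _ _ P.subtype_injective
    rw [e1, e2] at hle
    nlinarith
  -- the index
  have claim2 : ∀ g ∈ N, ∀ h ∈ N, g ∉ S₀ → h ∉ S₀ → g * z * g⁻¹ = h * z * h⁻¹ := by
    intro g hg h hh hg' hh'
    by_contra hcon
    obtain ⟨-, c1, c1'⟩ := pair 1 h1N g hg (hneg g hg')
    obtain ⟨-, c2, -⟩ := pair 1 h1N h hh (hneg h hh')
    obtain ⟨-, c3, -⟩ := pair g hg h hh hcon
    rw [hcj1] at c1 c1' c2
    have h3 : cj h P ≤ centralizer ((P ⊔ cj g P : Subgroup S) : Set S) := by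
      intro x hx
      have h4 : P ⊔ cj g P ≤ centralizer ({x} : Set S) := by
        refine sup_le ?_ ?_
        · intro a ha
          rw [mem_centralizer_singleton_iff]
          exact c2 a ha x hx
        · intro a ha
          rw [mem_centralizer_singleton_iff]
          exact c3 a ha x hx
      rw [mem_centralizer_iff]
      intro a ha
      exact mem_centralizer_singleton_iff.1 (h4 ha)
    apply conj_swap (g := h) hP
    refine ⟨⟨fun a b => Subtype.ext ?_⟩⟩
    exact mem_centralizer_iff.1 (h3 b.2) a (c1' (h3 a.2))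
  have claim2' : ∀ g ∈ N, ∀ h ∈ N, g ∉ S₀ → h ∉ S₀ → g⁻¹ * h ∈ S₀ := by
    intro g hg h hh hg' hh'
    rw [memS₀]
    have h3 := claim2 g hg h hh hg' hh'
    calc g⁻¹ * h * z * (g⁻¹ * h)⁻¹ = g⁻¹ * (h * z * h⁻¹) * g := by group
      _ = g⁻¹ * (g * z * g⁻¹) * g := by rw [h3]
      _ = z := by group
  -- P and its conjugate are swapped by elements of `N` outside `S₀`
  have hcjeq : ∀ g ∈ N, g ∉ S₀ → cj g P = cj s P := by
    have hsub : ∀ g ∈ N, g ∉ S₀ → ∀ h ∈ N, h ∉ S₀ → cj g P ≤ cj h P := by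
      intro g hg hg' h hh hh' x hx
      rw [mem_cj] at hx ⊢
      have h3 := hPn _ (claim2' h hh g hg hh' hg') _ hx
      have e : h⁻¹ * g * (g⁻¹ * x * g) * (h⁻¹ * g)⁻¹ = h⁻¹ * x * h := by group
      rwa [e] at h3
    intro g hg hg'
    exact le_antisymm (hsub g hg hg' s hsN hs) (hsub s hsN hs g hg hg')
  have hNtop : N = ⊤ := by
    by_contra hNne
    obtain ⟨u, huN, hu⟩ := normalizer_gt h2 hNne
    obtain ⟨R, hR⟩ : ∃ R, R = P ⊔ cj s P := ⟨_, rfl⟩
    obtain ⟨w, hw⟩ : ∃ w, w = s * z * s⁻¹ := ⟨_, rfl⟩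
    have hwz : w ≠ z := fun h => hs ((memS₀ s).2 (by rw [← hw, h]))
    have hwP : w ∈ cj s P := by rw [hw]; exact hmemg s
    have hww : w * w = 1 := by
      rw [hw]
      calc s * z * s⁻¹ * (s * z * s⁻¹) = s * (z * z) * s⁻¹ := by group
        _ = 1 := by rw [hzz]; group
    have hzw : z * w = w * z := hPcomm z hzP w hwP
    -- conjugation by `N` on `{z, w}`
    have hNz : ∀ g ∈ N, g * z * g⁻¹ = z ∨ g * z * g⁻¹ = w := by
      intro g hg
      by_cases h : g ∈ S₀
      · exact Or.inl ((memS₀ g).1 h)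
      · right; rw [hw]; exact claim2 g hg s hsN h hs
    have hss : s * s ∈ S₀ := by
      have := claim2' s⁻¹ (N.inv_mem hsN) s hsN (fun h => hs (by simpa using S₀.inv_mem h)) hs
      rwa [inv_inv] at this
    have hNw0 : ∀ g ∈ S₀, g * w * g⁻¹ = w := by
      intro g hg
      have h3 := (hSg s hsN g).1 hg
      rw [memS₀] at h3
      rw [hw]
      calc g * (s * z * s⁻¹) * g⁻¹ = s * ((s⁻¹ * g * s) * z * (s⁻¹ * g * s)⁻¹) * s⁻¹ := by group
        _ = s * z * s⁻¹ := by rw [h3]
    have hNw1 : ∀ g ∈ N, g ∉ S₀ → g * w * g⁻¹ = z := by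
      intro g hg hg'
      have h3 : g * s ∈ S₀ := by
        have := claim2' g⁻¹ (N.inv_mem hg) s hsN (fun h => hg' (by simpa using S₀.inv_mem h)) hs
        rwa [inv_inv] at this
      rw [memS₀] at h3
      calc g * w * g⁻¹ = (g * s) * z * (g * s)⁻¹ := by rw [hw]; group
        _ = z := h3
    have hcentral : ∀ g ∈ N, g * (z * w) * g⁻¹ = z * w := by
      intro g hg
      have e : g * (z * w) * g⁻¹ = (g * z * g⁻¹) * (g * w * g⁻¹) := by group
      rw [e]
      by_cases h : g ∈ S₀
      · rw [(memS₀ g).1 h, hNw0 g h]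
      · rw [hNw1 g hg h, claim2 g hg s hsN h hs, ← hw, hzw]
    have hzw1 : z * w ≠ 1 := by
      intro h
      apply hwz
      calc w = (z * z) * w := by rw [hzz, one_mul]
        _ = z * (z * w) := by group
        _ = z := by rw [h, mul_one]
    -- conjugates by `u`
    have huN' : ∀ g, g ∈ N ↔ u⁻¹ * g * u ∈ N := by
      intro g
      have h1 : u⁻¹ ∈ normalizer (N : Set S) := Subgroup.inv_mem _ huN
      have h3 := mem_normalizer_iff.1 h1 g
      rw [inv_inv] at h3
      exact h3
    obtain ⟨t, ht⟩ : ∃ t, t = u * z * u⁻¹ := ⟨_, rfl⟩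
    obtain ⟨t', ht'⟩ : ∃ t', t' = u * w * u⁻¹ := ⟨_, rfl⟩
    have htN : t ∈ N := by
      rw [huN', ht]
      have e : u⁻¹ * (u * z * u⁻¹) * u = z := by group
      rw [e]; exact hS₀N hzS
    have htt : t * t = 1 := by
      rw [ht]
      calc u * z * u⁻¹ * (u * z * u⁻¹) = u * (z * z) * u⁻¹ := by group
        _ = 1 := by rw [hzz]; group
    have ht1 : t ≠ 1 := by
      intro h
      apply hz1
      have : z = u⁻¹ * t * u := by rw [ht]; group
      rw [this, h]; group
    have hNt : ∀ g ∈ N, g * t * g⁻¹ = t ∨ g * t * g⁻¹ = t' := by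
      intro g hg
      have h3 : g * t * g⁻¹ = u * ((u⁻¹ * g * u) * z * (u⁻¹ * g * u)⁻¹) * u⁻¹ := by rw [ht]; group
      rcases hNz _ ((huN' g).1 hg) with h | h
      · left; rw [h3, h, ht]
      · right; rw [h3, h, ht']
    have hcentral' : ∀ g ∈ N, g * (t * t') = (t * t') * g := by
      intro g hg
      have h3 := hcentral _ ((huN' g).1 hg)
      have e : t * t' = u * (z * w) * u⁻¹ := by rw [ht, ht']; group
      have h4 : g * (t * t') * g⁻¹ = t * t' := by
        rw [e]
        calc g * (u * (z * w) * u⁻¹) * g⁻¹ = u * ((u⁻¹ * g * u) * (z * w) * (u⁻¹ * g * u)⁻¹) * u⁻¹ := by group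
          _ = _ := by rw [h3]
      exact mul_inv_eq_iff_eq_mul.1 h4
    have htt'1 : t * t' ≠ 1 := by
      intro h
      apply hzw1
      have e : z * w = u⁻¹ * (t * t') * u := by rw [ht, ht']; group
      rw [e, h]; group
    have hsz : s * z ≠ z * s := fun h => hs ((memS₀ s).2 (by rw [h, mul_inv_cancel_right]))
    have htt'c : t * t' = t' * t := by
      rw [ht, ht']
      calc u * z * u⁻¹ * (u * w * u⁻¹) = u * (z * w) * u⁻¹ := by group
        _ = u * (w * z) * u⁻¹ := by rw [hzw]
        _ = _ := by group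
    have hPN : P ≤ N := hPS.trans hS₀N
    have hcsN : cj s P ≤ N := (hcjle s hsN).trans hS₀N
    by_cases htS : t ∈ S₀
    · -- case A
      have hZs : Nat.card (center (cj s P)) = 2 := by rw [card_center_cj, hZP]
      have hcommP : ∀ a ∈ P, a * t = t * a := by
        intro a ha
        rcases hNt a (hPN ha) with h | h
        · exact mul_inv_eq_iff_eq_mul.1 h
        · exfalso
          have h3 : t * t' ∈ P := by
            have h4 : t * a⁻¹ * t⁻¹ ∈ P := hPn t htS _ (P.inv_mem ha)
            have h5 := P.mul_mem ha h4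
            have e : a * (t * a⁻¹ * t⁻¹) = (a * t * a⁻¹) * t⁻¹ := by group
            rw [e, h] at h5
            have e2 : t⁻¹ = t := inv_eq_of_mul_eq_one_left htt
            rwa [e2, ← htt'c] at h5
          rcases central_elem hzP hzc hz2 hZP h3 (fun b hb => hcentral' b (hPN hb)) with h4 | h4
          · exact htt'1 h4
          · apply hsz
            rw [← h4]
            exact hcentral' s hsN
      have hcommPs : ∀ a ∈ cj s P, a * t = t * a := by
        intro a ha
        rcases hNt a (hcsN ha) with h | h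
        · exact mul_inv_eq_iff_eq_mul.1 h
        · exfalso
          have h3 : t * t' ∈ cj s P := by
            have h4 : t * a⁻¹ * t⁻¹ ∈ cj s P := (mem_normalizer_iff.1 (hcjn s hsN htS) _).1 ((cj s P).inv_mem ha)
            have h5 := (cj s P).mul_mem ha h4
            have e : a * (t * a⁻¹ * t⁻¹) = (a * t * a⁻¹) * t⁻¹ := by group
            rw [e, h] at h5
            have e2 : t⁻¹ = t := inv_eq_of_mul_eq_one_left htt
            rwa [e2, ← htt'c] at h5
          rcases central_elem (hmemg s) (hcg s) (hord s) hZs h3 (fun b hb => hcentral' b (hcsN hb)) with h4 | h4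
          · exact htt'1 h4
          · apply hsz
            have h5 := hcentral' s hsN
            rw [h4] at h5
            have h6 : s * z = z * s := by
              calc s * z = (s * z * s⁻¹) * s := by group
                _ = s⁻¹ * (s * (s * z * s⁻¹)) * s := by group
                _ = s⁻¹ * ((s * z * s⁻¹) * s) * s := by rw [h5]
                _ = z * s := by group
            exact h6
      have htR : t ∈ P ⊔ cj s P := by
        apply hPcent
        have h4 : P ⊔ cj s P ≤ centralizer ({t} : Set S) := by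
          refine sup_le ?_ ?_
          · intro a ha
            rw [mem_centralizer_singleton_iff]
            exact hcommP a ha
          · intro a ha
            rw [mem_centralizer_singleton_iff]
            exact hcommPs a ha
        rw [mem_centralizer_iff]
        intro a ha
        exact mem_centralizer_singleton_iff.1 (h4 ha)
      obtain ⟨a, ha, b, hb, hab⟩ := (CfsgH1.mem_sup_of_le_normalizer (le_normalizer_of_comm hPcomm)).1 htR
      have haZ := central_elem hzP hzc hz2 hZP ha (fun g hg => by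
        have h3 := hcommP g hg
        rw [← hab] at h3
        have h4 := hPcomm g hg b hb
        have h5 : g * a * b = a * g * b := by
          rw [mul_assoc, h3, mul_assoc, mul_assoc, h4]
        exact mul_right_cancel h5)
      have hbZ := central_elem (hmemg s) (hcg s) (hord s) hZs hb (fun g hg => by
        have h3 := hcommPs g hg
        rw [← hab] at h3
        have h4 := hPcomm a ha g hg
        have h5 : a * (g * b) = a * (b * g) := by
          rw [← mul_assoc, h4, mul_assoc, h3, mul_assoc]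
        exact mul_left_cancel h5)
      rw [← hw] at hbZ
      have hcases : t = z ∨ t = w ∨ t = z * w := by
        rcases haZ with rfl | rfl <;> rcases hbZ with rfl | rfl
        · exfalso; apply ht1; rw [← hab, mul_one]
        · right; left; rw [← hab, one_mul]
        · left; rw [← hab, mul_one]
        · right; right; exact hab.symm
      rcases hcases with h | h | h
      · apply hu
        apply hS₀N
        rw [memS₀, ← ht, h]
      · apply hu
        have h3 : s⁻¹ * u ∈ S₀ := by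
          rw [memS₀]
          calc s⁻¹ * u * z * (s⁻¹ * u)⁻¹ = s⁻¹ * (u * z * u⁻¹) * s := by group
            _ = s⁻¹ * w * s := by rw [← ht, h]
            _ = z := by rw [hw]; group
        have h4 := N.mul_mem hsN (hS₀N h3)
        rwa [mul_inv_cancel_left] at h4
      · -- `t` central in `N`
        have h3 : ∀ g ∈ N, g * t * g⁻¹ = t := by
          intro g hg
          rw [h]; exact hcentral g hg
        -- so `z` is central in `N`
        apply hs
        rw [memS₀]
        have h4 : u * s * u⁻¹ ∈ N := by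
          rw [huN']
          have e : u⁻¹ * (u * s * u⁻¹) * u = s := by group
          rw [e]; exact hsN
        have h5 := h3 _ h4
        rw [ht] at h5
        calc s * z * s⁻¹ = u⁻¹ * ((u * s * u⁻¹) * (u * z * u⁻¹) * (u * s * u⁻¹)⁻¹) * u := by group
          _ = u⁻¹ * (u * z * u⁻¹) * u := by rw [h5]
          _ = z := by group
    · -- case B
      apply hP
      have hPt : cj t P = cj s P := hcjeq t htN htS
      have hsq : ∀ a ∈ P, a * a = 1 := by
        intro a ha
        obtain ⟨b, hb⟩ : ∃ b, b = t * a⁻¹ * t⁻¹ := ⟨_, rfl⟩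
        have hbP : b ∈ cj s P := by
          rw [← hPt, mem_cj, hb]
          have e : t⁻¹ * (t * a⁻¹ * t⁻¹) * t = a⁻¹ := by group
          rw [e]; exact P.inv_mem ha
        have hti : t⁻¹ = t := inv_eq_of_mul_eq_one_left htt
        -- the commutator commutes with `t`
        have hx : a * b = 1 ∨ a * b = t' * t := by
          have e : a * b = (a * t * a⁻¹) * t⁻¹ := by rw [hb]; group
          rcases hNt a (hPN ha) with h | h
          · left; rw [e, h, mul_inv_cancel]
          · right; rw [e, h, hti]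
        have hxt : t * (a * b) * t⁻¹ = a * b := by
          rcases hx with h | h
          · rw [h]; group
          · rw [h, ← htt'c, mul_inv_eq_iff_eq_mul]
            exact hcentral' t htN
        have e1 : t * (a * b) * t⁻¹ = b⁻¹ * a⁻¹ := by
          calc t * (a * b) * t⁻¹ = (t * a * t⁻¹) * (t * b * t⁻¹) := by group
            _ = b⁻¹ * ((t * t) * a⁻¹ * (t * t)⁻¹) := by rw [hb]; group
            _ = b⁻¹ * a⁻¹ := by rw [htt]; group
        rw [e1] at hxt
        have hcab := hPcomm a ha b hbP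
        have h3 : a * a = b⁻¹ * b⁻¹ := by
          have h4 : a⁻¹ = b * (a * b) := by rw [← hxt]; group
          calc a * a = b⁻¹ * (b * a) * a := by group
            _ = b⁻¹ * (a * b) * a := by rw [hcab]
            _ = b⁻¹ * (b⁻¹ * (b * (a * b))) * a := by group
            _ = b⁻¹ * b⁻¹ * (a⁻¹ * a) := by rw [← h4]; group
            _ = b⁻¹ * b⁻¹ := by group
        have h4 : a * a ∈ P ⊓ cj s P := by
          refine mem_inf.2 ⟨P.mul_mem ha ha, ?_⟩
          rw [h3]
          exact (cj s P).mul_mem ((cj s P).inv_mem hbP) ((cj s P).inv_mem hbP)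
        rw [hPinf, mem_bot] at h4
        exact h4
      refine ⟨⟨fun a b => Subtype.ext ?_⟩⟩
      have i1 := hsq a a.2
      have i2 := hsq b b.2
      have i3 := hsq (a * b) (P.mul_mem a.2 b.2)
      change (a : S) * b = b * a
      calc (a : S) * b = a * b * ((a * a) * (b * b)) := by rw [i1, i2]; group
        _ = a * (b * a) * a * b * b := by group
        _ = (a * a) * (b * b) * (b * a) := by
          have i4 : (b : S) * a = a * b := by
            calc (b : S) * a = (a * a) * (b * a) * (b * b) := by rw [i1, i2]; group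
              _ = a * ((a * b) * (a * b)) * b := by group
              _ = a * b := by rw [i3]; group
          calc (a : S) * (b * a) * a * b * b = a * (a * b) * a * b * b := by rw [i4]
            _ = a * a * (b * a) * b * b := by group
            _ = a * a * (a * b) * b * b := by rw [i4]
            _ = (a * a) * a * (b * b) * b := by group
            _ = a * b := by rw [i1, i2]; group
            _ = (a * a) * (b * b) * (b * a) := by rw [i1, i2, i4]; group
        _ = b * a := by rw [i1, i2]; group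
  rw [Subgroup.index_eq_two_iff]
  refine ⟨s⁻¹, fun b => ?_⟩
  by_cases hb : b ∈ S₀
  · right
    refine ⟨hb, fun h => hs ?_⟩
    have := S₀.mul_mem (S₀.inv_mem h) hb
    have e : (b * s⁻¹)⁻¹ * b = s := by group
    rwa [e] at this
  · left
    refine ⟨?_, hb⟩
    have := claim2' b⁻¹ (by rw [hNtop]; trivial) s⁻¹ (by rw [hNtop]; trivial) (fun h => hb (by simpa using S₀.inv_mem h))
      (fun h => hs (by simpa using S₀.inv_mem h))
    rwa [inv_inv] at this

end CfsgH3
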