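import Cfsg.Agent.H3.SylIdx
import Cfsg.Agent.H1.CoprimeSylow
import Cfsg.Agent.H1.Coprime
import Cfsg.Agent.H1.ConjAct

/-! Numbers of Sylow subgroups, part 2: M. Hall's product formulas. -/

set_option autoImplicit false
open Subgroup

namespace CfsgH3

variable {G : Type*} [Group G] {p : ℕ}

theorem card_sylow_index [Finite G] [hp : Fact p.Prime] (P : Sylow p G) :
    Nat.card (Sylow p G) = (normalizer ((P : Subgroup G) : Set G)).index := Sylow.card_eq_index_normalizer P

theorem card_sylow_congr {H K : Type*} [Group H] [Group K] [Finite H] [Finite K] (p : ℕ) [Fact p.Prime] (e : H ≃* K) :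
    Nat.card (Sylow p H) = Nat.card (Sylow p K) := by
  let P : Sylow p H := default
  have h1 := card_sylow_index P
  have hinj : Function.Injective e.toMonoidHom := e.injective
  have h2 : ¬ p ∣ ((P : Subgroup H).map e.toMonoidHom).index := by
    have : ((P : Subgroup H).map e.toMonoidHom).index = (P : Subgroup H).index := Subgroup.index_map_equiv _ e
    rw [this]; exact P.not_dvd_index
  let Q : Sylow p K := (P.2.map e.toMonoidHom).toSylow h2
  have h3 := card_sylow_index Q
  have h4 : normalizer ((Q : Subgroup K) : Set K) = (normalizer ((P : Subgroup H) : Set H)).map e.toMonoidHom := by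
    ext x
    constructor
    · intro hx
      refine ⟨e.symm x, ?_, by simp⟩
      rw [SetLike.mem_coe, mem_normalizer_iff]
      intro y
      have h5 := mem_normalizer_iff.1 hx (e y)
      have h6 : e y ∈ (Q : Subgroup K) ↔ y ∈ (P : Subgroup H) := by
        constructor
        · rintro ⟨z, hz, hzy⟩
          have : z = y := e.injective hzy
          rwa [← this]
        · intro hy; exact ⟨y, hy, rfl⟩
      have h7 : x * e y * x⁻¹ ∈ (Q : Subgroup K) ↔ e.symm x * y * (e.symm x)⁻¹ ∈ (P : Subgroup H) := by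
        constructor
        · rintro ⟨z, hz, hzy⟩
          have : z = e.symm x * y * (e.symm x)⁻¹ := by
            apply e.injective
            rw [map_mul, map_mul, map_inv, e.apply_symm_apply]
            exact hzy
          rwa [← this]
        · intro hy
          refine ⟨_, hy, ?_⟩
          change e (e.symm x * y * (e.symm x)⁻¹) = _
          rw [map_mul, map_mul, map_inv, e.apply_symm_apply]
      rw [h6, h7] at h5
      exact h5
    · rintro ⟨w, hw, rfl⟩
      rw [mem_normalizer_iff]
      intro y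
      have h5 := mem_normalizer_iff.1 hw (e.symm y)
      have h6 : ∀ z : K, z ∈ (Q : Subgroup K) ↔ e.symm z ∈ (P : Subgroup H) := by
        intro z
        constructor
        · rintro ⟨v, hv, rfl⟩
          change e.symm (e v) ∈ _
          rw [e.symm_apply_apply]; exact hv
        · intro hz
          exact ⟨_, hz, e.apply_symm_apply z⟩
      rw [h6, h6, h5]
      change _ ↔ e.symm (e w * y * (e w)⁻¹) ∈ _
      rw [map_mul, map_mul, map_inv, e.symm_apply_apply]
  rw [h1, h3, h4]
  exact (Subgroup.index_map_equiv _ e).symm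

/-- `n_p(G) = n_p(G/K) n_p(PK)` -/
theorem card_sylow_quot_mul [Finite G] [hp : Fact p.Prime] (K : Subgroup G) [hK : K.Normal] (P : Sylow p G) :
    Nat.card (Sylow p G) = Nat.card (Sylow p (G ⧸ K)) * Nat.card (Sylow p ↥((P : Subgroup G) ⊔ K)) := by
  set π := QuotientGroup.mk' K with hπ
  have hs : Function.Surjective π := QuotientGroup.mk'_surjective K
  let Q : Sylow p (G ⧸ K) := P.mapSurjective hs
  have hQ : (Q : Subgroup (G ⧸ K)) = (P : Subgroup G).map π := rfl
  have hPK : ((P : Subgroup G).map π).comap π = (P : Subgroup G) ⊔ K := by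
    rw [Subgroup.comap_map_eq, QuotientGroup.ker_mk']
  obtain ⟨M, hM⟩ : ∃ M, M = (normalizer ((Q : Subgroup (G ⧸ K)) : Set (G ⧸ K))).comap π := ⟨_, rfl⟩
  have hMidx : M.index = Nat.card (Sylow p (G ⧸ K)) := by
    rw [hM, Subgroup.index_comap_of_surjective _ hs, card_sylow_index Q]
  have hMn : M = normalizer (((P : Subgroup G) ⊔ K : Subgroup G) : Set G) := by
    rw [hM, hQ, ← hPK]
    exact Subgroup.comap_normalizer_eq_of_surjective _ hs
  have hle : normalizer ((P : Subgroup G) : Set G) ≤ M := by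
    rw [hMn]
    intro x hx
    rw [mem_normalizer_iff]
    have key : ∀ x ∈ normalizer ((P : Subgroup G) : Set G), ∀ y ∈ (P : Subgroup G) ⊔ K, x * y * x⁻¹ ∈ (P : Subgroup G) ⊔ K := by
      intro x hx y hy
      obtain ⟨a, ha, k, hk, rfl⟩ := Subgroup.mem_sup_of_normal_right.1 hy
      have e : x * (a * k) * x⁻¹ = (x * a * x⁻¹) * (x * k * x⁻¹) := by group
      rw [e]
      exact Subgroup.mul_mem _ (Subgroup.mem_sup_left ((mem_normalizer_iff.1 hx a).1 ha)) (Subgroup.mem_sup_right (hK.conj_mem k hk x))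
    intro y
    refine ⟨key x hx y, fun hy => ?_⟩
    have := key x⁻¹ (Subgroup.inv_mem _ hx) _ hy
    have e : x⁻¹ * (x * y * x⁻¹) * x⁻¹⁻¹ = y := by group
    rwa [e] at this
  have h1 := card_sylow_eq_index_mul P hle
  have hXM : (P : Subgroup G) ⊔ K ≤ M := by rw [hMn]; exact le_normalizer
  have hXn : (((P : Subgroup G) ⊔ K).subgroupOf M).Normal := by
    apply Subgroup.normal_subgroupOf_of_le_normalizer
    rw [hMn]
  have hndvd : ¬ p ∣ (((P : Subgroup G) ⊔ K).subgroupOf M).index := by
    intro h2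
    apply P.not_dvd_index
    have h3 : ((P : Subgroup G) ⊔ K).relIndex M ∣ ((P : Subgroup G) ⊔ K).index := Subgroup.relIndex_dvd_index_of_le hXM
    exact (h2.trans h3).trans (Subgroup.index_dvd_of_le le_sup_left)
  have h2 := card_sylow_of_normal (((P : Subgroup G) ⊔ K).subgroupOf M) hndvd
  rw [h1, hMidx, ← h2, card_sylow_congr p (Subgroup.subgroupOfEquivOfLe hXM), mul_comm]

theorem inf_sylow_normal [Finite G] [hp : Fact p.Prime] (K : Subgroup G) [hK : K.Normal] (P : Sylow p G) :
    ¬ p ∣ ((P : Subgroup G) ⊓ K).relIndex K := by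
  have h1 : ((P : Subgroup G) ⊓ K).relIndex K = (P : Subgroup G).relIndex K := Subgroup.inf_relIndex_right _ _
  rw [h1]
  have h2 : (P : Subgroup G).relIndex K = (P : Subgroup G).relIndex ((P : Subgroup G) ⊔ K) := by
    rw [sup_comm]
    have e1 : Nat.card (P : Subgroup G) * (P : Subgroup G).relIndex (K ⊔ (P : Subgroup G)) = Nat.card ↥(K ⊔ (P : Subgroup G)) := by
      rw [← Subgroup.card_mul_index ((P : Subgroup G).subgroupOf (K ⊔ (P : Subgroup G)))]
      rw [Nat.card_congr (Subgroup.subgroupOfEquivOfLe (le_sup_right : (P : Subgroup G) ≤ K ⊔ P)).toEquiv]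
      rfl
    have e2 := CfsgH1.card_sup_mul_card_inf (H := (P : Subgroup G)) (K := K) (by rw [Subgroup.normalizer_eq_top_iff.2 hK]; exact le_top)
    have e3 : Nat.card ↥((P : Subgroup G) ⊓ K) * (P : Subgroup G).relIndex K = Nat.card K := by
      rw [← Subgroup.inf_relIndex_right (P : Subgroup G) K]
      rw [← Subgroup.card_mul_index (((P : Subgroup G) ⊓ K).subgroupOf K)]
      rw [Nat.card_congr (Subgroup.subgroupOfEquivOfLe (inf_le_right : (P : Subgroup G) ⊓ K ≤ K)).toEquiv]
      rfl
    rw [sup_comm, ← e1, ← e3] at e2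
    have hpos : 0 < Nat.card (P : Subgroup G) * Nat.card ↥((P : Subgroup G) ⊓ K) := Nat.mul_pos Nat.card_pos Nat.card_pos
    apply Nat.eq_of_mul_eq_mul_left hpos
    calc _ = Nat.card (P : Subgroup G) * (Nat.card ↥((P : Subgroup G) ⊓ K) * (P : Subgroup G).relIndex K) := by ring
      _ = Nat.card (P : Subgroup G) * (P : Subgroup G).relIndex (K ⊔ (P : Subgroup G)) * Nat.card ↥((P : Subgroup G) ⊓ K) := e2.symm
      _ = _ := by ring
  rw [h2]
  intro h3
  apply P.not_dvd_index
  exact h3.trans (Subgroup.relIndex_dvd_index_of_le le_sup_left)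

/-- `n_p(PK) = n_p(K) n_p(N)` with `N = N_{PK}(P ∩ K)` -/
theorem card_sylow_sup_mul [Finite G] [hp : Fact p.Prime] (K : Subgroup G) [hK : K.Normal] (P : Sylow p G) {N : Subgroup G}
    (hN : N = ((P : Subgroup G) ⊔ K) ⊓ normalizer (((P : Subgroup G) ⊓ K : Subgroup G) : Set G)) :
    Nat.card (Sylow p ↥((P : Subgroup G) ⊔ K)) = Nat.card (Sylow p K) * Nat.card (Sylow p N) := by
  obtain ⟨X, hX⟩ : ∃ X, X = (P : Subgroup G) ⊔ K := ⟨_, rfl⟩
  rw [← hX] at hN ⊢
  have hPX : (P : Subgroup G) ≤ X := by rw [hX]; exact le_sup_left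
  have hKX : K ≤ X := by rw [hX]; exact le_sup_right
  have hNX : N ≤ X := by rw [hN]; exact inf_le_left
  have hPN : (P : Subgroup G) ≤ N := by
    rw [hN]
    refine le_inf hPX ?_
    intro x hx
    rw [mem_normalizer_iff]
    intro y
    rw [mem_inf, mem_inf]
    refine and_congr (mem_normalizer_iff.1 (le_normalizer hx) y) ?_
    constructor
    · intro h; exact hK.conj_mem y h x
    · intro h
      have := hK.conj_mem _ h x⁻¹
      have e : x⁻¹ * (x * y * x⁻¹) * x⁻¹⁻¹ = y := by group
      rwa [e] at this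
  let PX : Sylow p X := P.subtype hPX
  have hPXn : normalizer ((PX : Subgroup X) : Set X) ≤ N.subgroupOf X := by
    intro x hx
    rw [mem_subgroupOf, hN]
    refine mem_inf.2 ⟨x.2, ?_⟩
    have key : ∀ y : G, y ∈ (P : Subgroup G) ↔ (x : G) * y * (x : G)⁻¹ ∈ (P : Subgroup G) := by
      intro y
      by_cases hy : y ∈ X
      · exact mem_normalizer_iff.1 hx ⟨y, hy⟩
      · constructor
        · intro h; exact absurd (hPX h) hy
        · intro h
          exfalso
          apply hy
          have h1 := hPX h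
          have h2 := X.mul_mem (X.mul_mem (X.inv_mem x.2) h1) x.2
          have e : (x : G)⁻¹ * (x * y * (x : G)⁻¹) * x = y := by group
          rwa [e] at h2
    rw [mem_normalizer_iff]
    intro y
    rw [mem_inf, mem_inf]
    refine and_congr (key y) ?_
    constructor
    · intro h; exact hK.conj_mem y h x
    · intro h
      have := hK.conj_mem _ h (x : G)⁻¹
      have e : (x : G)⁻¹ * (x * y * (x : G)⁻¹) * (x : G)⁻¹⁻¹ = y := by group
      rwa [e] at this
  have h1 := card_sylow_eq_index_mul PX hPXn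
  rw [card_sylow_congr p (Subgroup.subgroupOfEquivOfLe hNX)] at h1
  rw [h1, mul_comm]
  congr 1
  -- the index of `N` in `X` is the number of Sylow subgroups of `K`
  have hPKp : IsPGroup p (((P : Subgroup G) ⊓ K).subgroupOf K) := by
    have : IsPGroup p ↥((P : Subgroup G) ⊓ K) := P.2.to_le inf_le_left
    exact this.comap_of_injective K.subtype K.subtype_injective
  let P0 : Sylow p K := hPKp.toSylow (inf_sylow_normal K P)
  have hP0 : Nat.card (Sylow p K) = (N ⊓ K).relIndex K := by
    rw [card_sylow_index P0]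
    change (normalizer ((((P : Subgroup G) ⊓ K).subgroupOf K : Subgroup K) : Set K)).index = _
    rw [← Subgroup.subgroupOf_normalizer_eq inf_le_right, Subgroup.relIndex]
    congr 1
    ext x
    rw [mem_subgroupOf, mem_subgroupOf, mem_inf, hN, mem_inf]
    constructor
    · intro h; exact ⟨⟨hKX x.2, h⟩, x.2⟩
    · intro h; exact h.1.2
  -- Frattini argument
  have hsup : N ⊔ K = X := by
    apply le_antisymm (sup_le hNX hKX)
    rw [hX]
    exact sup_le (hPN.trans le_sup_left) le_sup_right
  have e1 : Nat.card N * N.relIndex X = Nat.card X := by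
    rw [← Subgroup.card_mul_index (N.subgroupOf X)]
    rw [Nat.card_congr (Subgroup.subgroupOfEquivOfLe hNX).toEquiv]
    rfl
  have e2 := CfsgH1.card_sup_mul_card_inf (H := N) (K := K) (by rw [Subgroup.normalizer_eq_top_iff.2 hK]; exact le_top)
  have e3 : Nat.card ↥(N ⊓ K) * (N ⊓ K).relIndex K = Nat.card K := by
    rw [← Subgroup.card_mul_index ((N ⊓ K).subgroupOf K)]
    rw [Nat.card_congr (Subgroup.subgroupOfEquivOfLe (inf_le_right : N ⊓ K ≤ K)).toEquiv]
    rfl
  rw [hsup, ← e1, ← e3] at e2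
  change N.relIndex X = _
  rw [hP0]
  have hpos : 0 < Nat.card N * Nat.card ↥(N ⊓ K) := Nat.mul_pos Nat.card_pos Nat.card_pos
  apply Nat.eq_of_mul_eq_mul_left hpos
  calc _ = Nat.card N * N.relIndex X * Nat.card ↥(N ⊓ K) := by ring
    _ = _ := e2
    _ = _ := by ring

/-- quotient by a normal `p`-subgroup does not change the number of Sylow `p`-subgroups -/
theorem card_sylow_quot_pgroup [Finite G] [hp : Fact p.Prime] (K : Subgroup G) [hK : K.Normal] (hKp : IsPGroup p K) :
    Nat.card (Sylow p (G ⧸ K)) = Nat.card (Sylow p G) := by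
  apply card_sylow_quotient
  intro P
  have h1 : K ≤ (P : Subgroup G) := by
    have h2 : IsPGroup p ↥((P : Subgroup G) ⊔ K) := P.2.to_sup_of_normal_right hKp
    have h3 := P.3 h2 le_sup_left
    rw [← h3]; exact le_sup_right
  exact h1.trans le_normalizer

/-- the `ℓ`-part of the number of Sylow `p`-subgroups of an extension of a `p'`-group by a `p`-group -/
theorem ell_part [Finite G] [hp : Fact p.Prime] {ℓ : ℕ} (hℓ : ℓ.Prime) (K : Subgroup G) [hK : K.Normal] (P : Sylow p G)
    (htop : (P : Subgroup G) ⊔ K = ⊤) (hKp : ¬ p ∣ Nat.card K) :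
    ℓ ^ (Nat.card (Sylow p G)).factorization ℓ ≡ 1 [MOD p] := by
  haveI := Fact.mk hℓ
  -- the number is the index of `C_K(P)` in `K`
  have hPK : (P : Subgroup G) ≤ normalizer (K : Set G) := by
    rw [Subgroup.normalizer_eq_top_iff.2 hK]; exact le_top
  have hcop : (Nat.card (P : Subgroup G)).Coprime (Nat.card K) := by
    obtain ⟨n, hn⟩ := IsPGroup.iff_card.1 P.2
    rw [hn]; exact Nat.Coprime.pow_left n ((Nat.Prime.coprime_iff_not_dvd hp.out).2 hKp)
  have hsolv : Group.IsSolvable (P : Subgroup G) ∨ Group.IsSolvable K := by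
    left
    haveI := P.2.isNilpotent
    infer_instance
  have hinf : (P : Subgroup G) ⊓ K = ⊥ := CfsgH1.inf_eq_bot_of_coprime hcop
  have hnum : Nat.card (Sylow p G) = (K ⊓ centralizer ((P : Subgroup G) : Set G)).relIndex K := by
    have h1 := card_sylow_sup_mul K P rfl
    -- direct computation
    obtain ⟨N, hN⟩ : ∃ N, N = normalizer ((P : Subgroup G) : Set G) := ⟨_, rfl⟩
    have hNK : N ⊓ K = K ⊓ centralizer ((P : Subgroup G) : Set G) := by
      apply le_antisymm
      · intro x hx
        refine mem_inf.2 ⟨(mem_inf.1 hx).2, ?_⟩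
        rw [mem_centralizer_iff]
        intro y hy
        have hxN := (mem_inf.1 hx).1
        rw [hN] at hxN
        have h2 : y * x * y⁻¹ * x⁻¹ ∈ (P : Subgroup G) ⊓ K := by
          refine mem_inf.2 ⟨?_, ?_⟩
          · have h3 := (mem_normalizer_iff.1 hxN y⁻¹).1 ((P : Subgroup G).inv_mem hy)
            have e : y * x * y⁻¹ * x⁻¹ = y * (x * y⁻¹ * x⁻¹) := by group
            rw [e]; exact (P : Subgroup G).mul_mem hy h3
          · exact K.mul_mem (hK.conj_mem x (mem_inf.1 hx).2 y) (K.inv_mem (mem_inf.1 hx).2)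
        rw [hinf, mem_bot] at h2
        calc y * x = (y * x * y⁻¹ * x⁻¹) * (x * y) := by group
          _ = x * y := by rw [h2, one_mul]
      · intro x hx
        refine mem_inf.2 ⟨?_, (mem_inf.1 hx).1⟩
        rw [hN]
        exact Subgroup.centralizer_le_normalizer _ (mem_inf.1 hx).2
    have hsup : N ⊔ K = ⊤ := by
      rw [eq_top_iff, ← htop]
      exact sup_le_sup_right (by rw [hN]; exact le_normalizer) _
    rw [card_sylow_index P, ← hN, ← hNK]
    have e1 := Subgroup.card_mul_index N
    have e2 := CfsgH1.card_sup_mul_card_inf (H := N) (K := K) (by rw [Subgroup.normalizer_eq_top_iff.2 hK]; exact le_top)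
    have e3 : Nat.card ↥(N ⊓ K) * (N ⊓ K).relIndex K = Nat.card K := by
      rw [← Subgroup.card_mul_index ((N ⊓ K).subgroupOf K)]
      rw [Nat.card_congr (Subgroup.subgroupOfEquivOfLe (inf_le_right : N ⊓ K ≤ K)).toEquiv]
      rfl
    rw [hsup, Subgroup.card_top, ← e1, ← e3] at e2
    have hpos : 0 < Nat.card N * Nat.card ↥(N ⊓ K) := Nat.mul_pos Nat.card_pos Nat.card_pos
    apply Nat.eq_of_mul_eq_mul_left hpos
    calc _ = Nat.card N * N.index * Nat.card ↥(N ⊓ K) := by ring
      _ = _ := e2
      _ = _ := by ring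
  rw [hnum]
  obtain ⟨C, hC⟩ : ∃ C, C = K ⊓ centralizer ((P : Subgroup G) : Set G) := ⟨_, rfl⟩
  rw [← hC]
  have hCK : C ≤ K := by rw [hC]; exact inf_le_left
  -- a Sylow `ℓ`-subgroup of `C`, inside an invariant one of `K`
  obtain ⟨R, hR⟩ := CfsgH1.exists_isSylowOf (G := G) ℓ C
  have hR' := CfsgH1.isSylowOf_iff.1 hR
  have hPR : (P : Subgroup G) ≤ normalizer (R : Set G) := by
    have h1 : (P : Subgroup G) ≤ centralizer (R : Set G) := by
      intro x hx
      rw [mem_centralizer_iff]
      intro y hy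
      have h2 := hR'.1 hy
      rw [hC] at h2
      exact (mem_centralizer_iff.1 (mem_inf.1 h2).2 x hx).symm
    exact h1.trans (Subgroup.centralizer_le_normalizer _)
  obtain ⟨Q, hQ, hRQ, hPQ⟩ := CfsgH1.coprime_sylow_contains hPK hcop hsolv ℓ R (hR'.1.trans hCK) hR'.2.1 hPR
  have hQ' := CfsgH1.isSylowOf_iff.1 hQ
  -- fixed points on `Q`
  have hQC : Q ⊓ centralizer ((P : Subgroup G) : Set G) = R := by
    apply le_antisymm
    · -- an `ℓ`-subgroup of `C` containing `R`
      have h1 : Q ⊓ centralizer ((P : Subgroup G) : Set G) ≤ C := by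
        rw [hC]; exact inf_le_inf_right _ hQ'.1
      have h2 : R ≤ Q ⊓ centralizer ((P : Subgroup G) : Set G) := by
        refine le_inf hRQ ?_
        have := hR'.1
        rw [hC] at this
        exact this.trans inf_le_right
      have h3 : IsPGroup ℓ ↥(Q ⊓ centralizer ((P : Subgroup G) : Set G)) := hQ'.2.1.to_le inf_le_left
      have h4 : R.relIndex (Q ⊓ centralizer ((P : Subgroup G) : Set G)) ∣ R.relIndex C := by
        rw [← Subgroup.relIndex_mul_relIndex R _ C h2 h1]
        exact Dvd.intro _ rfl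
      have h5 : R.relIndex (Q ⊓ centralizer ((P : Subgroup G) : Set G)) ∣ Nat.card ↥(Q ⊓ centralizer ((P : Subgroup G) : Set G)) :=
        Subgroup.relIndex_dvd_card _ _
      obtain ⟨n, hn⟩ := IsPGroup.iff_card.1 h3
      rw [hn] at h5
      obtain ⟨j, -, hj⟩ := (Nat.dvd_prime_pow hℓ).1 h5
      have hj0 : j = 0 := by
        by_contra hj0
        apply hR'.2.2
        refine dvd_trans ?_ h4
        rw [hj]
        exact dvd_pow_self ℓ hj0
      rw [hj0, pow_zero] at hj
      exact Subgroup.relIndex_eq_one.1 hj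
    · refine le_inf hRQ ?_
      have := hR'.1
      rw [hC] at this
      exact this.trans inf_le_right
  -- congruence
  letI : MulDistribMulAction (P : Subgroup G) Q := CfsgH1.conjMDMA hPQ
  have hsm : ∀ (a : (P : Subgroup G)) (v : Q), ((a • v : Q) : G) = a * v * (a : G)⁻¹ := fun _ _ => rfl
  have hfix : Nat.card (MulAction.fixedPoints (P : Subgroup G) Q) = Nat.card R := by
    apply Nat.card_congr
    refine ⟨fun x => ⟨x.1, ?_⟩, fun x => ⟨⟨x.1, hRQ x.2⟩, ?_⟩, fun x => rfl, fun x => rfl⟩
    · rw [← hQC]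
      refine mem_inf.2 ⟨x.1.2, ?_⟩
      rw [mem_centralizer_iff]
      intro y hy
      have h1 := congrArg (Subtype.val : Q → G) (x.2 ⟨y, hy⟩)
      rw [hsm] at h1
      exact mul_inv_eq_iff_eq_mul.1 h1
    · intro y
      apply Subtype.ext
      rw [hsm]
      have h1 : (x : G) ∈ Q ⊓ centralizer ((P : Subgroup G) : Set G) := by rw [hQC]; exact x.2
      exact mul_inv_eq_iff_eq_mul.2 (mem_centralizer_iff.1 (mem_inf.1 h1).2 y y.2)
  have hmod := P.2.card_modEq_card_fixedPoints Q
  rw [hfix] at hmod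
  have key : ∀ U V : Subgroup G, U ≤ V → Nat.card U * U.relIndex V = Nat.card V := by
    intro U V hUV
    rw [← Subgroup.card_mul_index (U.subgroupOf V)]
    rw [Nat.card_congr (Subgroup.subgroupOfEquivOfLe hUV).toEquiv]
    rfl
  have k1 := key Q K hQ'.1
  have k2 := key R C hR'.1
  have k3 := key C K hCK
  have k4 := key R Q hRQ
  have hpR : ¬ p ∣ Nat.card R := by
    intro h
    exact hKp (h.trans (Subgroup.card_dvd_of_le (hR'.1.trans hCK)))
  have hr1 : R.relIndex Q ≡ 1 [MOD p] := by
    rw [← k4] at hmod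
    have h1 : Nat.card R * R.relIndex Q ≡ Nat.card R * 1 [MOD p] := by rw [mul_one]; exact hmod
    exact Nat.ModEq.cancel_left_of_coprime ((Nat.Prime.coprime_iff_not_dvd hp.out).2 hpR) h1
  have hr2 : ∃ j, R.relIndex Q = ℓ ^ j := by
    have h5 : R.relIndex Q ∣ Nat.card Q := Subgroup.relIndex_dvd_card _ _
    obtain ⟨n, hn⟩ := IsPGroup.iff_card.1 hQ'.2.1
    rw [hn] at h5
    obtain ⟨j, -, hj⟩ := (Nat.dvd_prime_pow hℓ).1 h5
    exact ⟨j, hj⟩
  obtain ⟨j, hj⟩ := hr2
  have heq : R.relIndex Q * Q.relIndex K = R.relIndex C * C.relIndex K := by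
    have hpos : 0 < Nat.card R := Nat.card_pos
    apply Nat.eq_of_mul_eq_mul_left hpos
    rw [← mul_assoc, k4, k1, ← mul_assoc, k2, k3]
  have hne : ∀ U V : Subgroup G, U.relIndex V ≠ 0 := fun U V => Subgroup.index_ne_zero_of_finite
  have hfact : (C.relIndex K).factorization ℓ = j := by
    have h1 : (R.relIndex Q * Q.relIndex K).factorization ℓ = (R.relIndex C * C.relIndex K).factorization ℓ := by rw [heq]
    rw [Nat.factorization_mul (hne _ _) (hne _ _), Nat.factorization_mul (hne _ _) (hne _ _)] at h1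
    rw [Finsupp.add_apply, Finsupp.add_apply, Nat.factorization_eq_zero_of_not_dvd hQ'.2.2,
      Nat.factorization_eq_zero_of_not_dvd hR'.2.2, hj, hℓ.factorization_pow, Finsupp.single_eq_same] at h1
    omega
  rw [hfact, ← hj]
  exact hr1

end CfsgH3
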