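import Mathlib
import Cfsg.Agent.H3.AlpFus
import Cfsg.Agent.H3.Fusion
import Cfsg.Agent.H3.NPC

set_option autoImplicit false

/-!
Alperin's fusion theorem with tame intersections and `p`-elements.
-/

namespace CfsgH3

open Subgroup CfsgH1
open scoped Pointwise commutatorElement

universe u
variable {G : Type u} [Group G]

theorem fusion_tame [Finite G] {p : ℕ} [hp : Fact p.Prime] (P : Sylow p G) (Φ : Subgroup G → G → Prop)
    (h1 : ∀ g ∈ normalizer ((P : Subgroup G) : Set G), Φ P g)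
    (h2 : ∀ (A : Subgroup G) (g h : G), A ≤ (P : Subgroup G) → MulAut.conj g • A ≤ (P : Subgroup G) → MulAut.conj (h * g) • A ≤ (P : Subgroup G) → 
      Φ A g → Φ (MulAut.conj g • A) h → Φ A (h * g))
    (h3 : ∀ (A B : Subgroup G) (g : G), B ≤ A → A ≤ (P : Subgroup G) → MulAut.conj g • A ≤ (P : Subgroup G) → Φ A g → Φ B g)
    (h4 : ∀ Q : Sylow p G, (P : Subgroup G) ⊓ Q < P → FullNorm p (P : Subgroup G) ((P : Subgroup G) ⊓ Q) → FullNorm p (Q : Subgroup G) ((P : Subgroup G) ⊓ Q) → 
      ∀ x ∈ normalizer (((P : Subgroup G) ⊓ Q : Subgroup G) : Set G), (∃ k : ℕ, orderOf x = p ^ k) → Φ ((P : Subgroup G) ⊓ Q) x) 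
    (A : Subgroup G) (g : G) (hA : A ≤ (P : Subgroup G)) (hg : MulAut.conj g • A ≤ (P : Subgroup G)) : Φ A g := by
  refine fusion_core P Φ h1 h2 h3 ?_ _ A g rfl hA hg
  intro C hCP hfull hind n hn
  set N := normalizer (C : Set G) with hN
  set T := (P : Subgroup G) ⊓ N with hT
  have hCT : C < T := by
    have h5 := lt_inf_normalizer_of_nilpotent (P.2.isNilpotent) hCP.le hCP.ne
    first | exact h5 | (rw [inf_comm] at h5; exact h5)
  have hnC : ∀ m ∈ N, MulAut.conj m • C = C := fun m hm => conj_smul_eq_self_iff.2 hm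
  by_cases hex : ∃ m ∈ N, T ⊓ MulAut.conj m • T = C
  · obtain ⟨m, hm, hmT⟩ := hex
    obtain ⟨Q, hQ1, hQ2⟩ := tame_or P hCP.le hfull m hm hmT
    have hpel : ∀ x ∈ N, (∃ k : ℕ, orderOf x = p ^ k) → Φ C x := by
      intro x hx hxp
      have := h4 Q (by rw [hQ1]; exact hCP) (by rw [hQ1]; exact hfull) (by rw [hQ1]; exact hQ2) x (by rw [hQ1]; exact hx) hxp
      rwa [hQ1] at this
    -- closure under products
    have hmul : ∀ x ∈ N, ∀ y ∈ N, Φ C x → Φ C y → Φ C (x * y) := by
      intro x hx y hy hx' hy'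
      apply h2 C y x hCP.le (by rw [hnC y hy]; exact hCP.le) (by rw [hnC _ (mul_mem hx hy)]; exact hCP.le) hy'
      rw [hnC y hy]; exact hx'
    -- the subgroup generated by p-elements
    let S : Set G := {x | x ∈ N ∧ ∃ k : ℕ, orderOf x = p ^ k}
    have hSN : closure S ≤ N := by rw [closure_le]; exact fun x hx => hx.1
    have hS : ∀ x ∈ closure S, Φ C x := by
      intro x hx
      have key : ∀ x ∈ closure S, x ∈ N ∧ Φ C x ∧ Φ C x⁻¹ := by
        intro x hx
        induction hx using closure_induction with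
        | mem x hx => 
          obtain ⟨k, hk⟩ := hx.2
          exact ⟨hx.1, hpel x hx.1 ⟨k, hk⟩, hpel x⁻¹ (inv_mem hx.1) ⟨k, by rw [orderOf_inv]; exact hk⟩⟩
        | one => 
          have : Φ C 1 := h3 P C 1 hCP.le le_rfl (by rw [map_one, one_smul]) (h1 1 (one_mem _))
          exact ⟨one_mem _, this, by rw [inv_one]; exact this⟩
        | mul x y _ _ hx hy =>
          refine ⟨mul_mem hx.1 hy.1, hmul x hx.1 y hy.1 hx.2.1 hy.2.1, ?_⟩
          rw [mul_inv_rev]
          exact hmul _ (inv_mem hy.1) _ (inv_mem hx.1) hy.2.2 hx.2.2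
        | inv x _ hx => exact ⟨inv_mem hx.1, hx.2.2, by rw [inv_inv]; exact hx.2.1⟩
      exact (key x hx).2.1
    have hTS : T ≤ closure S := by
      intro x hx
      apply Subgroup.subset_closure
      refine ⟨hx.2, ?_⟩
      obtain ⟨k, hk⟩ := P.2 ⟨x, hx.1⟩
      have hk' : x ^ p ^ k = 1 := congrArg Subtype.val hk
      obtain ⟨i, -, hi⟩ := (Nat.dvd_prime_pow hp.out).1 (orderOf_dvd_of_pow_eq_one hk')
      exact ⟨i, hi⟩
    have hSyl : IsSylowOf p T (closure S) := by
      rw [isSylowOf_iff]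
      have h5 := isSylowOf_iff.1 hfull
      refine ⟨hTS, h5.2.1, fun h => h5.2.2 ?_⟩
      exact h.trans (Dvd.intro _ (Subgroup.relIndex_mul_relIndex T (closure S) N hTS hSN))
    have hTn : MulAut.conj n • T ≤ closure S := by
      intro x hx
      rw [mem_conj_smul] at hx
      apply Subgroup.subset_closure
      obtain ⟨k, hk⟩ := P.2 ⟨_, hx.1⟩
      have hk' : (n⁻¹ * x * n) ^ p ^ k = 1 := congrArg Subtype.val hk
      have hk2 : x ^ p ^ k = 1 := by
        have e : n⁻¹ * x * n = n⁻¹ * x * n⁻¹⁻¹ := by rw [inv_inv]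
        rw [e, conj_pow] at hk'
        have : x ^ p ^ k = n * (n⁻¹ * x ^ p ^ k * n⁻¹⁻¹) * n⁻¹ := by group
        rw [this, hk']; group
      obtain ⟨i, -, hi⟩ := (Nat.dvd_prime_pow hp.out).1 (orderOf_dvd_of_pow_eq_one hk2)
      refine ⟨?_, i, hi⟩
      have := mul_mem (mul_mem hn hx.2) (inv_mem hn)
      have e : n * (n⁻¹ * x * n) * n⁻¹ = x := by group
      rwa [e] at this
    have hTp : IsPGroup p (MulAut.conj n • T : Subgroup G) := (P.2.to_le inf_le_left : IsPGroup p T).map _
    obtain ⟨o, ho, hoT⟩ := exists_conj_le_sylowOf hSyl hTp hTn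
    have hoN : o ∈ N := hSN ho
    have hon : MulAut.conj (o * n) • T = T := by
      rw [map_mul, mul_smul]
      apply Subgroup.eq_of_le_of_card_ge hoT
      rw [card_conj_smul, card_conj_smul]
    have h5 : Φ T (o * n) := hind T (o * n) inf_le_left (by rw [hon]; exact inf_le_left) (by
      exact card_lt_card_of_lt hCT)
    have h6 : Φ C (o * n) := h3 T C (o * n) hCT.le inf_le_left (by rw [hon]; exact inf_le_left) h5
    have h7 := hmul o⁻¹ (inv_mem hoN) (o * n) (mul_mem hoN hn) (hS _ (inv_mem ho)) h6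
    rwa [inv_mul_cancel_left] at h7
  · push Not at hex
    have h5 := hex n hn
    have h6 : C ≤ T ⊓ MulAut.conj n • T := by
      refine le_inf hCT.le ?_
      rw [← hnC n hn]
      exact conj_smul_mono n hCT.le
    have h7 : C < T ⊓ MulAut.conj n • T := lt_of_le_of_ne h6 (Ne.symm h5)
    set A := MulAut.conj n⁻¹ • (T ⊓ MulAut.conj n • T) with hA
    have hnA : MulAut.conj n • A = T ⊓ MulAut.conj n • T := by
      rw [hA, ← mul_smul, ← map_mul, mul_inv_cancel, map_one, one_smul]
    have hAT : A ≤ T := by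
      intro x hx
      rw [hA, mem_conj_smul, inv_inv] at hx
      have := mem_conj_smul.1 (show n * x * n⁻¹ ∈ MulAut.conj n • T from hx.2)
      have e : n⁻¹ * (n * x * n⁻¹) * n = x := by group
      rwa [e] at this
    have hCA : C ≤ A := by
      intro x hx
      rw [hA, mem_conj_smul, inv_inv]
      apply h6
      exact (mem_normalizer_iff.1 hn x).1 hx
    apply h3 A C n hCA (hAT.trans inf_le_left) (by rw [hnA]; exact inf_le_left.trans inf_le_left)
    apply hind A n (hAT.trans inf_le_left) (by rw [hnA]; exact inf_le_left.trans inf_le_left)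
    rw [hA, card_conj_smul]
    exact card_lt_card_of_lt h7

theorem fullNorm_iff [Finite G] {p : ℕ} [hp : Fact p.Prime] (P : Sylow p G) (C : Subgroup G) : FullNorm p (P : Subgroup G) C ↔ 
    ¬ p ∣ ((P : Subgroup G) ⊓ normalizer (C : Set G)).relIndex (normalizer (C : Set G)) := by
  unfold FullNorm
  rw [isSylowOf_iff]
  exact ⟨fun h => h.2.2, fun h => ⟨inf_le_right, P.2.to_le inf_le_left, h⟩⟩

end CfsgH3
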